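import Mathlib
import Cfsg.Agent.Q3.F0

/-! S3256 (port of Q2 without nc, p ≥ 5) (port of FrD): an element of `C_R(A)` normalising `dcl D H`.  `R = rad D M`, `Z = R ⊓ 𝐂[A]`. -/

set_option autoImplicit false

namespace Cfsg.Agent.Q3

open Subgroup Cfsg Cfsg.Agent.PLocal.Amb Cfsg.Agent.FrD
open scoped commutatorElement

variable {G : Type*} [Group G] [Finite G] {p q : ℕ} {D : Set (Subgroup G)}

namespace Ce

variable (h : Ce p q D) {A H M M' : Subgroup G}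
include h

/-- One side of the main argument.  `R₀ = R ⊓ R'`, `A₁ = Z ⊓ 𝐍[M']`, `A₂ = Z' ⊓ 𝐍[M]`.
PROOF.  Use `pair` (both ways): `⁅R', R'⁆ ≤ Z'`, `Z ⊓ Z' = ⊥`, `R₀ ⊓ 𝐂[A] = ⊥` (so `⁅R₀, A⁆ = R₀` by
`comm_sup` and `R₀` is commutative), `rad D 𝐍[R₀] ≤ R₀`; `Z` centralises `M`, `Z'` centralises `M'`.
(*) An `A`-invariant `Y ≤ R' ⊓ 𝐍[R₀]` has `⁅Y, A⁆ ≤ R₀` (`comm_le_rad`).  `W = R₀ ⊔ Z'` centralises `R₀`,
is normalised by `R'`, `A`, `A₁`, and `W ≠ R'` (else (*) gives `R' = ⁅R', A⁆ ≤ R`, `M' ≤ M`).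
`T = W ⊔ A₁` has `T ⊓ R' = W` (`A₁ ⊓ R' ≤ Z ⊓ Z'`), so `T < P = R' ⊔ A₁` (a `q`-group) and
`Y₂ = R' ⊓ 𝐍[T]` is `A`-invariant, contains `W` and is not contained in `W`
(`P ⊓ 𝐍[T] = A₁ ⊔ Y₂ > T`).  For `y ∈ Y₂`, `z ∈ A₁`: `⁅y, z⁆ ∈ R' ⊓ T = W`.
(i) `x ∈ R₀`, `y ∈ Y₂`: `⁅x, y⁆ ∈ A₂`.  It lies in `Z'`; take `1 ≠ c ∈ A₁`: `c` centralises `x`,
`c y c⁻¹ = y w` with `w ∈ W ≤ C(x)`, so `c` centralises `⁅x, y⁆`, which thus normalises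
`dcl D C(c) = M` (`dcl_cent`, `le_normalizer_dcl`).  So `Y₂` normalises `J = R₀ ⊔ A₂`.
(ii) For `z ∈ A₁`, `{y ∈ Y₂ | ⁅y, z⁆ ∈ J}` is a subgroup (`⁅y y', z⁆ = y ⁅y', z⁆ y⁻¹ ⁅y, z⁆`) containing
`y⁻¹ * (a y a⁻¹)` for `y ∈ Y₂`, `a ∈ A`: if `⁅y, z⁆ = r w` (`r ∈ R₀`, `w ∈ Z'`) then
`⁅a y a⁻¹, z⁆ = (a r a⁻¹) w` and `⁅y⁻¹ y', z⁆ = y⁻¹ (⁅y', z⁆ ⁅y, z⁆⁻¹) y ∈ J`.  So `Y = ⁅Y₂, A⁆`
normalises `J ⊔ A₁`.
(iii) `¬ Y ≤ R₀` (else `Y₂ = Y ⊔ (Y₂ ⊓ 𝐂[A]) ≤ W`).  `R₀ = ⁅R₀, A⁆ ≤ Y`.  If `Y ⊓ 𝐂[A] = ⊥` then `Y`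
is commutative, so centralises `R₀`, and (*) gives `Y = ⁅Y, A⁆ ≤ R₀`.  If `A₂ = ⊥` then `Y₂`
centralises `R₀` by (i) and (*) gives `Y ≤ R₀`. -/
theorem side (hM : Blk D M) (hM' : Blk D M') (hne : M ≠ M') (hA : A ∈ D) (hAM : A ≤ M)
    (hAM' : A ≤ M') (h0 : rad D M ⊓ rad D M' ≠ ⊥) (h1 : rad D M ⊓ 𝐂[A] ⊓ 𝐍[M'] ≠ ⊥) :
    rad D M' ⊓ 𝐂[A] ⊓ 𝐍[M] ≠ ⊥ ∧ ∃ Y : Subgroup G, Y ≤ rad D M' ∧ ⁅Y, A⁆ = Y ∧ ¬ Y ≤ rad D M ∧
      Y ⊓ 𝐂[A] ≠ ⊥ ∧ Y ≤ 𝐍[rad D M ⊓ rad D M' ⊔ rad D M ⊓ 𝐂[A] ⊓ 𝐍[M'] ⊔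
        rad D M' ⊓ 𝐂[A] ⊓ 𝐍[M]] := by
  have := Fact.mk h.qp
  obtain ⟨-, -, z0, r0⟩ := h.pair hM hM' hne hA hAM hAM' h0
  obtain ⟨-, cR', -, -⟩ := h.pair hM' hM hne.symm hA hAM' hAM (inf_comm (rad D M) _ ▸ h0)
  have cM := h.cent_rad hM.ne_top hA hAM
  have cM' := h.cent_rad hM'.ne_top hA hAM'
  rw [hM.eq] at cM
  rw [hM'.eq] at cM'
  have pR := h.rad_pg hM.ne_top
  have pR' := h.rad_pg hM'.ne_top
  have e' := h.rad_comm hM'.ne_top hA hAM'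
  have nR := hAM.trans (h.le_normalizer_rad M)
  have nR' := hAM'.trans (h.le_normalizer_rad M')
  have nM' := h.normalizer_le_rad M'
  have lM := rad_le (D := D) M
  have lM' := rad_le (D := D) M'
  have ne' : ¬ rad D M' ≤ rad D M := fun e => hne (hM'.eq_of_le hM
    ((h.blk_eq hM' hA hAM').le.trans (sup_le (e.trans lM) hAM))).symm
  have star : ∀ Y ≤ rad D M', Y ≤ 𝐂[rad D M ⊓ rad D M'] → A ≤ 𝐍[Y] → ⁅Y, A⁆ ≤ rad D M :=
    fun Y h1 h2 h3 => ((h.comm_le_rad hA (pR'.to_le h1) h3 (h2.trans (centralizer_le_normalizer' _))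
      (le_normalizer_inf nR nR')).trans r0).trans inf_le_left
  have nd : ∀ c ∈ rad D M ⊓ 𝐂[A], c ≠ 1 → centralizer {c} ≤ 𝐍[M] := fun c hc c1 =>
    h.dcl_cent hM hA hAM hc c1 ▸ h.le_normalizer_dcl _
  clear r0
  generalize rad D M = R at *
  generalize rad D M' = R' at *
  have cc : ∀ x ∈ R', ∀ y ∈ R', ⁅x, y⁆ ∈ R' ⊓ 𝐂[A] := fun x hx y hy =>
    ⟨commutator_le_self _ (commutator_mem_commutator hx hy), cR' (commutator_mem_commutator hx hy)⟩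
  have cm : ∀ Y ≤ R', Y ⊓ 𝐂[A] = ⊥ → Y ≤ 𝐂[Y] := fun Y h1 h2 =>
    commutator_eq_bot_iff_le_centralizer.1 (eq_bot_iff.2 (h2.le.trans' (le_inf (commutator_le_self _)
      ((commutator_mono h1 h1).trans cR'))))
  have nC : A ≤ 𝐍[𝐂[A]] := le_normalizer_centralizer le_normalizer
  have nA : ∀ X ≤ 𝐂[A], A ≤ 𝐍[X] := fun X hX =>
    (le_centralizer_iff.1 hX).trans (centralizer_le_normalizer' _)
  have n0 : A ≤ 𝐍[R ⊓ R'] := le_normalizer_inf nR nR'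
  set A₁ := R ⊓ 𝐂[A] ⊓ 𝐍[M']
  set A₂ := R' ⊓ 𝐂[A] ⊓ 𝐍[M]
  set W := R ⊓ R' ⊔ R' ⊓ 𝐂[A]
  have a1 : A₁ ≤ 𝐂[A] := inf_le_left.trans inf_le_right
  have a2 : A₁ ≤ 𝐍[R'] := inf_le_right.trans nM'
  have a3 : A₁ ≤ 𝐂[R ⊓ R'] := inf_le_left.trans (cM.trans (centralizer_anti (inf_le_left.trans lM)))
  have w1 : W ≤ R' := sup_le inf_le_right inf_le_left
  have w2 : W ≤ 𝐂[R ⊓ R'] :=
    sup_le (cm _ inf_le_right z0) (cM'.trans (centralizer_anti (inf_le_right.trans lM')))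
  have w3 : A ≤ 𝐍[W] := le_normalizer_sup n0 (le_normalizer_inf nR' nC)
  have w4 : A₁ ≤ 𝐍[W] := le_normalizer_sup (a3.trans (centralizer_le_normalizer' _))
    (le_normalizer_inf a2 (a1.trans le_normalizer))
  have t1 : (W ⊔ A₁) ⊓ R' = W := by
    rw [sup_inf_of_le_normalizer' w1 w4, sup_eq_left]
    exact (z0.le.trans bot_le).trans' fun x hx => ⟨⟨hx.1.1.1, hx.2⟩, hx.1.1.2⟩
  have t2 := lt_inf_normalizer (isPGroup_sup (pR.to_le (inf_le_left.trans inf_le_left)) pR' a2)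
    (R := W ⊔ A₁) (lt_of_le_not_ge (sup_le (w1.trans le_sup_right) le_sup_left) fun e => ne'
      (e'.ge.trans (star _ le_rfl (((le_inf (le_sup_right.trans e) le_rfl).trans t1.le).trans w2) nR')))
  rw [sup_inf_of_le_normalizer (le_sup_right.trans le_normalizer) a2] at t2
  set Y₂ := R' ⊓ 𝐍[W ⊔ A₁]
  have y1 : ¬ Y₂ ≤ W := fun e => t2.not_ge (sup_le le_sup_right (e.trans le_sup_left))
  have y2 : A ≤ 𝐍[Y₂] := le_normalizer_inf nR'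
    (le_normalizer_normalizer (le_normalizer_sup w3 (nA _ a1)))
  have y3 : W ≤ Y₂ := le_inf w1 (le_sup_left.trans le_normalizer)
  have y4 : ∀ y ∈ Y₂, ∀ z ∈ A₁, ⁅y, z⁆ ∈ W := fun y hy z hz => t1.le
    ⟨mul_mem (conj_mem_of_mem_normalizer hy.2 (mem_sup_right hz)) (mem_sup_right (inv_mem hz)), by
      rw [show ⁅y, z⁆ = y * (z * y⁻¹ * z⁻¹) by rw [commutatorElement_def]; group]
      exact mul_mem hy.1 (conj_mem_of_mem_normalizer (a2 hz) (inv_mem hy.1))⟩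
  have pY := pR'.to_le (inf_le_left : Y₂ ≤ R')
  have i1 : ∀ y ∈ Y₂, ∀ x ∈ R ⊓ R', ⁅y, x⁆ ∈ A₂ := fun y hy x hx => by
    obtain ⟨⟨c, hc⟩, c1⟩ := ne_bot_iff_exists_ne_one.1 h1
    refine ⟨cc y hy.1 x hx.2, nd c hc.1 (fun e => c1 (Subtype.ext e))
      (mem_centralizer_singleton_iff.2 (mul_inv_eq_iff_eq_mul.1 ?_).symm)⟩
    rw [show c * ⁅y, x⁆ * c⁻¹ = y * (⁅y⁻¹, c⁆ * (c * x * c⁻¹) * ⁅y⁻¹, c⁆⁻¹) * y⁻¹ * (c * x * c⁻¹)⁻¹ by
      simp only [commutatorElement_def]; group, ← a3 hc x hx, mul_inv_cancel_right,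
      ← w2 (y4 _ (inv_mem hy) c hc) x hx, mul_inv_cancel_right, commutatorElement_def]
  have nJ : Y₂ ≤ 𝐍[R ⊓ R' ⊔ A₂] := le_normalizer_iff_cj.2 fun y hy => by
    rw [cj_sup]
    refine sup_le (cj_le_iff_forall.2 fun x hx => ?_) (cj_le_iff_forall.2 fun x hx => ?_)
    · rw [show y * x * y⁻¹ = ⁅y, x⁆ * x by rw [commutatorElement_def]; group]
      exact mul_mem (mem_sup_right (i1 y hy x hx)) (mem_sup_left hx)
    · rw [cM' hx.1 y (lM' hy.1), mul_inv_cancel_right]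
      exact mem_sup_right hx
  have l1 : ⁅Y₂, A⁆ ≤ Y₂ := Solv.commutator_le_of_le_normalizer y2
  have l2 := h.comm_comm hA pY y2
  have l3 : ¬ ⁅Y₂, A⁆ ≤ R := fun e => y1 ((h.comm_sup hA pY y2).ge.trans
    (sup_le_sup (le_inf e (l1.trans inf_le_left)) (inf_le_inf_right _ inf_le_left)))
  refine ⟨fun e => l3 (star _ inf_le_left (fun y hy x hx => ?_) y2), ⁅Y₂, A⁆, l1.trans inf_le_left, l2,
    l3, fun e => l3 (l2.ge.trans (star _ (l1.trans inf_le_left) ((cm _ (l1.trans inf_le_left) e).trans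
      (centralizer_anti ?_)) (le_normalizer_commutator y2 le_normalizer))),
    commutator_le.2 fun y hy a ha => mem_normalizer_of_cj_le ?_⟩
  · exact (commutatorElement_eq_one_iff_mul_comm.1 (mem_bot.1 (e.le (i1 y hy x hx)))).symm
  · have := h.comm_sup hA (pR.to_le inf_le_left) n0
    rw [z0, sup_bot_eq] at this
    exact this.ge.trans (commutator_mono (le_sup_left.trans y3) le_rfl)
  · rw [sup_right_comm, cj_sup, cj_of_mem_normalizer (nJ (l1 (commutator_mem_commutator hy ha)))]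
    refine sup_le le_sup_left (cj_le_iff_forall.2 fun z hz => ?_)
    obtain ⟨r, hr, w, hw, e⟩ := (mem_sup_of_le_normalizer_left ((cM'.trans (centralizer_anti
      (inf_le_right.trans lM'))).trans (centralizer_le_normalizer' _))).1 (y4 _ (inv_mem hy) z hz)
    have e1 : a⁻¹ * z * a = z := by rw [mul_assoc, ← a1 hz a ha, inv_mul_cancel_left]
    have e2 : a * w * a⁻¹ = w := by rw [hw.2 a ha, mul_inv_cancel_right]
    have e3 : ⁅y, a⁆ * z * ⁅y, a⁆⁻¹ = y * (a * r * a⁻¹ * r⁻¹) * y⁻¹ * z :=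
      calc _ = y * (a * ⁅y⁻¹, a⁻¹ * z * a⁆ * a⁻¹ * ⁅y⁻¹, z⁆⁻¹) * y⁻¹ * z := by
            simp only [commutatorElement_def]; group
        _ = y * (a * r * a⁻¹ * (a * w * a⁻¹) * w⁻¹ * r⁻¹) * y⁻¹ * z := by rw [e1, e]; group
        _ = _ := by rw [e2]; group
    rw [e3]
    exact mul_mem (mem_sup_left (conj_mem_of_mem_normalizer (nJ hy) (mem_sup_left
      (mul_mem (conj_mem_of_mem_normalizer (n0 ha) hr) (inv_mem hr))))) (mem_sup_right hz)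

/-- PROOF.  `side` twice gives `Y ≤ R'`, `Y' ≤ R` normalising the same `E₀ = R₀ ⊔ A₁ ⊔ A₂`, a
nontrivial `q`-group (inside `R ⊔ A₂`) normalised by `A`.  `K = 𝐍[E₀] ≠ ⊤`, `Y, Y' ≤ rad D K`
(`comm_le_rad`); `1 ≠ d ∈ Y' ⊓ 𝐂[A]` gives `dcl D K ≤ M` (`le_blk_of_cent`), so `Y ≤ rad D K ≤ R`. -/
theorem inf_normalizer_eq_bot (hM : Blk D M) (hM' : Blk D M') (hne : M ≠ M') (hA : A ∈ D)
    (hAM : A ≤ M) (hAM' : A ≤ M') (h0 : rad D M ⊓ rad D M' ≠ ⊥) :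
    rad D M ⊓ 𝐂[A] ⊓ 𝐍[M'] = ⊥ := by
  by_contra h1
  obtain ⟨h2, Y, y1, y2, y3, -, y5⟩ := h.side hM hM' hne hA hAM hAM' h0 h1
  obtain ⟨-, Y', z1, z2, -, z4, z5⟩ :=
    h.side hM' hM hne.symm hA hAM' hAM (inf_comm (rad D M) _ ▸ h0) h2
  rw [inf_comm (rad D M'), sup_right_comm] at z5
  have nA : ∀ X ≤ 𝐂[A], A ≤ 𝐍[X] := fun X hX =>
    (le_centralizer_iff.1 hX).trans (centralizer_le_normalizer' _)
  have hK := h.normalizer_ne_top (X := rad D M ⊓ rad D M' ⊔ rad D M ⊓ 𝐂[A] ⊓ 𝐍[M'] ⊔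
    rad D M' ⊓ 𝐂[A] ⊓ 𝐍[M]) ((isPGroup_sup ((h.rad_pg hM'.ne_top).to_le (inf_le_left.trans inf_le_left))
      (h.rad_pg hM.ne_top) (inf_le_right.trans (h.normalizer_le_rad M))).to_le (sup_le (sup_le
        (inf_le_left.trans le_sup_right) (inf_le_left.trans (inf_le_left.trans le_sup_right)))
          le_sup_left)) fun e => h0 (eq_bot_iff.2 (le_sup_left.trans (le_sup_left.trans e.le)))
  have hAK := le_normalizer_sup (le_normalizer_sup (le_normalizer_inf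
    (hAM.trans (h.le_normalizer_rad M)) (hAM'.trans (h.le_normalizer_rad M')))
    (nA (rad D M ⊓ 𝐂[A] ⊓ 𝐍[M']) (inf_le_left.trans inf_le_right)))
    (nA (rad D M' ⊓ 𝐂[A] ⊓ 𝐍[M]) (inf_le_left.trans inf_le_right))
  obtain ⟨⟨d, hd⟩, d1⟩ := ne_bot_iff_exists_ne_one.1 z4
  exact y3 (y2.ge.trans ((h.comm_le_rad hA ((h.rad_pg hM'.ne_top).to_le y1)
    (y2 ▸ Solv.le_normalizer_commutator_right Y A) y5 hAK).trans (rad_le_rad (h.le_blk_of_cent hM hA hAM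
      hK hAK ⟨z1 hd.1, hd.2⟩ (h.comm_le_rad hA ((h.rad_pg hM.ne_top).to_le z1)
        (z2 ▸ Solv.le_normalizer_commutator_right Y' A) z5 hAK (z2.ge hd.1))
          fun e => d1 (Subtype.ext e)))))

/-- PROOF.  Let `R_H = rad D H`, `dcl D H = R_H ⊔ A`; assume `R_H ≠ ⊥`.
(1) `R_H ⊓ R ≠ ⊥`: `A` does not centralise `R_H = ⁅R_H, A⁆`, so by `Solv.p_times_q` (with
`P = zpowers c`, `Q = A`, `U = R_H`) `A` does not centralise `X = R_H ⊓ C(c)`, and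
`⊥ ≠ ⁅X, A⁆ ≤ rad D C(c) = R` (`comm_le_rad`, `dcl_cent`, `rad_dcl`).
(2) `R_H ⊓ 𝐂[A] = ⊥`: `R₀ = R_H ⊓ R`, `K = 𝐍[R₀] ≠ ⊤` contains `A` and `Z`, so `rad D K ≤ R`
(`rad_le_of_norm`); `W = R_H ⊓ K = ⁅W, A⁆ ≤ rad D K ≤ R`, so `R₀ = R_H` (`eq_of_inf_normalizer_le`).
(3) `1 ≠ d ∈ R_H ⊓ 𝐂[A]`: take a block `M' ≥ dcl D H` (`exists_blk`); `d` and `c d c⁻¹` lie in
`rad D M' ⊓ 𝐂[A]`, so `M' = dcl D C(d) = dcl D C(c d c⁻¹) = cj(c, M')` (`dcl_cent`, `dcl_cj`,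
`centralizer_singleton_conj`); `inf_normalizer_eq_bot` forces `M = M'`. -/
theorem le_blk (hM : Blk D M) (hA : A ∈ D) (hAM : A ≤ M) {c : G} (hc : c ∈ rad D M ⊓ 𝐂[A])
    (h1 : c ≠ 1) (hH : H ≠ ⊤) (hAH : A ≤ H) (hcH : c ∈ 𝐍[dcl D H]) : dcl D H ≤ M := by
  have := Fact.mk h.qp
  have pH := h.rad_pg hH
  have nH := hAH.trans (h.le_normalizer_rad H)
  have cH := normalizer_dcl_le H hcH
  by_cases h0 : rad D H = ⊥
  · rwa [h.dcl_eq hH hA hAH, h0, bot_sup_eq]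
  have cA : A ≤ 𝐂[zpowers c] := le_centralizer_iff.1 (zpowers_le.2 hc.2)
  have s1 : rad D H ⊓ rad D M ≠ ⊥ := fun e => by
    have nX := le_normalizer_inf nH (cA.trans le_normalizer)
    refine h0 ((h.rad_comm hH hA hAH).symm.trans (commutator_eq_bot_iff_le_centralizer.2
      (le_centralizer_iff.1 (Solv.p_times_q q (zpowers c) A _ ((h.rad_pg hM.ne_top).to_le
        (zpowers_le.2 hc.1)) (h.card A hA ▸ (Nat.coprime_primes h.pp h.qp).2 h.pq) pH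
          (zpowers_le.2 hc.2) (zpowers_le.2 cH) nH
            (commutator_eq_bot_iff_le_centralizer.1 (eq_bot_iff.2 (e.le.trans' (le_inf
              ((Solv.commutator_le_of_le_normalizer nX).trans inf_le_left) ?_))))))))
    rw [← h.dcl_cent hM hA hAM hc h1, rad_dcl, ← centralizer_zpowers]
    exact h.comm_le_rad hA (pH.to_le inf_le_left) nX inf_le_right cA
  by_cases h2 : rad D H ⊓ 𝐂[A] = ⊥
  · have hAK := le_normalizer_inf nH (hAM.trans (h.le_normalizer_rad M))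
    have nW := le_normalizer_inf nH (hAK.trans le_normalizer)
    have k1 := h.rad_le_of_norm hM hA hAM (h.normalizer_ne_top (pH.to_le inf_le_left) s1) hAK
      ((((h.cent_rad hM.ne_top hA hAM).trans (centralizer_anti (inf_le_right.trans (rad_le_dcl M)))).trans
        (centralizer_le_normalizer' _)).trans (h.le_normalizer_dcl _))
      (.inl fun e => h1 (mem_bot.1 (e.le hc)))
    have k2 := eq_of_inf_normalizer_le pH (inf_le_left : _ ⊓ rad D M ≤ _) (le_inf inf_le_left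
      ((h.comm_sup hA (pH.to_le inf_le_left) nW).ge.trans (sup_le
        ((h.comm_le_rad hA (pH.to_le inf_le_left) nW inf_le_right hAK).trans k1)
        ((inf_le_inf_right _ inf_le_left).trans (h2.le.trans bot_le)))))
    exact (h.dcl_eq hH hA hAH).le.trans (sup_le (k2.ge.trans (inf_le_right.trans (rad_le M))) hAM)
  obtain ⟨⟨d, hd⟩, d1⟩ := ne_bot_iff_exists_ne_one.1 h2
  have d1 : d ≠ 1 := fun e => d1 (Subtype.ext e)
  obtain ⟨M', hM', hle⟩ := exists_blk (D := D) hH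
  have hAM' := (le_dcl hA hAH).trans hle
  have k := h.dcl_cent hM' hA hAM' (c := c * d * c⁻¹) ⟨rad_le_rad hle (conj_mem_of_mem_normalizer cH hd.1),
    mul_mem (mul_mem hc.2 hd.2) ((𝐂[A]).inv_mem hc.2)⟩ (by simpa using d1)
  rw [centralizer_singleton_conj, h.dcl_cj, h.dcl_cent hM' hA hAM' ⟨rad_le_rad hle hd.1, hd.2⟩ d1] at k
  by_contra hne
  exact h1 (mem_bot.1 ((h.inf_normalizer_eq_bot hM hM' (fun e => hne (e ▸ hle)) hA hAM hAM' fun e =>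
    s1 (eq_bot_iff.2 (e.le.trans' (le_inf inf_le_right (inf_le_left.trans (rad_le_rad hle)))))).le
      ⟨hc, cj_eq_iff.1 k⟩))

end Ce

end Cfsg.Agent.Q3
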