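import Mathlib
import Cfsg.Agent.PLocal.AmbSyl
import Cfsg.Agent.Solv.Coprime2

/-!
S3256 (port of Q2 without nc, p ≥ 5), local theorem: definitions.  A datum `d = (a, R, Z, L)`: `R` a 2-group with `Φ(R) ≤ Z`, `Z`
central and elementary, `a` of odd prime order with `C_R(a) = Z`, `L = R C_L(a)`.
-/

set_option autoImplicit false

namespace Cfsg.Agent.Q3

open Subgroup Cfsg Cfsg.Agent.PLocal.Amb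
open scoped commutatorElement

variable {G : Type*} [Group G]

structure Dat (G : Type*) [Group G] where
  a : G
  R : Subgroup G
  Z : Subgroup G
  L : Subgroup G

def Dat.conj (g : G) (d : Dat G) : Dat G := ⟨g * d.a * g⁻¹, cj(g, d.R), cj(g, d.Z), cj(g, d.L)⟩

/-- `x ∈ R C(a)` -/
def Pl (d : Dat G) (x : G) : Prop := ∃ ρ ∈ d.R, ∃ u : G, d.a * u = u * d.a ∧ x = ρ * u

/-- the axioms on one datum that do not mention 2-elements of `L` -/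
structure Lc0 (p : ℕ) (d : Dat G) : Prop where
  pp : p.Prime
  p2 : p ≠ 2
  ord : orderOf d.a = p
  pg : IsPGroup 2 d.R
  ne : d.Z ≠ ⊥
  ZR : d.Z ≤ d.R
  Zc : d.Z ≤ 𝐂[d.R]
  Za : ∀ c ∈ d.Z, d.a * c = c * d.a
  Z2 : ∀ c ∈ d.Z, c * c = 1
  sq : ∀ x ∈ d.R, x * x ∈ d.Z
  fix : ∀ x ∈ d.R, d.a * x = x * d.a → x ∈ d.Z
  gen : ⁅d.R, zpowers d.a⁆ = d.R
  RL : d.R ≤ d.L
  aL : d.a ∈ d.L
  nR : d.L ≤ 𝐍[d.R]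
  nZ : d.L ≤ 𝐍[d.Z]
  semi : ∀ x ∈ d.L, Pl d (x * x) → ¬ Pl d x → ∃ ρ ∈ d.R, ∃ u : G, u * d.a * u⁻¹ = d.a⁻¹ ∧ x = ρ * u
  cent : ∀ c ∈ d.Z, c ≠ 1 → centralizer ({c} : Set G) ≤ d.L
  nrm : ∀ X : Subgroup G, IsPGroup 2 X → X ≠ ⊥ → d.R ≤ 𝐍[X] → d.a ∈ 𝐍[X] → 𝐍[X] ≤ d.L

/-- the axioms on one datum -/
structure Lc (p : ℕ) (d : Dat G) : Prop extends Lc0 p d where
  two : ∀ x ∈ d.L, Pl d x → (∃ k, x ^ 2 ^ k = 1) → x ∈ 𝐂[d.Z]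

/-- the axioms on a conjugation invariant family -/
structure Fam (p : ℕ) (𝓕 : Set (Dat G)) : Prop where
  p3 : p ≠ 3
  inv : ∀ d ∈ 𝓕, ∀ g : G, d.conj g ∈ 𝓕
  loc : ∀ d ∈ 𝓕, Lc p d
  card : ∀ d ∈ 𝓕, ∀ e ∈ 𝓕, Nat.card d.Z = Nat.card e.Z
  ti : ∀ d ∈ 𝓕, ∀ e ∈ 𝓕, ∀ c ∈ d.Z, c ∈ e.Z → c ≠ 1 → d.R = e.R ∧ d.Z = e.Z ∧ d.L = e.L
  pl : ∀ d ∈ 𝓕, ∀ e ∈ 𝓕, ∀ x ∈ e.R, x ∈ d.L → x * x = 1 → Pl d x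
  mx0 : ∀ d ∈ 𝓕, ∀ e ∈ 𝓕, d.R ≤ e.L → e.R ≤ d.L → (∀ x ∈ d.R, Pl e x) → (∀ x ∈ e.R, Pl d x) →
    d.Z = e.Z
  dec4 : ∀ d ∈ 𝓕, Nat.card d.Z ≠ 2 → ∀ u ∈ d.L, d.a * u = u * d.a → u * u = 1 → u ∈ d.Z
  dec : ∀ d ∈ 𝓕, ∀ e ∈ 𝓕, d.Z ≠ e.Z → ∀ ρ ∈ d.R, ∀ u ∈ d.L, d.a * u = u * d.a → ρ * u ∈ e.Z →
    u * u = 1 → u ∈ d.Z

/-- `W d τ = {ρ ∈ R | ⁅ρ, τ⁆ ∈ Z}` (a subgroup when `R` normalises `Z`). -/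
def W (d : Dat G) (τ : G) : Subgroup G where
  carrier := {ρ | ρ ∈ d.R ⊓ 𝐍[d.Z] ∧ ⁅ρ, τ⁆ ∈ d.Z}
  one_mem' := ⟨one_mem _, by simp⟩
  mul_mem' := fun {x y} hx hy => ⟨mul_mem hx.1 hy.1, by
    rw [show ⁅x * y, τ⁆ = x * ⁅y, τ⁆ * x⁻¹ * ⁅x, τ⁆ by simp only [commutatorElement_def]; group]
    exact mul_mem (conj_mem_of_mem_normalizer hx.1.2 hy.2) hx.2⟩
  inv_mem' := fun {x} hx => ⟨inv_mem hx.1, by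
    rw [show ⁅x⁻¹, τ⁆ = x⁻¹ * ⁅x, τ⁆⁻¹ * x⁻¹⁻¹ by simp only [commutatorElement_def]; group]
    exact conj_mem_of_mem_normalizer (inv_mem hx.1.2) (inv_mem hx.2)⟩

theorem Lc0.mem_W {p : ℕ} {d : Dat G} (h : Lc0 p d) {τ ρ : G} :
    ρ ∈ W d τ ↔ ρ ∈ d.R ∧ ⁅ρ, τ⁆ ∈ d.Z :=
  ⟨fun k => ⟨k.1.1, k.2⟩, fun k => ⟨⟨k.1, h.nZ (h.RL k.1)⟩, k.2⟩⟩

/-- `WW d e = {ρ ∈ R | ⁅ρ, e.Z⁆ ≤ Z}` -/
def WW (d e : Dat G) : Subgroup G := d.R ⊓ ⨅ z ∈ e.Z, W d z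

theorem Lc0.mem_WW {p : ℕ} {d e : Dat G} (h : Lc0 p d) {ρ : G} :
    ρ ∈ WW d e ↔ ρ ∈ d.R ∧ ∀ z ∈ e.Z, ⁅ρ, z⁆ ∈ d.Z := by
  simp only [WW, mem_inf, mem_iInf, h.mem_W]
  exact ⟨fun k => ⟨k.1, fun z hz => (k.2 z hz).2⟩, fun k => ⟨k.1, fun z hz => ⟨k.1, k.2 z hz⟩⟩⟩

/-- adjacent data: `Z ≠ Z'` commute -/
def Adj (d e : Dat G) : Prop := d.Z ≠ e.Z ∧ e.Z ≤ 𝐂[d.Z]

theorem Adj.symm {d e : Dat G} (h : Adj d e) : Adj e d := ⟨h.1.symm, le_centralizer_iff.1 h.2⟩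

/-- case α -/
def Alpha (d e : Dat G) : Prop := e.Z ≤ d.R ∧ ∀ i : ℕ, cj(d.a ^ i, e.Z) ≤ 𝐂[e.Z]

/-- every element of `z Z` is conjugate to `z` under `WW d e` -/
def Full (d e : Dat G) : Prop := ∀ z ∈ e.Z, z ≠ 1 → ∀ c ∈ d.Z, ∃ ρ ∈ WW d e, ⁅ρ, z⁆ = c

/-- case β -/
def Beta (d e : Dat G) : Prop :=
  Full d e ∧ (e.Z ≤ d.R → ∃ i : ℕ, ∀ z ∈ e.Z, z ≠ 1 → ∀ c ∈ d.Z, ∃ ρ ∈ cj(d.a ^ i, e.Z), ⁅ρ, z⁆ = c)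

theorem pl_of_comm {d : Dat G} {u : G} (h : d.a * u = u * d.a) : Pl d u :=
  ⟨1, one_mem _, u, h, (one_mul u).symm⟩

theorem pl_of_mem {d : Dat G} {x : G} (h : x ∈ d.R) : Pl d x :=
  ⟨x, h, 1, by rw [mul_one, one_mul], (mul_one x).symm⟩

theorem Lc0.pl_mul {p : ℕ} {d : Dat G} (h : Lc0 p d) {x y : G} (hx : x ∈ d.L) (h1 : Pl d x)
    (h2 : Pl d y) : Pl d (x * y) := by
  obtain ⟨ρ, hρ, u, hu, rfl⟩ := h1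
  obtain ⟨ρ', hρ', u', hu', rfl⟩ := h2
  have uL : u ∈ d.L := by simpa using mul_mem (inv_mem (h.RL hρ)) hx
  exact ⟨ρ * (u * ρ' * u⁻¹), mul_mem hρ (conj_mem_of_mem_normalizer (h.nR uL) hρ'), u * u',
    Commute.mul_right hu hu', by group⟩

theorem Lc0.pl_inv {p : ℕ} {d : Dat G} (h : Lc0 p d) {x : G} (hx : x ∈ d.L) (h1 : Pl d x) :
    Pl d x⁻¹ := by
  obtain ⟨ρ, hρ, u, hu, rfl⟩ := h1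
  have uL : u ∈ d.L := by simpa using mul_mem (inv_mem (h.RL hρ)) hx
  exact ⟨u⁻¹ * ρ⁻¹ * u⁻¹⁻¹, conj_mem_of_mem_normalizer (h.nR (inv_mem uL)) (inv_mem hρ), u⁻¹,
    Commute.inv_right hu, by group⟩

/-- `R C_L(a)` has index at most two among the `x` with `x x ∈ R C(a)` -/
theorem Lc0.pl_idx {p : ℕ} {d : Dat G} (h : Lc0 p d) {x y : G} (hx : x ∈ d.L) (hy : y ∈ d.L)
    (h1 : Pl d (x * x)) (h2 : Pl d (y * y)) (n1 : ¬ Pl d x) (n2 : ¬ Pl d y) : Pl d (x * y) := by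
  obtain ⟨ρ, hρ, u, hu, rfl⟩ := h.semi x hx h1 n1
  obtain ⟨ρ', hρ', u', hu', rfl⟩ := h.semi y hy h2 n2
  have uL : u ∈ d.L := by simpa using mul_mem (inv_mem (h.RL hρ)) hx
  refine ⟨ρ * (u * ρ' * u⁻¹), mul_mem hρ (conj_mem_of_mem_normalizer (h.nR uL) hρ'), u * u', ?_,
    by group⟩
  calc d.a * (u * u') = (u * d.a * u⁻¹)⁻¹ * (u * u') := by rw [hu, inv_inv]
    _ = u * (u' * d.a * u'⁻¹) * u' := by rw [hu']; group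
    _ = _ := by group

end Cfsg.Agent.Q3
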