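import Mathlib
import Cfsg.Agent.Q3.F1
import Cfsg.Agent.Q3.LDefs

/-! S3256 (port of Q2 without nc, p ≥ 5): the data attached to the blocks of the minimal counterexample. -/

set_option autoImplicit false

namespace Cfsg.Agent.Q3

open Subgroup Cfsg Cfsg.Agent.PLocal.Amb Cfsg.Agent.FrD

variable {G : Type*} [Group G]

/-- the datum of a block `M` and a generator `a` of a point of `M` -/
def dat (D : Set (Subgroup G)) (M : Subgroup G) (a : G) : Dat G :=
  ⟨a, rad D M, rad D M ⊓ 𝐂[zpowers a], 𝐍[M]⟩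

/-- flags: a block `M` on the point `zpowers a` -/
structure Fl (D : Set (Subgroup G)) (M : Subgroup G) (a : G) : Prop where
  blk : Blk D M
  pt : zpowers a ∈ D
  le : zpowers a ≤ M
  nz : rad D M ⊓ 𝐂[zpowers a] ≠ ⊥

def fam (D : Set (Subgroup G)) : Set (Dat G) := {d | ∃ M a, Fl D M a ∧ d = dat D M a}

@[simp] theorem dat_a (D : Set (Subgroup G)) (M : Subgroup G) (a : G) : (dat D M a).a = a := rfl
@[simp] theorem dat_R (D : Set (Subgroup G)) (M : Subgroup G) (a : G) : (dat D M a).R = rad D M := rfl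
@[simp] theorem dat_Z (D : Set (Subgroup G)) (M : Subgroup G) (a : G) :
    (dat D M a).Z = rad D M ⊓ 𝐂[zpowers a] := rfl
@[simp] theorem dat_L (D : Set (Subgroup G)) (M : Subgroup G) (a : G) : (dat D M a).L = 𝐍[M] := rfl

end Cfsg.Agent.Q3
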