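import Mathlib
import Cfsg.Agent.Q3.LDefs

/-!
S3256 (port of Q2 without nc, p ≥ 5), local theorem A: one datum.  `⁅x, y⁆ = x y x⁻¹ y⁻¹`, so `ρ z ρ⁻¹ = ⁅ρ, z⁆ z`.
-/

set_option autoImplicit false
set_option linter.unusedSectionVars false
set_option linter.unusedVariables false

namespace Cfsg.Agent.Q3

open Subgroup Cfsg Cfsg.Agent.PLocal.Amb
open scoped commutatorElement

variable {G : Type*} [Group G] [Finite G] {p : ℕ} {d : Dat G}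

namespace Lc0

variable (h : Lc0 p d) {τ ρ u x y : G} {B : Subgroup G}
include h

theorem lA_zc {c : G} (hc : c ∈ d.Z) (hx : x ∈ d.R) : x * c = c * x :=
  mem_centralizer_iff.1 (h.Zc hc) x hx

theorem lA_nz {c : G} (hx : x ∈ d.L) (hc : c ∈ d.Z) : x * c * x⁻¹ ∈ d.Z :=
  conj_mem_of_mem_normalizer (h.nZ hx) hc

theorem lA_nr (hx : x ∈ d.L) (hy : y ∈ d.R) : x * y * x⁻¹ ∈ d.R :=
  conj_mem_of_mem_normalizer (h.nR hx) hy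

theorem lA_az {c : G} (hc : c ∈ d.Z) : d.a * c * d.a⁻¹ = c := by
  rw [h.Za c hc, mul_inv_cancel_right]

theorem lA_Zc : d.Z ≤ 𝐂[zpowers d.a] := by
  rw [PLocal.Amb.centralizer_zpowers]
  exact fun c hc => mem_centralizer_singleton_iff.2 (h.Za c hc).symm

omit h in
theorem lA_ker (f : G → G) (hf : ∀ x ∈ B, ∀ y ∈ B, f (x * y) = f x * f y) :
    (∀ x ∈ B, f x * f x⁻¹ = 1) ∧ ∃ K : Subgroup G, ∀ x, x ∈ K ↔ x ∈ B ∧ f x = 1 := by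
  have h1 : f 1 = 1 := by
    have := hf 1 (one_mem _) 1 (one_mem _)
    rw [mul_one] at this
    exact (left_eq_mul.1 this)
  have h2 : ∀ x ∈ B, f x * f x⁻¹ = 1 := fun x hx => by
    rw [← hf x hx _ (inv_mem hx), mul_inv_cancel, h1]
  exact ⟨h2, { carrier := {x | x ∈ B ∧ f x = 1}
               one_mem' := ⟨one_mem _, h1⟩
               mul_mem' := fun {a b} ha hb =>
                 ⟨mul_mem ha.1 hb.1, by rw [hf a ha.1 b hb.1, ha.2, hb.2, mul_one]⟩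
               inv_mem' := fun {a} ha => ⟨B.inv_mem ha.1, by
                 have := h2 a ha.1
                 rwa [ha.2, one_mul] at this⟩ }, fun _ => Iff.rfl⟩

omit h in
theorem lA_cj (ha : d.a * u = u * d.a) (x : G) :
    ⁅d.a * x * d.a⁻¹, u⁆ = d.a * ⁅x, u⁆ * d.a⁻¹ := by
  rw [conjugate_commutatorElement, ha, mul_inv_cancel_right]

omit h in
theorem lA_mul (x ρ u : G) : ⁅x, ρ * u⁆ = ⁅x, ρ⁆ * (ρ * ⁅x, u⁆ * ρ⁻¹) := by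
  simp only [commutatorElement_def]; group

/-- PROOF.  `⁅x, y⁆ = (x x) ((x⁻¹ y) (x⁻¹ y)) (y y)⁻¹`, `h.sq`. -/
theorem comm_mem (hx : x ∈ d.R) (hy : y ∈ d.R) : ⁅x, y⁆ ∈ d.Z := by
  rw [show ⁅x, y⁆ = x * x * (x⁻¹ * y * (x⁻¹ * y)) * (y * y)⁻¹ by
    simp only [commutatorElement_def]; group]
  exact mul_mem (mul_mem (h.sq x hx) (h.sq _ (mul_mem (inv_mem hx) hy))) (inv_mem (h.sq y hy))

/-- PROOF.  `a ^ n y a⁻¹ ^ n = y c ^ n`, so `c ^ p = 1 = c ^ 2`, `c = 1` (`p` odd), `h.fix`. -/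
theorem fix_mod (hy : y ∈ d.R) (hc : y⁻¹ * (d.a * y * d.a⁻¹) ∈ d.Z) : y ∈ d.Z := by
  obtain ⟨c, e⟩ : ∃ c, d.a * y * d.a⁻¹ = y * c := ⟨_, (mul_inv_cancel_left y _).symm⟩
  rw [e, inv_mul_cancel_left] at hc
  have k : ∀ n : ℕ, d.a ^ n * y * (d.a ^ n)⁻¹ = y * c ^ n := fun n => by
    induction n with
    | zero => simp
    | succ n ih =>
      rw [pow_succ', pow_succ', ← mul_assoc y, ← e, ← h.lA_az (pow_mem hc n), _root_.conj_mul, ← ih]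
      group
  have k1 := k p
  obtain ⟨m, hm⟩ := h.pp.odd_of_ne_two h.p2
  rw [← h.ord, pow_orderOf_eq_one, h.ord, hm, pow_succ, pow_mul, pow_two, h.Z2 c hc] at k1
  have k2 : c = 1 := by simpa using k1
  rw [k2, mul_one] at e
  exact h.fix y hy (mul_inv_eq_iff_eq_mul.1 e)

/-- `B = ⁅B, a⁆ (B ⊓ Z)`.  PROOF.  `Solv.coprime_commutator_sup_centralizer (zpowers a) B` (orders `p`
and a power of 2), `B ⊓ 𝐂[zpowers a] ≤ Z` by `h.fix`, `Z ≤ 𝐂[zpowers a]` by `h.Za`. -/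
theorem comm_sup (hB : B ≤ d.R) (ha : d.a ∈ 𝐍[B]) : ⁅B, zpowers d.a⁆ ⊔ B ⊓ d.Z = B := by
  haveI := Fact.mk Nat.prime_two
  obtain ⟨n, hn⟩ := IsPGroup.iff_card.1 (h.pg.to_le hB)
  have := Solv.coprime_commutator_sup_centralizer (zpowers d.a) B (zpowers_le.2 ha) (by
    rw [hn, Nat.card_zpowers, h.ord]
    exact ((Nat.coprime_primes h.pp Nat.prime_two).2 h.p2).pow_right n) (Or.inl inferInstance)
  rwa [show B ⊓ 𝐂[zpowers d.a] = B ⊓ d.Z from le_antisymm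
    (le_inf inf_le_left fun x hx => h.fix x (hB hx.1) (hx.2 _ (mem_zpowers _)))
    (inf_le_inf_left _ h.lA_Zc)] at this

/-- An `a`-invariant homomorphism `B → Z` kills `⁅B, a⁆`.  PROOF.  `{x ∈ B | f x = 1}` is a subgroup
(`f 1 = 1`, `f x⁻¹ * f x = 1`); `f (a ^ n x a⁻¹ ^ n) = f x`; `⁅x, a ^ n⁆ = x * (a ^ n x⁻¹ a⁻¹ ^ n)`
(`mem_zpowers_iff` → natural powers via `mem_powers_iff_mem_zpowers`). -/
theorem hom_comm (hB : B ≤ d.R) (ha : d.a ∈ 𝐍[B]) (f : G → G)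
    (hf : ∀ x ∈ B, ∀ y ∈ B, f (x * y) = f x * f y) (hi : ∀ x ∈ B, f (d.a * x * d.a⁻¹) = f x) :
    ∀ x ∈ ⁅B, zpowers d.a⁆, f x = 1 := by
  obtain ⟨h2, K, hK⟩ := lA_ker f hf
  have k : ∀ n : ℕ, ∀ x ∈ B, f (d.a ^ n * x * (d.a ^ n)⁻¹) = f x := fun n x hx => by
    induction n with
    | zero => simp
    | succ n ih =>
      rw [← ih, ← hi _ (conj_mem_of_mem_normalizer (pow_mem ha n) hx)]
      congr 1
      rw [pow_succ']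
      group
  have : ⁅B, zpowers d.a⁆ ≤ K := commutator_le.2 fun x hx g hg => by
    obtain ⟨n, rfl⟩ := mem_powers_iff_mem_zpowers.2 hg
    have m := conj_mem_of_mem_normalizer (pow_mem ha n) (inv_mem hx)
    rw [show ⁅x, d.a ^ n⁆ = x * (d.a ^ n * x⁻¹ * (d.a ^ n)⁻¹) by
      simp only [commutatorElement_def, mul_assoc], hK]
    exact ⟨mul_mem hx m, by rw [hf x hx _ m, k n _ (inv_mem hx), h2 x hx]⟩
  exact fun x hx => ((hK x).1 (this hx)).2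

/-- PROOF.  `hom_comm`, `comm_sup`: the kernel contains both pieces. -/
theorem hom_triv (hB : B ≤ d.R) (ha : d.a ∈ 𝐍[B]) (f : G → G)
    (hf : ∀ x ∈ B, ∀ y ∈ B, f (x * y) = f x * f y) (hi : ∀ x ∈ B, f (d.a * x * d.a⁻¹) = f x)
    (h1 : ∀ c ∈ B, c ∈ d.Z → f c = 1) : ∀ x ∈ B, f x = 1 := by
  obtain ⟨-, K, hK⟩ := lA_ker f hf
  have : B ≤ K := (h.comm_sup hB ha).ge.trans (sup_le
    (fun x hx => (hK x).2 ⟨(le_sup_left.trans (h.comm_sup hB ha).le) hx,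
      h.hom_comm hB ha f hf hi x hx⟩) fun x hx => (hK x).2 ⟨hx.1, h1 x hx.1 hx.2⟩)
  exact fun x hx => ((hK x).1 (this hx)).2

theorem W_le (τ : G) : W d τ ≤ d.R := fun _ hx => (h.mem_W.1 hx).1

/-- PROOF.  `⁅c, τ⁆ = c * (τ c⁻¹ τ⁻¹)`. -/
theorem Z_le_W (hτ : τ ∈ d.L) : d.Z ≤ W d τ := fun c hc =>
  h.mem_W.2 ⟨h.ZR hc, by
    rw [show ⁅c, τ⁆ = c * (τ * c⁻¹ * τ⁻¹) by simp only [commutatorElement_def, mul_assoc]]
    exact mul_mem hc (h.lA_nz hτ (inv_mem hc))⟩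

/-- PROOF.  `⁅x, ρ u⁆ = ⁅x, ρ⁆ * (ρ ⁅x, u⁆ ρ⁻¹)`. -/
theorem W_mul (hρ : ρ ∈ d.R) (u : G) : W d (ρ * u) = W d u := by
  ext x
  rw [h.mem_W, h.mem_W]
  refine and_congr_right fun hx => ?_
  rw [lA_mul, mul_mem_cancel_left (h.comm_mem hx hρ)]
  exact (mem_normalizer_iff.1 (h.nZ (h.RL hρ)) _).symm

/-- PROOF.  `τ = ρ u` (`h.fac`), `W_mul`, `⁅a x a⁻¹, u⁆ = a ⁅x, u⁆ a⁻¹`. -/
theorem W_norm (hτ : Pl d τ) : d.a ∈ 𝐍[W d τ] := by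
  obtain ⟨ρ, hρ, u, hu, rfl⟩ := hτ
  rw [h.W_mul hρ]
  refine mem_normalizer_of_cj_le (cj_le_iff_forall.2 fun x hx => ?_)
  rw [h.mem_W] at hx ⊢
  exact ⟨h.lA_nr h.aL hx.1, by rw [lA_cj hu]; exact h.lA_nz h.aL hx.2⟩

/-- `⁅·, τ⁆` is multiplicative on `W d τ` (`Z` is central in `R`). -/
theorem comm_mul (hx : x ∈ W d τ) (hy : y ∈ W d τ) : ⁅x * y, τ⁆ = ⁅x, τ⁆ * ⁅y, τ⁆ := by
  rw [h.mem_W] at hx hy
  rw [show ⁅x * y, τ⁆ = x * ⁅y, τ⁆ * x⁻¹ * ⁅x, τ⁆ by simp only [commutatorElement_def]; group,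
    h.lA_zc hy.2 hx.1, mul_inv_cancel_right, h.lA_zc hy.2 (h.ZR hx.2)]

/-- PROOF.  `hom_comm` with `f = ⁅·, u⁆`. -/
theorem comm_W_cent (hu : u ∈ d.L) (ha : d.a * u = u * d.a) :
    ⁅W d u, zpowers d.a⁆ ≤ centralizer ({u} : Set G) := fun x hx =>
  mem_centralizer_singleton_iff.2 (commutatorElement_eq_one_iff_mul_comm.1
    (h.hom_comm (h.W_le u) (h.W_norm (pl_of_comm ha)) (fun x => ⁅x, u⁆) (fun _ hx _ hy => h.comm_mul hx hy)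
      (fun x hx => (lA_cj ha x).trans (h.lA_az (h.mem_W.1 hx).2)) x hx))

/-- PROOF.  `hom_triv` with `f = ⁅·, u⁆`. -/
theorem W_cent (hu : u ∈ d.L) (ha : d.a * u = u * d.a) (hZ : u ∈ 𝐂[d.Z]) :
    W d u ≤ centralizer ({u} : Set G) := fun x hx =>
  mem_centralizer_singleton_iff.2 (commutatorElement_eq_one_iff_mul_comm.1
    (h.hom_triv (h.W_le u) (h.W_norm (pl_of_comm ha)) (fun x => ⁅x, u⁆) (fun _ hx _ hy => h.comm_mul hx hy)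
      (fun x hx => (lA_cj ha x).trans (h.lA_az (h.mem_W.1 hx).2))
      (fun c _ hc => commutatorElement_eq_one_iff_mul_comm.2 (mem_centralizer_iff.1 hZ c hc)) x hx))

/-- PROOF.  `hom_triv` with `f x = x * x`. -/
theorem ab (hB : B ≤ d.R) (ha : d.a ∈ 𝐍[B]) (hc : B ≤ 𝐂[B]) (hx : x ∈ B) : x * x = 1 :=
  h.hom_triv hB ha (fun x => x * x) (fun x hx y hy => by
      have := mem_centralizer_iff.1 (hc hx) y hy
      calc x * y * (x * y) = x * (y * x) * y := by group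
        _ = x * x * (y * y) := by rw [this]; group)
    (fun x hx => (_root_.conj_mul).trans (h.lA_az (h.sq x (hB hx)))) (fun c _ hc => h.Z2 c hc) x hx

/-- PROOF.  `h.fac`; `u = ρ⁻¹ τ`. -/
theorem dec1 (hτ : τ ∈ d.L) (hP : Pl d τ) (hZ : τ ∈ 𝐂[d.Z]) :
    ∃ ρ ∈ d.R, ∃ u ∈ d.L, d.a * u = u * d.a ∧ u ∈ 𝐂[d.Z] ∧ τ = ρ * u := by
  obtain ⟨ρ, hρ, u, hu, rfl⟩ := hP
  exact ⟨ρ, hρ, u, (mul_mem_cancel_left (h.RL hρ)).1 hτ, hu,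
    (mul_mem_cancel_left (le_centralizer_iff.1 h.Zc hρ)).1 hZ, rfl⟩

/-- PROOF.  `1 = ρ (u ρ u⁻¹) (u u)`, so `u u ∈ R` commutes with `a`: `u u ∈ Z`.  So `ρ (u ρ u⁻¹) ∈ Z`,
`⁅ρ, u⁆ = (ρ ρ) * (u ρ u⁻¹ ρ)⁻¹ ∈ Z`, `ρ ∈ W d u` commutes with `u` (`W_cent`), `ρ ρ u u = 1`, `h.Z2`.
`⁅x, ρ u⁆ = ⁅x, ρ⁆ * (ρ ⁅x, u⁆ ρ⁻¹)` and `⁅x, u⁆ = 1` on `W d u = W d (ρ u)`. -/
theorem dec2 (hρ : ρ ∈ d.R) (hu : u ∈ d.L) (ha : d.a * u = u * d.a) (hZ : u ∈ 𝐂[d.Z])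
    (h2 : ρ * u * (ρ * u) = 1) : ρ * u = u * ρ ∧ u * u = ρ * ρ ∧ ρ ∈ W d (ρ * u) ∧
      ∀ x ∈ W d (ρ * u), ⁅x, ρ * u⁆ = ⁅x, ρ⁆ := by
  have e : ρ * (u * ρ * u⁻¹) = (u * u)⁻¹ := eq_inv_of_mul_eq_one_left (by rw [← h2]; group)
  have k1 : u * u ∈ d.Z := h.fix _ (by
    rw [← inv_mem_iff, ← e]; exact mul_mem hρ (h.lA_nr hu hρ))
    (by rw [← mul_assoc, ha, mul_assoc, ha, mul_assoc])
  have k2 : ρ ∈ W d u := h.mem_W.2 ⟨hρ, by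
    rw [show ⁅ρ, u⁆ = ρ * ρ * (ρ⁻¹ * (ρ * (u * ρ * u⁻¹)) * ρ⁻¹⁻¹)⁻¹ by
      simp only [commutatorElement_def]; group, e]
    exact mul_mem (h.sq ρ hρ) (inv_mem (h.lA_nz (inv_mem (h.RL hρ)) (inv_mem k1)))⟩
  have k3 := mem_centralizer_singleton_iff.1 (h.W_cent hu ha hZ k2)
  rw [h.W_mul hρ]
  refine ⟨k3, ?_, k2, fun x hx => ?_⟩
  · rw [← k3, mul_inv_cancel_right] at e
    rw [e, inv_eq_of_mul_eq_one_right (h.Z2 _ k1)]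
  · rw [lA_mul, commutatorElement_eq_one_iff_mul_comm.2
      (mem_centralizer_singleton_iff.1 (h.W_cent hu ha hZ hx)), mul_one, mul_inv_cancel, mul_one]

/-- PROOF.  `x = u⁻¹ ρ u ρ⁻¹ ∈ R`, `ρ u ρ⁻¹ = u x`; squaring, `u u = u x u x`, so `u x⁻¹ u⁻¹ = x`,
`⁅x, u⁆ = x x ∈ Z`, `x ∈ W d u` commutes with `u` (`W_cent`), `x⁻¹ = x`. -/
theorem sq_one (hρ : ρ ∈ d.R) (hu : u ∈ d.L) (ha : d.a * u = u * d.a) (hZ : u ∈ 𝐂[d.Z])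
    (hc : ρ * (u * u) = u * u * ρ) : u⁻¹ * (ρ * u * ρ⁻¹) * (u⁻¹ * (ρ * u * ρ⁻¹)) = 1 := by
  have k0 : u⁻¹ * (ρ * u * ρ⁻¹) ∈ d.R := by
    have := mul_mem (h.lA_nr (inv_mem hu) hρ) (inv_mem hρ)
    rwa [show u⁻¹ * ρ * u⁻¹⁻¹ * ρ⁻¹ = u⁻¹ * (ρ * u * ρ⁻¹) by group] at this
  have k1 : u⁻¹ * (ρ * u * ρ⁻¹) * u * (u⁻¹ * (ρ * u * ρ⁻¹)) = u := by
    calc _ = u⁻¹ * (ρ * (u * u)) * ρ⁻¹ := by group
      _ = u := by rw [hc]; group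
  generalize u⁻¹ * (ρ * u * ρ⁻¹) = x at k0 k1
  have k2 : x ∈ W d u := h.mem_W.2 ⟨k0, by
    have : ⁅x, u⁆ = x * x := by
      calc _ = x * (x * u * x) * x⁻¹ * u⁻¹ := by rw [k1, commutatorElement_def]
        _ = x * x := by group
    rw [this]
    exact h.sq x k0⟩
  rw [mul_assoc, ← mem_centralizer_singleton_iff.1 (h.W_cent hu ha hZ k2), ← mul_assoc] at k1
  exact mul_eq_right.1 k1

/-- An involution has a fixed point on `B Z / Z`.  PROOF.  Take `x ∈ B`, `x ∉ Z`, `x' = u x u⁻¹`,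
`y = x x'`; `u y u⁻¹ = x' x`, so `⁅y, u⁆ = x x' (x' x)⁻¹ = ⁅x, x'⁆ ∈ Z`.  If `y ∈ Z` then
`⁅x, u⁆ = x x'⁻¹ = (x x') (x' x')⁻¹ ∈ Z` and `x` works. -/
theorem exists_W (hu : u ∈ d.L) (h2 : u * u = 1) (hB : B ≤ d.R) (hn : u ∈ 𝐍[B]) (h1 : ¬ B ≤ d.Z) :
    ∃ x ∈ B, x ∈ W d u ∧ x ∉ d.Z := by
  obtain ⟨x, hx, hx'⟩ := SetLike.not_le_iff_exists.1 h1
  have m := conj_mem_of_mem_normalizer hn hx
  by_cases c : x * (u * x * u⁻¹) ∈ d.Z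
  · refine ⟨x, hx, h.mem_W.2 ⟨hB hx, ?_⟩, hx'⟩
    rw [show ⁅x, u⁆ = x * (u * x * u⁻¹) * (u * x * u⁻¹ * (u * x * u⁻¹))⁻¹ by
      simp only [commutatorElement_def]; group]
    exact mul_mem c (inv_mem (h.sq _ (hB m)))
  · refine ⟨_, mul_mem hx m, h.mem_W.2 ⟨hB (mul_mem hx m), ?_⟩, c⟩
    have : ⁅x * (u * x * u⁻¹), u⁆ = ⁅x, u * x * u⁻¹⁆ := by
      simp only [commutatorElement_def]
      calc _ = x * (u * x * u⁻¹) * ((u * u) * x⁻¹ * (u * u)⁻¹) * (u * x * u⁻¹)⁻¹ := by group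
        _ = _ := by rw [h2]; group
    rw [this]
    exact h.comm_mem (hB hx) (hB m)

/-- PROOF.  If `R ≤ Z` then `R = ⁅R, a⁆ = ⊥` (`h.gen`, `h.Za`), against `h.ne`. -/
theorem not_le : ¬ d.R ≤ d.Z := fun c =>
  h.ne (eq_bot_iff.2 (h.ZR.trans (h.gen.symm.trans
    (commutator_eq_bot_iff_le_centralizer.2 (c.trans h.lA_Zc))).le))

/-- a subgroup between `Z` and `R` is normalised by `R` (`comm_mem`) -/
theorem le_normalizer_of (h1 : d.Z ≤ B) (h2 : B ≤ d.R) : d.R ≤ 𝐍[B] :=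
  le_normalizer_iff_commutator_le_right.2
    (commutator_le.2 fun _ hx _ hy => h1 (h.comm_mem hx (h2 hy)))

end Lc0

end Cfsg.Agent.Q3
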