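import Mathlib
import Cfsg.Agent.Q3.Defs

/-!
S3256 (Q3 = port of Q2 without `nc`): parallel generators, tame elements.
-/

set_option autoImplicit false
set_option linter.unusedSectionVars false
set_option linter.unusedVariables false

namespace Cfsg.Agent.Q3

open Subgroup Cfsg Cfsg.Agent.PLocal.Amb Cfsg.Agent.FrD
open scoped commutatorElement

variable {G : Type*} [Group G]

/-- `a`, `b` generate points and are congruent modulo the radical of their line -/
structure Par (D : Set (Subgroup G)) (a b : G) : Prop where
  l : zpowers a ∈ D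
  r : zpowers b ∈ D
  mem : a⁻¹ * b ∈ rad D (zpowers a ⊔ zpowers b)

/-- `c` centralises every point it normalises -/
def Tame (D : Set (Subgroup G)) (c : G) : Prop := ∀ C ∈ D, c ∈ 𝐍[C] → c ∈ 𝐂[C]

end Cfsg.Agent.Q3
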