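import Mathlib
import Cfsg.Agent.Q3.GDefs

/-!
S3256 (Q3 = port of Q2 without `nc`): parallel generators.
-/

set_option autoImplicit false
set_option linter.unusedSectionVars false
set_option linter.unusedVariables false

namespace Cfsg.Agent.Q3

open Subgroup Cfsg Cfsg.Agent.PLocal.Amb Cfsg.Agent.FrD
open scoped commutatorElement

variable {G : Type*} [Group G] [Finite G] {p q : ℕ} {D : Set (Subgroup G)}

theorem ga_cj (g a : G) : cj(g, zpowers a) = zpowers (g * a * g⁻¹) := MonoidHom.map_zpowers _ _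

theorem ga_div {R : Subgroup G} {a b : G} (ha : a ∈ 𝐍[R]) (e : a⁻¹ * b ∈ R) (k : ℕ) :
    (a ^ k)⁻¹ * b ^ k ∈ R := by
  induction k with
  | zero => simp
  | succ k ih =>
    rw [show (a ^ (k + 1))⁻¹ * b ^ (k + 1) = a⁻¹ * ((a ^ k)⁻¹ * b ^ k) * a * (a⁻¹ * b) by
      rw [pow_succ, pow_succ]; group]
    exact mul_mem (inv_conj_mem_of_mem_normalizer ha ih) e

namespace Pre

variable (h : Pre p q D) {A B C H : Subgroup G} {a b x : G}
include h

theorem ga_ord (hA : zpowers a ∈ D) : orderOf a = p := by rw [← Nat.card_zpowers, h.card _ hA]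

theorem ga_ne (hA : zpowers a ∈ D) : a ≠ 1 := fun e => h.ne_bot hA (zpowers_eq_bot.2 e)

theorem ga_gen (hA : A ∈ D) (ha : a ∈ A) (a1 : a ≠ 1) : zpowers a = A := by
  have h1 := card_dvd_of_le (zpowers_le.2 ha)
  rw [h.card A hA] at h1
  rcases (Nat.dvd_prime h.pp).1 h1 with e | e
  · exact absurd (zpowers_eq_bot.1 (card_eq_one.1 e)) a1
  · exact eq_of_le_of_card_ge (zpowers_le.2 ha) (by rw [e, h.card A hA])

theorem ga_pow (hA : zpowers a ∈ D) {k : ℕ} (hk : ¬ p ∣ k) : zpowers (a ^ k) = zpowers a :=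
  h.ga_gen hA (pow_mem (mem_zpowers a) k) fun e => hk (h.ga_ord hA ▸ orderOf_dvd_of_pow_eq_one e)

theorem ga_eq {R : Subgroup G} {b' : G} (hB : zpowers b ∈ D) (hR : IsPGroup q R) (e : a⁻¹ * b ∈ R)
    (e' : a⁻¹ * b' ∈ R) (hb : b' ∈ zpowers b) : b = b' := by
  have : b⁻¹ * b' ∈ R ⊓ zpowers b := ⟨by
    simpa [mul_assoc] using R.mul_mem (R.inv_mem e) e', Subgroup.mul_mem _ (Subgroup.inv_mem _ (mem_zpowers b)) hb⟩
  rwa [h.inf_eq_bot hB hR, mem_bot, inv_mul_eq_one] at this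

/-- PROOF.  `B = cj(x, A)` with `x ∈ rad D (A ⊔ B)` (`exists_cj`, `sm_line`), `b = x a x⁻¹`,
`a⁻¹ b = (a⁻¹ x a) x⁻¹`. -/
theorem exists_par (hA : zpowers a ∈ D) (hB : B ∈ D) : ∃ b, zpowers b = B ∧ Par D a b := by
  obtain ⟨x, hx, e⟩ := h.exists_cj (h.sm_line hA hB) hA hB le_sup_left le_sup_right
  rw [ga_cj] at e
  refine ⟨_, e.symm, hA, e ▸ hB, ?_⟩
  rw [← e, show a⁻¹ * (x * a * x⁻¹) = a⁻¹ * x * a * x⁻¹ by group]
  exact mul_mem (inv_conj_mem_of_mem_normalizer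
    (h.le_normalizer_rad _ (mem_sup_left (mem_zpowers a))) hx) (inv_mem hx)

theorem par_refl (hA : zpowers a ∈ D) : Par D a a := by
  exact ⟨hA, hA, by simp⟩

theorem par_symm (e : Par D a b) : Par D b a := by
  refine ⟨e.r, e.l, ?_⟩
  rw [sup_comm]
  simpa using inv_mem e.mem

/-- `rad_cj`, `cj_sup` -/
theorem par_cj (e : Par D a b) (g : G) : Par D (g * a * g⁻¹) (g * b * g⁻¹) := by
  refine ⟨ga_cj g a ▸ h.inv _ e.l g, ga_cj g b ▸ h.inv _ e.r g, ?_⟩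
  rw [← ga_cj, ← ga_cj, ← cj_sup, h.rad_cj,
    show (g * a * g⁻¹)⁻¹ * (g * b * g⁻¹) = g * (a⁻¹ * b) * g⁻¹ by group]
  exact conj_mem_cj g e.mem

/-- `a`, `b` normalise the radical -/
theorem par_pow (e : Par D a b) {k : ℕ} (hk : ¬ p ∣ k) : Par D (a ^ k) (b ^ k) := by
  refine ⟨(h.ga_pow e.l hk).symm ▸ e.l, (h.ga_pow e.r hk).symm ▸ e.r, ?_⟩
  rw [h.ga_pow e.l hk, h.ga_pow e.r hk]
  exact ga_div (h.le_normalizer_rad _ (mem_sup_left (mem_zpowers a))) e.mem k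

/-- PROOF.  `b⁻¹ b' = (a⁻¹ b)⁻¹ (a⁻¹ b') ∈ rad ⊓ B = ⊥` (`inf_eq_bot`, `sm_line`). -/
theorem par_unique {b' : G} (e : Par D a b) (e' : Par D a b') (hb : zpowers b = zpowers b') : b = b' := by
  exact h.ga_eq e.r (h.sm_line e.l e.r).1 e.mem (hb ▸ e'.mem) (hb ▸ mem_zpowers b')

/-- the converse: in an `Sm` subgroup, congruence modulo `rad D H` is parallelism.  PROOF.  `b'` from
`exists_par`, `rad_mono`, `b⁻¹ b' ∈ rad D H ⊓ B = ⊥`. -/
theorem par_of_mem (hs : Sm q D H) (hA : zpowers a ∈ D) (hB : zpowers b ∈ D) (h1 : a ∈ H) (h2 : b ∈ H)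
    (e : a⁻¹ * b ∈ rad D H) : Par D a b := by
  obtain ⟨b', e1, e2⟩ := h.exists_par hA hB
  rwa [h.ga_eq hB hs.1 e (rad_mono (sup_le (zpowers_le.2 h1) (e1.le.trans (zpowers_le.2 h2))) e2.mem)
    (e1 ▸ mem_zpowers b')]

/-- An element normalising two points acts on parallel generators by the same power.
PROOF.  `par_cj`, `par_pow`, `par_unique`. -/
theorem pow_eq (e : Par D a b) {k : ℕ} (h1 : x * a * x⁻¹ = a ^ k) (h2 : x ∈ 𝐍[zpowers b]) :
    x * b * x⁻¹ = b ^ k := by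
  have hk : ¬ p ∣ k := fun c => h.ga_ne e.l (conj_eq_one_iff.1
    (h1.trans (orderOf_dvd_iff_pow_eq_one.1 ((h.ga_ord e.l).symm ▸ c))))
  refine h.par_unique (h1 ▸ h.par_cj e x) (h.par_pow e hk) ?_
  rw [← ga_cj, cj_of_mem_normalizer h2, h.ga_pow e.r hk]

/-- `pow_eq` with `k = 1` -/
theorem tame_of_cent (hA : A ∈ D) (hx : x ∈ 𝐂[A]) : Tame D x := by
  intro C hC hn
  obtain ⟨a, -, rfl⟩ := h.exists_gen hA
  obtain ⟨b, rfl, e⟩ := h.exists_par hA hC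
  have := h.pow_eq e (k := 1) (by rw [← hx a (mem_zpowers a), mul_inv_cancel_right, pow_one]) hn
  rw [centralizer_zpowers, mem_centralizer_singleton_iff, ← mul_inv_eq_iff_eq_mul, this, pow_one]

end Pre

namespace Hyp

variable (h : Hyp p q D) {A B C : Subgroup G} {a b : G}
include h

theorem ga_line (hA : zpowers a ∈ D) (hC : C ∈ D) : zpowers a ≤ C ⊔ cj(a, C) := by
  have := Fact.mk h.qp
  have sm := h.sm_line hA hC
  obtain ⟨x, hx, e⟩ := h.exists_cj sm hC hA le_sup_right le_sup_left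
  have cC : x⁻¹ * a * x ∈ C := mem_cj.1 (e.le (mem_zpowers a))
  obtain ⟨c, hc⟩ : ∃ c, c = x⁻¹ * a * x := ⟨_, rfl⟩
  have ea : a = x * c * x⁻¹ := by rw [hc]; group
  rw [← hc] at cC
  obtain rfl := h.ga_gen hC cC fun k => h.ga_ne hA (by rw [ea, k]; group)
  have nC : zpowers c ≤ 𝐍[rad D (zpowers a ⊔ zpowers c)] := le_sup_right.trans (h.le_normalizer_rad _)
  have hw : x * (c * x⁻¹ * c⁻¹) ∈ rad D (zpowers a ⊔ zpowers c) :=
    mul_mem hx (conj_mem_of_mem_normalizer (nC cC) (inv_mem hx))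
  obtain ⟨w, ew⟩ : ∃ w, w = x * (c * x⁻¹ * c⁻¹) := ⟨_, rfl⟩
  rw [← ew] at hw
  have e1 : cj(a, zpowers c) = zpowers (w * c * w⁻¹) := by
    rw [ga_cj, ea, ew]; congr 1; group
  have wJ := mul_mem (mul_mem (rad_le _ hw) (mem_sup_right cC)) (inv_mem (rad_le _ hw))
  have h1 := (h.par_of_mem sm hC (e1 ▸ h.inv _ hC a) (mem_sup_right cC) wJ (by
    rw [show c⁻¹ * (w * c * w⁻¹) = c⁻¹ * w * c * w⁻¹ by group]
    exact mul_mem (inv_conj_mem_of_mem_normalizer (nC cC) hw) (inv_mem hw))).mem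
  have R21 : rad D (zpowers c ⊔ zpowers (w * c * w⁻¹)) ≤ rad D (zpowers a ⊔ zpowers c) :=
    rad_mono (sup_le le_sup_right (zpowers_le.2 wJ))
  have n2 : zpowers c ≤ 𝐍[rad D (zpowers c ⊔ zpowers (w * c * w⁻¹))] :=
    le_sup_left.trans (h.le_normalizer_rad _)
  have RJ := rad_le (D := D) (zpowers c ⊔ zpowers (w * c * w⁻¹))
  have n1 := h.n1 _ hC _ sm.1 nC
  rw [(sm.2 _ hC le_sup_right).2] at n1
  have pg := sm.1
  rw [e, e1]
  generalize rad D (zpowers c ⊔ zpowers (w * c * w⁻¹)) = R₂ at h1 R21 n2 RJ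
  generalize rad D (zpowers a ⊔ zpowers c) = R₁ at hx nC hw R21 n1 pg
  have nY : zpowers c ≤ 𝐍[R₂ ⊔ R₁ ⊓ 𝐂[zpowers c]] := le_normalizer_sup n2
    ((le_centralizer_iff.1 inf_le_right).trans (centralizer_le_normalizer' _))
  have key : ∀ y ∈ R₁, y⁻¹ * (c * y * c⁻¹) ∈ R₂ ⊔ R₁ ⊓ 𝐂[zpowers c] → y ∈ R₂ ⊔ R₁ ⊓ 𝐂[zpowers c] := by
    intro y hy k
    obtain ⟨z, hz, k⟩ := Solv.coprime_fixed_coset _ R₁ nC (h.cop hC pg) (.inr (Solv.isSolvable_of_isPGroup pg))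
      _ (sup_le R21 inf_le_left) nY y hy fun d hd => by
        obtain ⟨n, rfl⟩ := (mem_powers_iff_mem_zpowers.2 hd : d ∈ Submonoid.powers c)
        induction n with
        | zero => simp
        | succ n ih =>
          rw [show y⁻¹ * ((c ^ (n + 1) : G) * y * (c ^ (n + 1))⁻¹) = y⁻¹ * (c * y * c⁻¹) *
            (c * (y⁻¹ * (c ^ n * y * (c ^ n)⁻¹)) * c⁻¹) by rw [pow_succ']; group]
          exact mul_mem k (conj_mem_of_mem_normalizer (nY cC) (ih (pow_mem cC n)))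
    simpa using mul_mem (mem_sup_right hz) (inv_mem k)
  have k1 := key _ (inv_mem hw) (mem_sup_left (by
    simpa [mul_assoc] using conj_mem_of_mem_normalizer (n2 cC) h1))
  have k2 := key _ (inv_mem hx) (by rw [inv_inv, ← ew]; exact inv_mem_iff.1 k1)
  obtain ⟨r, hr, z, hz, rfl⟩ := (mem_sup_of_le_normalizer_left
    ((n1.trans (centralizer_anti R21)).trans (centralizer_le_normalizer' _))).1 (inv_mem_iff.1 k2)
  rw [cj_mul, cj_of_mem_normalizer (centralizer_le_normalizer' _ hz.2)]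
  exact cj_le_of_mem le_sup_left (RJ hr)

/-- PROOF.  `C ≠ A`.  `J = A ⊔ C = R₁ ⊔ C`, `R₁ = rad D J = ⁅R₁, C⁆` (`sm_line`, `line_eq`), `Z₁ = R₁ ⊓ 𝐂[C]`
is central in `R₁` (`n1`) and contains `⁅R₁, R₁⁆` (`n2`).  `a = x c x⁻¹`, `x ∈ R₁`, `C = zpowers c`
(`exists_cj`; `a ≠ 1` generates `A`).  `a = w c`, `w = ⁅x, c⁆`, `cj(a, C) = cj(w, C)`.  `R₂ = rad D J'`,
`J' = C ⊔ cj(w, C)`, contains `⁅w, c⁆` (as in `exists_par`: `w c w⁻¹ = y c' y⁻¹`, or `comm_le_rad`-type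
argument; `par_of_mem` for `c`, `w c w⁻¹` in `J`).  `Y = R₂ ⊔ Z₁` is normal in `R₁` and `C`-invariant; if
`y ∈ R₁` has `⁅y, c⁆ ∈ Y` then `y ∈ Y` (`Solv.coprime_fixed_coset`).  So `w ∈ Y`, `x ∈ Y`, `x = r z`,
`A = cj(r, C) ≤ J'`. -/
theorem le_line (hA : zpowers a ∈ D) (hC : C ∈ D) (hne : zpowers a ≠ C) :
    zpowers a ≤ C ⊔ cj(a, C) := by
  exact h.ga_line hA hC

/-- A translation fixes no point.  PROOF.  Let `g = a⁻¹ b ∈ 𝐍[C]`.  `C = A` gives `b ∈ 𝐍[A]`, `A = B`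
(`eq_of_le_normalizer`); `C = B` likewise.  Else `C' = cj(a, C) = cj(b, C)`, `A, B ≤ J' = C ⊔ C'`
(`le_line`), `g ∈ rad D J'` (`rad_mono`) normalises `C`, so centralises it (`cent_of_norm`), so is central
in `rad D J' = ⁅rad D J', C⁆` (`n1`) and in `J'`; so `a` commutes with `b`, `A = B`. -/
theorem no_fix (e : Par D a b) (hne : zpowers a ≠ zpowers b) (hC : C ∈ D) : a⁻¹ * b ∉ 𝐍[C] := by
  intro hg
  have h1 := h.ga_line e.l hC
  have h2 := h.ga_line e.r hC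
  rw [← mul_inv_cancel_left a b, cj_mul, cj_of_mem_normalizer hg, mul_inv_cancel_left] at h2
  have hC' := h.inv C hC a
  have sm := h.sm_line hC hC'
  have gR := rad_mono (sup_le h1 h2) e.mem
  have nC : C ≤ 𝐍[rad D (C ⊔ cj(a, C))] := le_sup_left.trans (h.le_normalizer_rad _)
  have gC := h.cent_of_norm hC sm.1 nC gR hg
  have n1 := h.n1 _ hC _ sm.1 nC
  rw [(sm.2 _ hC le_sup_left).2] at n1
  have gJ : a⁻¹ * b ∈ 𝐂[C ⊔ cj(a, C)] := by
    rw [← (h.line_eq hC hC').2, centralizer_sup]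
    exact ⟨n1 ⟨gR, gC⟩, gC⟩
  have c : Commute a (a⁻¹ * b) := gJ a (h1 (mem_zpowers a))
  refine hne (h.eq_of_le_normalizer e.l e.r (zpowers_le.2 (centralizer_le_normalizer' _ ?_)))
  rw [centralizer_zpowers, mem_centralizer_singleton_iff]
  simpa using ((Commute.refl a).mul_right c).eq.symm

/-- `no_fix`; if the points agree `a = b` (`par_unique`, `par_refl`) -/
theorem tame_of_par (e : Par D a b) : Tame D (a⁻¹ * b) := by
  intro C hC hn
  by_cases hne : zpowers a = zpowers b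
  · rw [← h.par_unique (h.par_refl e.l) e hne, inv_mul_cancel]
    exact one_mem _
  · exact absurd hn (h.no_fix e hne hC)

end Hyp

end Cfsg.Agent.Q3
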