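import Mathlib
import Cfsg.Agent.Q3.GeoA

/-!
S3256 (Q3 = port of Q2 without `nc`): tame involutions.
-/

set_option autoImplicit false
set_option linter.unusedSectionVars false
set_option linter.unusedVariables false

namespace Cfsg.Agent.Q3

open Subgroup Cfsg Cfsg.Agent.PLocal.Amb Cfsg.Agent.FrD
open scoped commutatorElement

variable {G : Type*} [Group G] [Finite G] {p : ℕ} {D : Set (Subgroup G)}

omit [Finite G] in
theorem gb_pow {R : Subgroup G} {ρ a : G} (ha : a ∈ 𝐍[R]) (hρ : ρ ∈ R) (k : ℕ) :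
    ∃ σ ∈ R, (ρ * a) ^ k = σ * a ^ k := by
  induction k with
  | zero => exact ⟨1, one_mem _, by simp⟩
  | succ k ih =>
    obtain ⟨σ, hσ, e⟩ := ih
    exact ⟨σ * (a ^ k * ρ * (a ^ k)⁻¹),
      mul_mem hσ (PLocal.Amb.conj_mem_of_mem_normalizer (pow_mem ha k) hρ), by rw [pow_succ, e, pow_succ]; group⟩

theorem gb_norm {x a : G} (h : x * a * x⁻¹ ∈ zpowers a) : x ∈ 𝐍[zpowers a] :=
  mem_normalizer_of_cj_le (cj_le_iff_forall.2 fun y hy => by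
    obtain ⟨k, rfl⟩ := mem_zpowers_iff.1 hy
    rw [← conj_zpow]
    exact zpow_mem h k)

theorem gb_trans {R Z : Subgroup G} {a : G} (ha : a ∈ 𝐍[R]) (h1 : Z ≤ 𝐂[R]) (h2 : ⁅R, R⁆ ≤ Z)
    (h3 : ⁅R, zpowers a⁆ = R) {x : G} (hx : x ∈ R) : ∃ y ∈ R, ∃ ζ ∈ Z, x = a⁻¹ * (y * a * y⁻¹) * ζ := by
  have f : ∀ y ∈ R, a⁻¹ * (y * a * y⁻¹) ∈ R := fun y hy => by
    have := mul_mem (inv_conj_mem_of_mem_normalizer ha hy) (inv_mem hy)
    rwa [show a⁻¹ * y * a * y⁻¹ = a⁻¹ * (y * a * y⁻¹) by group] at this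
  let K : Subgroup G :=
    { carrier := {x | ∃ y ∈ R, ∃ ζ ∈ Z, x = a⁻¹ * (y * a * y⁻¹) * ζ}
      one_mem' := ⟨1, one_mem _, 1, one_mem _, by group⟩
      mul_mem' := by
        rintro _ _ ⟨y, hy, ζ, hζ, rfl⟩ ⟨y', hy', ζ', hζ', rfl⟩
        refine ⟨y * y', mul_mem hy hy', ⁅y, (a⁻¹ * (y' * a * y'⁻¹))⁻¹⁆ * (ζ * ζ'), mul_mem
          (h2 (commutator_mem_commutator hy (inv_mem (f y' hy')))) (mul_mem hζ hζ'), ?_⟩
        have c := mem_centralizer_iff.1 (h1 hζ) _ (f y' hy')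
        calc a⁻¹ * (y * a * y⁻¹) * ζ * (a⁻¹ * (y' * a * y'⁻¹) * ζ')
            = a⁻¹ * (y * a * y⁻¹) * (ζ * (a⁻¹ * (y' * a * y'⁻¹))) * ζ' := by group
          _ = _ := by rw [← c, commutatorElement_def]; group
      inv_mem' := by
        rintro _ ⟨y, hy, ζ, hζ, rfl⟩
        refine ⟨y⁻¹, inv_mem hy, ⁅(a⁻¹ * (y⁻¹ * a * y⁻¹⁻¹))⁻¹, y⁆ * ζ⁻¹, mul_mem
          (h2 (commutator_mem_commutator (inv_mem (f _ (inv_mem hy))) hy)) (inv_mem hζ), ?_⟩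
        have c := mem_centralizer_iff.1 (h1 hζ) _ (f y hy)
        rw [c, commutatorElement_def]
        group }
  have key : R ≤ K := by
    rw [← h3, commutator_le]
    intro y hy c hc
    obtain ⟨n, rfl⟩ := (mem_powers_iff_mem_zpowers.2 hc : c ∈ Submonoid.powers a)
    clear hc
    induction n with
    | zero => simp
    | succ n ih =>
      have e : ⁅y, a ^ (n + 1)⁆ = ⁅y, a ^ n⁆ * (a⁻¹ * (a ^ (n + 1) * y * (a ^ (n + 1))⁻¹ * a *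
          (a ^ (n + 1) * y * (a ^ (n + 1))⁻¹)⁻¹) * 1) := by
        simp only [commutatorElement_def]
        group
      change ⁅y, a ^ (n + 1)⁆ ∈ K
      rw [e]
      exact mul_mem ih ⟨_, PLocal.Amb.conj_mem_of_mem_normalizer (pow_mem ha _) hy, 1, one_mem _, rfl⟩
  exact key hx

namespace Hyp

variable (h : Hyp p 2 D) {A B C H : Subgroup G} {a b c x : G}
include h

/-- PROOF.  `cj(x, A) = cj(ρ, A)` (`exists_cj`). -/
theorem fac (hs : Sm 2 D H) (hA : A ∈ D) (hAH : A ≤ H) (hx : x ∈ 𝐍[dcl D H]) :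
    ∃ ρ ∈ rad D H, ∃ u ∈ 𝐍[A], x = ρ * u := by
  obtain ⟨ρ, hρ, e⟩ := h.exists_cj hs hA (h.inv A hA x) hAH
    ((cj_le_of_mem_normalizer (le_dcl hA hAH) hx).trans (dcl_le H))
  refine ⟨ρ, hρ, ρ⁻¹ * x, ?_, by group⟩
  rw [← cj_eq_iff, cj_mul, e, cj_inv_cj]

/-- An element of `dcl D H` outside `R = rad D H` has a power generating a point.  PROOF.
`dcl D H = R ⊔ A`, `g = ρ a ^ k`, `p ∤ k`; `|R| = 2 ^ m`, `|R ⊔ A| = 2 ^ m p`; `δ = g ^ 2 ^ m` has `δ ^ p = 1`,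
`δ ∉ R`; `zpowers δ` is a `p`-group, lies in a conjugate of `A` (`isSyl`, `exists_le_cj`), equal by
orders. -/
theorem exists_pt (hs : Sm 2 D H) (hA : A ∈ D) (hAH : A ≤ H) {g : G} (hg : g ∈ dcl D H)
    (hn : g ∉ rad D H) : ∃ m : ℕ, zpowers (g ^ 2 ^ m) ∈ D := by
  have := Fact.mk h.pp
  have n : A ≤ 𝐍[rad D H] := hAH.trans (h.le_normalizer_rad H)
  rw [(hs.2 A hA hAH).1] at hg
  obtain ⟨ρ, hρ, a, ha, e⟩ := (mem_sup_of_le_normalizer_left n).1 hg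
  obtain ⟨σ, hσ, e'⟩ := gb_pow (n ha) hρ p
  have ap : a ^ p = 1 := by
    have := orderOf_dvd_natCard A ha
    rw [h.card A hA] at this
    exact orderOf_dvd_iff_pow_eq_one.1 this
  rw [← e, ap, mul_one] at e'
  obtain ⟨m, hm⟩ := isPGroup_iff.1 hs.1 σ hσ
  have d1 : (g ^ 2 ^ m) ^ p = 1 := by rw [← pow_mul, mul_comm, pow_mul, e', hm]
  have d2 : g ^ 2 ^ m ≠ 1 := fun c => hn (by
    have : g ∈ zpowers (g ^ p) := mem_zpowers_pow_iff.2 (Nat.Coprime.coprime_dvd_right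
      (orderOf_dvd_of_pow_eq_one c) (((Nat.coprime_primes h.pp h.qp).2 h.pq).pow_right m))
    exact zpowers_le.2 (e' ▸ hσ) this)
  obtain ⟨k, -, hk⟩ := (h.isSyl hA hs.1 n).exists_le_cj (R := zpowers (g ^ 2 ^ m))
    (isPGroup_zpowers ⟨1, by rw [pow_one, d1]⟩) (zpowers_le.2 (pow_mem hg _))
  refine ⟨m, ?_⟩
  rw [eq_of_le_of_card_ge hk (by rw [card_cj, h.card A hA, Nat.card_zpowers, orderOf_eq_prime d1 d2])]
  exact h.inv A hA k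

/-- a tame element does not invert such an element: it would invert the generator `δ` of a point, and
`δ = δ⁻¹` has odd order `p` -/
theorem mem_of_inv (hs : Sm 2 D H) (hA : A ∈ D) (hAH : A ≤ H) {g : G} (hg : g ∈ dcl D H)
    (ht : Tame D c) (hi : c * g * c⁻¹ = g⁻¹) : g ∈ rad D H := by
  by_contra hn
  obtain ⟨m, hm⟩ := h.exists_pt hs hA hAH hg hn
  have e : c * g ^ 2 ^ m * c⁻¹ = (g ^ 2 ^ m)⁻¹ := by rw [← conj_pow, hi, inv_pow]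
  generalize g ^ 2 ^ m = δ at hm e
  have c1 := mem_centralizer_iff.1 (ht _ hm (gb_norm (e ▸ inv_mem (mem_zpowers δ)))) δ (mem_zpowers δ)
  rw [← c1, mul_inv_cancel_right] at e
  have c2 : δ ^ 2 = 1 := by rw [pow_two]; nth_rewrite 1 [e]; exact inv_mul_cancel δ
  have c3 := orderOf_dvd_of_pow_eq_one c2
  rw [← Nat.card_zpowers, h.card _ hm] at c3
  exact h.p2 ((Nat.prime_dvd_prime_iff_eq h.pp Nat.prime_two).1 c3)

/-- PROOF.  `A = zpowers a`, `c = ρ u` (`fac`), `u a u⁻¹ = a'`.  `g = a (c a⁻¹ c⁻¹)` is inverted by `c`, so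
`g ∈ R` (`mem_of_inv`); `g ∈ R a a'⁻¹`, so `a a'⁻¹ ∈ R ⊓ A = ⊥`. -/
theorem pl_of_tame (hs : Sm 2 D H) (hA : A ∈ D) (hAH : A ≤ H) (hc : c ∈ 𝐍[dcl D H]) (h2 : c * c = 1)
    (ht : Tame D c) : ∃ ρ ∈ rad D H, ∃ u ∈ 𝐂[A], c = ρ * u := by
  obtain ⟨ρ, hρ, u, hu, e⟩ := h.fac hs hA hAH hc
  refine ⟨ρ, hρ, u, mem_centralizer_iff.2 fun a ha => ?_, e⟩
  have ad := le_dcl hA hAH ha
  have ci : c⁻¹ = c := inv_eq_of_mul_eq_one_right h2
  have g1 := h.mem_of_inv hs hA hAH (g := a * (c * a⁻¹ * c⁻¹))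
    (mul_mem ad (PLocal.Amb.conj_mem_of_mem_normalizer hc (inv_mem ad))) ht (by
      calc c * (a * (c * a⁻¹ * c⁻¹)) * c⁻¹ = c * a * c * a⁻¹ * (c * c)⁻¹ := by group
        _ = c * a * c⁻¹ * a⁻¹ := by rw [h2, ci]; group
        _ = _ := by group)
  have g2 : a * (u * a⁻¹ * u⁻¹) ∈ rad D H ⊓ A := ⟨by
    have := mul_mem (mul_mem (inv_mem (PLocal.Amb.conj_mem_of_mem_normalizer
      (h.le_normalizer_rad H (hAH ha)) hρ)) g1) hρ
    rwa [e, show (a * ρ * a⁻¹)⁻¹ * (a * (ρ * u * a⁻¹ * (ρ * u)⁻¹)) * ρ = a * (u * a⁻¹ * u⁻¹) by group] at this,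
    mul_mem ha (PLocal.Amb.conj_mem_of_mem_normalizer hu (inv_mem ha))⟩
  rw [h.inf_eq_bot hA hs.1, mem_bot] at g2
  calc a * u = a * (u * a⁻¹ * u⁻¹) * (u * a) := by group
    _ = u * a := by rw [g2, one_mul]

/-- Every element of `R` is a translation modulo `Z = R ⊓ 𝐂[A]`.  PROOF.  `Z` is central in `R` (`n1`),
`R / Z` is commutative (`n2`); `y ↦ a⁻¹ (y a y⁻¹)` induces an injective (`Solv.coprime_fixed_coset`, or
the argument of `Lc0.fix_mod`), so surjective, map on `R / Z`.  (Or: the `x ∈ R` with this property form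
a subgroup containing the `⁅y, a ^ i⁆`, `R = ⁅R, A⁆`.)  `par_of_mem`. -/
theorem exists_trans (hs : Sm 2 D H) (hA : zpowers a ∈ D) (hAH : a ∈ H) (hx : x ∈ rad D H) :
    ∃ b ∈ H, Par D a b ∧ ∃ ζ ∈ rad D H ⊓ 𝐂[dcl D H], x = a⁻¹ * b * ζ := by
  have aH : zpowers a ≤ H := zpowers_le.2 hAH
  have n : zpowers a ≤ 𝐍[rad D H] := aH.trans (h.le_normalizer_rad H)
  obtain ⟨e1, e2⟩ := hs.2 _ hA aH
  have n1 := h.n1 _ hA _ hs.1 n
  have n2 := h.n2 _ hA _ hs.1 n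
  rw [e2] at n1 n2
  obtain ⟨y, hy, ζ, hζ, e⟩ := gb_trans (n (mem_zpowers a)) n1
    (le_inf (Solv.commutator_le_of_le_normalizer le_normalizer) n2) e2 hx
  have yH := rad_le H hy
  have bH : y * a * y⁻¹ ∈ H := mul_mem (mul_mem yH hAH) (inv_mem yH)
  refine ⟨y * a * y⁻¹, bH, h.par_of_mem hs hA ?_ hAH bH ?_, ζ, ⟨hζ.1, ?_⟩, e⟩
  · have := h.inv _ hA y
    rwa [MonoidHom.map_zpowers] at this
  · rw [e] at hx
    exact (mul_mem_cancel_right (show ζ ∈ rad D H from hζ.1)).1 hx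
  · rw [e1, centralizer_sup]
    exact ⟨n1 hζ, hζ.2⟩

/-- The involutions of a radical are tame.  PROOF.  (If `H` contains no point `rad D H = ⊥`.)
`c = τ ζ` (`exists_trans`), `ζ ζ = 1` (`n4`), `τ τ = 1`, `τ` and `ζ` are tame (`tame_of_par`,
`tame_of_cent`).  Let `c ∈ 𝐍[C]`; `J = C ⊔ cj(ζ, C) = dcl D J` (`dcl_sup`) is normalised by `ζ`, `c`
(they commute), `τ`.  `pl_of_tame` (`sm_line`) for `τ`, `ζ` gives `c = ρ u`, `ρ ∈ rad D J`, `u ∈ 𝐂[C]`;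
`ρ ∈ 𝐍[C]` centralises `C` (`cent_of_norm`). -/
theorem tame_of_rad (hs : Sm 2 D H) (hc : c ∈ rad D H) (h2 : c * c = 1) : Tame D c := by
  intro C hC hn
  by_cases ex : ∃ A ∈ D, A ≤ H
  swap
  · have : dcl D H ≤ ⊥ := dcl_le_iff.2 fun B hB hBH => absurd ⟨B, hB, hBH⟩ ex
    rw [mem_bot.1 (this (rad_le_dcl H hc))]
    exact one_mem _
  obtain ⟨A, hA, hAH⟩ := ex
  obtain ⟨a, -, rfl⟩ := h.exists_gen hA
  obtain ⟨b, -, par, ζ, hζ, e⟩ := h.exists_trans hs hA (hAH (mem_zpowers a)) hc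
  have ζA : ζ ∈ 𝐂[zpowers a] := centralizer_anti (le_dcl hA hAH) hζ.2
  have z2 : ζ * ζ = 1 := h.n4 _ hA _ hs.1 (hAH.trans (h.le_normalizer_rad H)) ζ
    ⟨(hs.2 _ hA hAH).2.ge hζ.1, ζA⟩
  have cm : Commute c ζ := mem_centralizer_iff.1 hζ.2 c (rad_le_dcl H hc)
  have t1 := h.tame_of_par par
  have t2 := h.tame_of_cent hA ζA
  generalize a⁻¹ * b = τ at e t1
  have eτ : τ = c * ζ⁻¹ := by rw [e]; group
  have τ2 : τ * τ = 1 := by
    rw [eτ, cm.inv_right.symm.mul_mul_mul_comm, h2, ← mul_inv_rev, z2, inv_one, mul_one]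
  have hC' := h.inv C hC ζ
  have sm := h.sm_line hC hC'
  have n1 : ζ ∈ 𝐍[dcl D (C ⊔ cj(ζ, C))] := by
    rw [dcl_sup hC hC', ← cj_eq_iff, cj_sup, ← cj_mul, z2, cj_one, sup_comm]
  have n2 : c ∈ 𝐍[dcl D (C ⊔ cj(ζ, C))] := by
    rw [dcl_sup hC hC', ← cj_eq_iff, cj_sup, ← cj_mul, cm.eq, cj_mul, cj_of_mem_normalizer hn]
  have n3 : τ ∈ 𝐍[dcl D (C ⊔ cj(ζ, C))] := eτ ▸ mul_mem n2 (inv_mem n1)
  obtain ⟨ρ, hρ, u, hu, e1⟩ := h.pl_of_tame sm hC le_sup_left n3 τ2 t1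
  obtain ⟨ρ', hρ', u', hu', e2⟩ := h.pl_of_tame sm hC le_sup_left n1 z2 t2
  have n4 : u ∈ 𝐍[rad D (C ⊔ cj(ζ, C))] :=
    (mul_mem_cancel_left (le_normalizer hρ)).1 (e1 ▸ normalizer_dcl_le _ n3)
  have e3 : c = ρ * (u * ρ' * u⁻¹) * (u * u') := by
    rw [e, e1]
    nth_rewrite 1 [e2]
    group
  have m := mul_mem hu hu'
  have := h.cent_of_norm hC sm.1 (le_sup_left.trans (h.le_normalizer_rad _))
    (mul_mem hρ (PLocal.Amb.conj_mem_of_mem_normalizer n4 hρ'))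
    ((mul_mem_cancel_right (centralizer_le_normalizer' C m)).1 (e3 ▸ hn))
  rw [e3]
  exact mul_mem this m

/-- PROOF.  `x = ρ u` (`fac`), `u a u⁻¹ = a ^ k`.  `x x = ρ' (u u) = ρ₁ u₁`, so `u u u₁⁻¹ ∈ R ⊓ 𝐍[A] ≤ 𝐂[A]`
(`cent_of_norm`), `a ^ (k k) = a`, `p ∣ (k - 1) (k + 1)`. -/
theorem semi (hs : Sm 2 D H) (hA : zpowers a ∈ D) (hAH : a ∈ H) (hx : x ∈ 𝐍[dcl D H])
    (h1 : ∃ ρ ∈ rad D H, ∃ u : G, a * u = u * a ∧ x * x = ρ * u)
    (h2 : ¬ ∃ ρ ∈ rad D H, ∃ u : G, a * u = u * a ∧ x = ρ * u) :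
    ∃ ρ ∈ rad D H, ∃ u : G, u * a * u⁻¹ = a⁻¹ ∧ x = ρ * u := by
  have aH : zpowers a ≤ H := zpowers_le.2 hAH
  obtain ⟨ρ, hρ, u, hu, e⟩ := h.fac hs hA aH hx
  obtain ⟨ρ₁, hρ₁, u₁, hu₁, e₁⟩ := h1
  have n : u ∈ 𝐍[rad D H] := (mul_mem_cancel_left (le_normalizer hρ)).1 (e ▸ normalizer_dcl_le _ hx)
  have c1 : u₁ ∈ 𝐂[zpowers a] := by
    rw [centralizer_zpowers]
    exact mem_centralizer_singleton_iff.2 hu₁.symm
  have c2 : u * u * u₁⁻¹ ∈ rad D H := by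
    have := mul_mem (inv_mem (mul_mem hρ (PLocal.Amb.conj_mem_of_mem_normalizer n hρ))) hρ₁
    rwa [show ρ₁ = ρ * u * (ρ * u) * u₁⁻¹ by rw [← e, e₁]; group,
      show (ρ * (u * ρ * u⁻¹))⁻¹ * (ρ * u * (ρ * u) * u₁⁻¹) = u * u * u₁⁻¹ by group] at this
  have c3 := (mul_mem_cancel_right (inv_mem c1)).1 (h.cent_of_norm hA hs.1
    (aH.trans (h.le_normalizer_rad H)) c2
    (mul_mem (mul_mem hu hu) (inv_mem (centralizer_le_normalizer' _ c1))))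
  have c4 := mem_centralizer_iff.1 c3 a (mem_zpowers a)
  obtain ⟨k, hk⟩ := mem_zpowers_iff.1 (PLocal.Amb.conj_mem_of_mem_normalizer hu (mem_zpowers a))
  have o : orderOf a = p := by rw [← Nat.card_zpowers, h.card _ hA]
  have c5 : a ^ ((k - 1) * (k + 1)) = 1 := by
    have : a ^ (k * k) = a := by
      rw [zpow_mul, hk, conj_zpow, hk]
      calc u * (u * a * u⁻¹) * u⁻¹ = u * u * a * (u * u)⁻¹ := by group
        _ = a := by rw [← c4]; group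
    rw [show (k - 1) * (k + 1) = k * k - 1 by ring, zpow_sub, this, zpow_one, mul_inv_cancel]
  rw [← orderOf_dvd_iff_zpow_eq_one, o] at c5
  rcases (Nat.prime_iff_prime_int.1 h.pp).dvd_or_dvd c5 with c | c
  · rw [← o, orderOf_dvd_iff_zpow_eq_one, zpow_sub, hk, zpow_one, mul_inv_eq_one,
      mul_inv_eq_iff_eq_mul] at c
    exact absurd ⟨ρ, hρ, u, c.symm, e⟩ h2
  · rw [← o, orderOf_dvd_iff_zpow_eq_one, zpow_add, hk, zpow_one] at c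
    exact ⟨ρ, hρ, u, eq_inv_of_mul_eq_one_left c, e⟩

end Hyp

end Cfsg.Agent.Q3
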