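import Mathlib
import Cfsg.Agent.Q3.GeoB

/-!
S3256 (Q3 = port of Q2 without `nc`): flat lines.
-/

set_option autoImplicit false
set_option linter.unusedSectionVars false
set_option linter.unusedVariables false

namespace Cfsg.Agent.Q3

open Subgroup Cfsg Cfsg.Agent.PLocal.Amb Cfsg.Agent.FrD
open scoped commutatorElement

variable {G : Type*} [Group G] [Finite G] {p : ℕ} {D : Set (Subgroup G)}

theorem geoc_gen {I : Set G} (h1 : ∀ x ∈ I, x * x = 1) (h2 : ∀ x ∈ I, ∀ y ∈ I, x⁻¹ * y * (x⁻¹ * y) = 1) :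
    closure I ≤ 𝐂[closure I] ∧ ∀ x ∈ closure I, x * x = 1 := by
  have hc : closure I ≤ 𝐂[closure I] := by
    rw [centralizer_closure, closure_le]
    intro y hy x hx
    have e := h2 x hx y hy
    rw [inv_eq_of_mul_eq_one_right (h1 x hx)] at e
    rw [eq_inv_of_mul_eq_one_left e, mul_inv_rev, inv_eq_of_mul_eq_one_right (h1 x hx),
      inv_eq_of_mul_eq_one_right (h1 y hy)]
  refine ⟨hc, fun x hx => ?_⟩
  induction hx using closure_induction with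
  | mem x hx => exact h1 x hx
  | one => exact mul_one 1
  | mul x y hx hy ex ey => rw [mul_assoc, ← mul_assoc y, hc hx y hy, mul_assoc, ey, mul_one, ex]
  | inv x hx ex => rw [← mul_inv_rev, ex, inv_one]

namespace Hyp

variable (h : Hyp p 2 D) {A : Subgroup G} {a b c : G}
include h

/-- PROOF.  `i = a⁻¹ b` is tame (`tame_of_par`) and inverts `g = a⁻¹ c = i (b⁻¹ c)`; `mem_of_inv` with
`H = zpowers a ⊔ zpowers c` (`sm_line`, `dcl_sup`). -/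
theorem par_trans (e : Par D a b) (e' : Par D b c) (h1 : a⁻¹ * b * (a⁻¹ * b) = 1)
    (h2 : b⁻¹ * c * (b⁻¹ * c) = 1) : Par D a c := by
  refine ⟨e.l, e'.r, h.mem_of_inv (h.sm_line e.l e'.r) e.l le_sup_left ?_ (h.tame_of_par e) ?_⟩
  · rw [dcl_sup e.l e'.r]
    exact mul_mem (inv_mem (mem_sup_left (mem_zpowers a))) (mem_sup_right (mem_zpowers c))
  · calc _ = a⁻¹ * b * (a⁻¹ * b) * (b⁻¹ * c * (b⁻¹ * c)) * (a⁻¹ * c)⁻¹ := by group
      _ = _ := by rw [h1, h2, one_mul, one_mul]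

/-- PROOF.  As `Q2.Pre.expo` with `I = {a⁻¹ * b | Par D a b}`: for `b, b'` parallel to `a`, `Par D b b'`
(`par_symm`, `par_trans`), so `(b⁻¹ b') (b⁻¹ b') = 1`; `a` permutes `I` (`par_cj`); `exists_par`. -/
theorem expo (h0 : ∀ A ∈ D, ∀ B ∈ D, ∀ x ∈ rad D (A ⊔ B), x * x = 1) (hA : A ∈ D) :
    ∃ E : Subgroup G, IsPGroup 2 E ∧ A ≤ 𝐍[E] ∧ ∀ B ∈ D, B ≤ E ⊔ A := by
  obtain ⟨a, -, rfl⟩ := h.exists_gen hA
  have sq : ∀ {a b : G}, Par D a b → a⁻¹ * b * (a⁻¹ * b) = 1 := fun e => h0 _ e.l _ e.r _ e.mem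
  obtain ⟨-, k⟩ := geoc_gen (I := {y | ∃ b, Par D a b ∧ y = a⁻¹ * b}) (by rintro _ ⟨b, e, rfl⟩; exact sq e) (by
    rintro _ ⟨b, e, rfl⟩ _ ⟨b', e', rfl⟩
    rw [show (a⁻¹ * b)⁻¹ * (a⁻¹ * b') = b⁻¹ * b' by group]
    exact sq (h.par_trans (h.par_symm e) e' (sq (h.par_symm e)) (sq e')))
  refine ⟨_, isPGroup_iff.2 fun x hx => ⟨1, (pow_two x).trans (k x hx)⟩, zpowers_le.2 (mem_normalizer_of_cj_le
    (map_le_iff_le_comap.2 ((closure_le _).2 ?_))), fun B hB => ?_⟩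
  · rintro _ ⟨b, e, rfl⟩
    exact subset_closure ⟨a * b * a⁻¹, by simpa using h.par_cj e a, by simp [mul_assoc]⟩
  · obtain ⟨b, rfl, e⟩ := h.exists_par hA hB
    rw [zpowers_le, ← mul_inv_cancel_left a b]
    exact mul_mem (mem_sup_right (mem_zpowers a)) (mem_sup_left (subset_closure ⟨b, e, rfl⟩))

end Hyp

/-- If all lines are flat the hypotheses `n1`-`n4` hold.  PROOF.  Let `R = ⁅P, A⁆`, `A = zpowers a`,
`R = ⁅R, A⁆` (`comm_comm`).  `H = P ⊔ A` is `Sm` (`sm_of`).  For `x, y ∈ P`, `b = x a x⁻¹`, `b' = y a y⁻¹` are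
parallel (`par_of_mem`; `rad D H ≥ ⁅P, A⁆` by `comm_le_rad`, `b⁻¹ b' ∈ ⁅P, A⁆`), so `(b⁻¹ b') (b⁻¹ b') = 1`.
So (as in `Q2.Pre.expo`) the `a⁻¹ (x a x⁻¹)` commute and have square 1; they generate an `A`-invariant
group containing all `⁅x, a ^ i⁆`, so `R` is commutative of exponent 2. -/
theorem Pre.hyp_flat (h : Pre p 2 D) (h0 : ∀ A ∈ D, ∀ B ∈ D, ∀ x ∈ rad D (A ⊔ B), x * x = 1) :
    Hyp p 2 D := by
  have key : ∀ A ∈ D, ∀ P : Subgroup G, IsPGroup 2 P → A ≤ 𝐍[P] → ⁅P, A⁆ ≤ 𝐂[⁅P, A⁆] ∧ ∀ x ∈ ⁅P, A⁆, x * x = 1 := by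
    intro A hA P hP hn
    obtain ⟨a, -, rfl⟩ := h.exists_gen hA
    have hs := h.sm_of hA hP hn (le_sup_right (a := P)) fun _ _ e => e
    have m1 : ∀ x ∈ P, a⁻¹ * (x * a * x⁻¹) ∈ rad D (P ⊔ zpowers a) := fun x hx => by
      have := inv_mem (h.comm_le_rad hA hP hn le_sup_left le_sup_right
        (commutator_mem_commutator hx (inv_mem (mem_zpowers a))))
      simpa only [commutatorElement_def, mul_inv_rev, inv_inv, mul_assoc] using this
    have pt : ∀ x : G, zpowers (x * a * x⁻¹) ∈ D := fun x => by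
      have := h.inv _ hA x
      rwa [MonoidHom.map_zpowers] at this
    have mH : ∀ x ∈ P, x * a * x⁻¹ ∈ P ⊔ zpowers a := fun x hx =>
      mul_mem (mul_mem (mem_sup_left hx) (mem_sup_right (mem_zpowers a))) (inv_mem (mem_sup_left hx))
    have sq : ∀ x ∈ P, ∀ y ∈ P, (a⁻¹ * (x * a * x⁻¹))⁻¹ * (a⁻¹ * (y * a * y⁻¹)) *
        ((a⁻¹ * (x * a * x⁻¹))⁻¹ * (a⁻¹ * (y * a * y⁻¹))) = 1 := fun x hx y hy => by
      have m := mul_mem (inv_mem (m1 x hx)) (m1 y hy)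
      rw [show (a⁻¹ * (x * a * x⁻¹))⁻¹ * (a⁻¹ * (y * a * y⁻¹)) = (x * a * x⁻¹)⁻¹ * (y * a * y⁻¹) by group] at m ⊢
      exact h0 _ (pt x) _ (pt y) _ (h.par_of_mem hs (pt x) (pt y) (mH x hx) (mH y hy) m).mem
    obtain ⟨k1, k2⟩ := geoc_gen (I := {y | ∃ x ∈ P, y = a⁻¹ * (x * a * x⁻¹)})
      (by rintro _ ⟨x, hx, rfl⟩; simpa using sq 1 (one_mem P) x hx)
      (by rintro _ ⟨x, hx, rfl⟩ _ ⟨y, hy, rfl⟩; exact sq x hx y hy)
    have na : a ∈ 𝐍[closure {y | ∃ x ∈ P, y = a⁻¹ * (x * a * x⁻¹)}] :=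
      mem_normalizer_of_cj_le (map_le_iff_le_comap.2 ((closure_le _).2 (by
        rintro _ ⟨x, hx, rfl⟩
        exact subset_closure ⟨_, conj_mem_of_mem_normalizer (hn (mem_zpowers a)) hx, by simp [mul_assoc]⟩)))
    have le : ⁅P, zpowers a⁆ ≤ closure {y | ∃ x ∈ P, y = a⁻¹ * (x * a * x⁻¹)} := commutator_le.2 fun x hx c hc => by
      rw [← zpowers_inv] at hc
      obtain ⟨n, rfl⟩ := mem_powers_iff_mem_zpowers.2 hc
      clear hc
      induction n with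
      | zero => simp
      | succ n ih =>
        rw [show ⁅x, (fun n : ℕ => a⁻¹ ^ n) (n + 1)⁆ = (a⁻¹ * (x * a * x⁻¹))⁻¹ * (a⁻¹ * ⁅x, a⁻¹ ^ n⁆ * a⁻¹⁻¹) by
          simp only [commutatorElement_def, pow_succ']; group]
        exact mul_mem (inv_mem (subset_closure ⟨x, hx, rfl⟩)) (conj_mem_of_mem_normalizer (inv_mem na) ih)
    exact ⟨le.trans (k1.trans (centralizer_le le)), fun x hx => k2 x (le hx)⟩
  exact { h with
    n1 := fun A hA P hP hn => inf_le_left.trans (key A hA P hP hn).1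
    n2 := fun A hA P hP hn => (commutator_eq_bot_iff_le_centralizer.2 (key A hA P hP hn).1).le.trans bot_le
    n3 := fun A hA P hP hn x hx => (key A hA P hP hn).2 x hx ▸ one_mem _
    n4 := fun A hA P hP hn x hx => (key A hA P hP hn).2 x hx.1 }

end Cfsg.Agent.Q3
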