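import Mathlib
import Cfsg.Agent.Q3.BDefs
import Cfsg.Agent.Q3.GeoC

/-!
S3256 (Q3 = port of Q2 without `nc`): blocks with `Z ≠ ⊥`.
-/

set_option autoImplicit false
set_option linter.unusedSectionVars false
set_option linter.unusedVariables false

namespace Cfsg.Agent.Q3

open Subgroup Cfsg Cfsg.Agent.PLocal.Amb Cfsg.Agent.FrD
open scoped commutatorElement

variable {G : Type*} [Group G] [Finite G] {p : ℕ} {D : Set (Subgroup G)}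

namespace Ce

variable (h : Ce p 2 D) {A B H M M' X Y : Subgroup G}
include h

theorem syl_nz (h1 : rad D M ⊓ 𝐂[A] ≠ ⊥) (g : G) : rad D cj(g, M) ⊓ 𝐂[cj(g, A)] ≠ ⊥ := by
  rwa [h.rad_cj, centralizer_cj, ← cj_inf, Ne, cj_eq_bot]

theorem syl_ex (h1 : X ≠ ⊥) : ∃ c ∈ X, c ≠ 1 := by
  obtain ⟨⟨c, hc⟩, c1⟩ := ne_bot_iff_exists_ne_one.1 h1
  exact ⟨c, hc, fun e => c1 (Subtype.ext e)⟩

theorem syl_cj {g : G} (hg : g ∈ 𝐂[A]) : cj(g, A) = A :=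
  cj_of_mem_normalizer (centralizer_le_normalizer' A hg)

theorem syl_pg {u : G} (hu : u * u = 1) : IsPGroup 2 (zpowers u) :=
  isPGroup_zpowers ⟨1, by rw [pow_one, pow_two, hu]⟩

/-- PROOF.  `a y a⁻¹ = (a ρ a⁻¹) ρ⁻¹ y` (copy `Q2.Ce.le_normalizer_of_rad`). -/
theorem le_normalizer_of_rad (hAH : A ≤ H) (h1 : rad D H ≤ Y)
    (h2 : ∀ y ∈ Y, ∃ ρ ∈ rad D H, ∃ u ∈ 𝐂[A], y = ρ * u) : A ≤ 𝐍[Y] := by
  refine le_normalizer_iff_cj.2 fun a ha => cj_le_iff_forall.2 fun y hy => ?_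
  obtain ⟨ρ, hρ, u, hu, rfl⟩ := h2 y hy
  have e : a * (ρ * u) * a⁻¹ = a * ρ * a⁻¹ * ρ⁻¹ * (ρ * u) := by
    calc a * (ρ * u) * a⁻¹ = a * ρ * a⁻¹ * (a * u) * a⁻¹ := by group
      _ = _ := by rw [mem_centralizer_iff.1 hu a ha]; group
  rw [e]
  exact mul_mem (h1 (mul_mem (conj_mem_of_mem_normalizer (h.le_normalizer_rad H (hAH ha)) hρ)
    (inv_mem hρ))) hy

/-- every two points lie in a block (`exists_blk`, `line_ne_top`) -/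
theorem exists_blk_line (hA : A ∈ D) (hB : B ∈ D) : ∃ M, Blk D M ∧ A ≤ M ∧ B ≤ M := by
  obtain ⟨M, hM, hle⟩ := exists_blk (D := D) (h.line_ne_top hA hB)
  rw [dcl_sup hA hB] at hle
  exact ⟨M, hM, le_sup_left.trans hle, le_sup_right.trans hle⟩

/-- PROOF.  `le_blk` with `H = M'` (`hM'.eq`), `Blk.eq_of_le`. -/
theorem blk_eq_of_norm (hM : Blk D M) (hM' : Blk D M') (hA : A ∈ D) (hAM : A ≤ M) (hAM' : A ≤ M')
    {c : G} (hc : c ∈ rad D M ⊓ 𝐂[A]) (h1 : c ≠ 1) (hn : c ∈ 𝐍[M']) : M' = M :=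
  hM'.eq_of_le hM (hM'.eq.ge.trans (h.le_blk hM hA hAM hc h1 hM'.ne_top hAM' (by rwa [hM'.eq])))

/-- PROOF.  `X₀ = X ⊓ 𝐍[M] ∋ c` (`cent_rad`: `c` centralises `M`).  For `x ∈ X ⊓ 𝐍[X₀]`, `x c x⁻¹ ∈ 𝐍[M]` lies
in `rad D cj(x, M) ⊓ 𝐂[A]`, `A ≤ cj(x, M)`, so `M = cj(x, M)` (`blk_eq_of_norm`), `x ∈ X₀`;
`eq_of_inf_normalizer_le`. -/
theorem le_normalizer_of_mem (hM : Blk D M) (hA : A ∈ D) (hAM : A ≤ M) (hX : IsPGroup 2 X)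
    (hn : X ≤ 𝐂[A]) {c : G} (hc : c ∈ rad D M ⊓ 𝐂[A]) (h1 : c ≠ 1) (hcX : c ∈ X) : X ≤ 𝐍[M] := by
  have c1 := h.cent_rad hM.ne_top hA hAM hc
  rw [hM.eq] at c1
  refine (eq_of_inf_normalizer_le hX (inf_le_left (b := 𝐍[M])) fun x hx => ⟨hx.1, ?_⟩).ge.trans inf_le_right
  have k := conj_mem_of_mem_normalizer hx.2 (mem_inf.2 ⟨hcX, centralizer_le_normalizer' M c1⟩)
  refine cj_eq_iff.1 (h.blk_eq_of_norm (h.blk_cj hM x) hM hA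
    ((h.syl_cj (hn hx.1)).ge.trans (cj_mono x hAM)) hAM (c := x * c * x⁻¹) ⟨?_, hn k.1⟩
    (fun e => h1 (conj_eq_one_iff.1 e)) k.2).symm
  rw [h.rad_cj]
  exact conj_mem_cj x hc.1

/-- every 2-subgroup of `C(A)` normalises a conjugate of `M`.  PROOF.  A Sylow 2-subgroup `T` of `𝐂[A]`
containing `rad D M ⊓ 𝐂[A]` lies in `𝐍[M]` (`le_normalizer_of_mem`), `X ≤ cj(g, T)`. -/
theorem exists_norm (hM : Blk D M) (hA : A ∈ D) (hAM : A ≤ M) (h1 : rad D M ⊓ 𝐂[A] ≠ ⊥)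
    (hX : IsPGroup 2 X) (hn : X ≤ 𝐂[A]) : ∃ g ∈ 𝐂[A], X ≤ 𝐍[cj(g, M)] := by
  obtain ⟨T, hT, le⟩ := exists_isSyl_ge (L := 𝐂[A]) (h.rad_pg hM.ne_top).to_inf_left inf_le_right
  obtain ⟨c, hc, c1⟩ := h.syl_ex h1
  obtain ⟨g, hg, k⟩ := hT.exists_le_cj hX hn
  refine ⟨g, hg, k.trans ?_⟩
  rw [normalizer_cj]
  exact cj_mono g (h.le_normalizer_of_mem hM hA hAM hT.2 hT.1 hc c1 (le hc))

/-- `exists_norm` with `X = rad D M' ⊓ 𝐂[A]`, `blk_eq_of_norm` -/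
theorem blk_conj (hM : Blk D M) (hM' : Blk D M') (hA : A ∈ D) (hAM : A ≤ M) (hAM' : A ≤ M')
    (h1 : rad D M ⊓ 𝐂[A] ≠ ⊥) (h1' : rad D M' ⊓ 𝐂[A] ≠ ⊥) : ∃ c ∈ 𝐂[A], M' = cj(c, M) := by
  obtain ⟨g, hg, k⟩ := h.exists_norm hM hA hAM h1 (h.rad_pg hM'.ne_top).to_inf_left inf_le_right
  obtain ⟨c, hc, c1⟩ := h.syl_ex h1'
  exact ⟨g, hg, (h.blk_eq_of_norm hM' (h.blk_cj hM g) hA hAM' ((h.syl_cj hg).ge.trans (cj_mono g hAM)) hc c1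
    (k hc)).symm⟩

/-- PROOF.  Suppose `𝐂[A] ≤ 𝐍[M]`; then `M` is the only block on `A` with `Z ≠ ⊥` (`blk_conj`), and the same
holds for every point `A' = cj(x, A) ≤ M`, `x ∈ R = rad D M` (`exists_cj`; `R ⊓ 𝐂[A'] = R ⊓ 𝐂[M]` by
`cent_rad`).  Take a point `B ≰ M` (`gen`).  For a point `A' ≤ M` the line `A' ⊔ B` lies in a block `M₁ ≠ M`
(`exists_blk_line`), which has `Z = ⊥`, so `rad D (A' ⊔ B)` has exponent 2 (`rad_sq`, `rad_mono`).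
`R` has an element `x` with `x x ≠ 1` (else `R = ⁅R, A⁆` is commutative and `R ⊓ 𝐂[A] = ⊥` by coprime
action, `ca find commutator_inf_centralizer`); `x = a⁻¹ a' ζ` (`exists_trans`), `z = (a⁻¹ a') (a⁻¹ a') =
x x ≠ 1` (`z_sq`), `z ∈ R ⊓ 𝐂[A]` (`rad_sq`).  `b` parallel to `a` generating `B` (`exists_par`), `a''`
parallel to `b` generating `zpowers a'`; `par_trans`, `par_unique`: `a'' = a'`.  The involution
`i = a⁻¹ b` inverts `a⁻¹ a' = i (b⁻¹ a')`, so centralises `z`: `i ∈ C(z) ≤ 𝐍[dcl D C(z)] = 𝐍[M]`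
(`dcl_cent`), `b ∈ 𝐍[M]`, `B ≤ dcl D 𝐍[M] = M` (`dcl_normalizer`). -/
theorem not_cent_le (hM : Blk D M) (hA : A ∈ D) (hAM : A ≤ M) (h1 : rad D M ⊓ 𝐂[A] ≠ ⊥) :
    ¬ 𝐂[A] ≤ 𝐍[M] := by
  intro k
  obtain ⟨B, hB, hBM⟩ : ∃ B ∈ D, ¬ B ≤ M := by
    by_contra k
    push Not at k
    exact hM.ne_top (top_le_iff.1 (h.gen.ge.trans (sSup_le k)))
  have fl : ∀ A' ∈ D, A' ≤ M → ∀ y ∈ rad D (A' ⊔ B), y * y = 1 := fun A' hA' le y hy => by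
    obtain ⟨M₁, hM₁, a1, a2⟩ := h.exists_blk_line hA' hB
    have := h.rad_sq hM₁.ne_top hA' a1 (rad_mono (sup_le a1 a2) hy)
    by_contra y1
    obtain ⟨x, hx, rfl⟩ := h.exists_cj (h.sm M hM.ne_top) hA hA' hAM le
    have xM := cj_of_mem (rad_le M hx)
    obtain ⟨c, hc, e⟩ := h.blk_conj hM hM₁ hA' le a1 (xM ▸ h.syl_nz h1 x)
      fun e => y1 (mem_bot.1 (e ▸ this))
    rw [centralizer_cj] at hc
    have := cj_mono x k hc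
    rw [← normalizer_cj, xM, ← cj_eq_iff] at this
    exact hBM (this ▸ e ▸ a2)
  obtain ⟨x, hx, xx⟩ : ∃ x ∈ rad D M, x * x ≠ 1 := by
    by_contra k
    push Not at k
    have i : ∀ y ∈ rad D M, y⁻¹ = y := fun y hy => inv_eq_of_mul_eq_one_right (k y hy)
    have : IsMulCommutative (rad D M) := ⟨⟨fun a b => Subtype.ext (by
      rw [coe_mul, coe_mul, ← i _ (mul_mem a.2 b.2), mul_inv_rev, i _ a.2, i _ b.2])⟩⟩
    have := Solv.coprime_centralizer_inf_commutator A (rad D M) (hAM.trans (h.le_normalizer_rad M))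
      (h.cop hA (h.rad_pg hM.ne_top))
    rw [h.rad_comm hM.ne_top hA hAM, inf_eq_left.2 inf_le_left] at this
    exact h1 this
  obtain ⟨a, -, rfl⟩ := h.exists_gen hA
  have aM : a ∈ M := hAM (mem_zpowers a)
  obtain ⟨a', a'M, p1, ζ, hζ, ex⟩ := h.exists_trans (h.sm M hM.ne_top) hA aM hx
  rw [hM.eq] at hζ
  have z2 := h.z_sq hM.ne_top hA hAM (x := ζ) ⟨hζ.1, centralizer_anti hAM hζ.2⟩
  have z3 := h.rad_sq hM.ne_top hA hAM hx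
  have e1 : x * x = a⁻¹ * a' * (a⁻¹ * a') := by
    have := mem_centralizer_iff.1 hζ.2 _ (mul_mem (inv_mem aM) a'M)
    rw [ex, mul_assoc, ← mul_assoc ζ, ← this, mul_assoc _ ζ, z2, mul_one]
  obtain ⟨b, rfl, p2⟩ := h.exists_par hA hB
  obtain ⟨a'', e2, p3⟩ := h.exists_par hB p1.r
  have i2 := fl _ hA hAM _ p2.mem
  have j2 := fl _ p3.r (e2 ▸ zpowers_le.2 a'M) _ (sup_comm (zpowers b) _ ▸ p3.mem)
  obtain rfl := h.par_unique p1 (h.par_trans p2 p3 i2 j2) e2.symm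
  have z4 := h.z_sq hM.ne_top hA hAM z3
  have e3 : a⁻¹ * b * (a⁻¹ * a') * (a⁻¹ * b)⁻¹ = (a⁻¹ * a')⁻¹ := by
    rw [show a⁻¹ * a' = a⁻¹ * b * (b⁻¹ * a') by group, ← mul_assoc, i2, one_mul, mul_inv_rev (a⁻¹ * b),
      inv_eq_of_mul_eq_one_right j2]
  have e4 : a⁻¹ * b ∈ centralizer {x * x} := mem_centralizer_singleton_iff.2 (by
    rw [← mul_inv_eq_iff_eq_mul, e1, ← conj_mul, e3, ← mul_inv_rev, ← e1, inv_eq_of_mul_eq_one_right z4])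
  have e5 := h.le_normalizer_dcl _ e4
  rw [h.dcl_cent hM hA hAM z3 xx, mul_mem_cancel_left (inv_mem (le_normalizer aM))] at e5
  exact hBM ((le_dcl hB (zpowers_le.2 e5)).trans (h.dcl_normalizer hM hA hAM).le)

/-- PROOF.  `J = B ⊔ cj(c, B) = dcl D J ≠ ⊤` is normalised by `c`, `R_J = rad D J`.  If
`Z_J = R_J ⊓ 𝐂[B] = R_J ⊓ 𝐂[J] ≠ ⊥` (`cent_rad`), `c` centralises some `1 ≠ d ∈ Z_J`
(`inf_centralizer_ne_bot`), a block `M' ≥ J` (`exists_blk_line`) has `d ∈ rad D M' ⊓ 𝐂[B]`,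
`c ∈ C(d) ≤ 𝐍[M']` (`dcl_cent`, `le_normalizer_dcl`).  Else `R_J` has exponent 2 (`rad_sq`).  `c = ρ u`
(`tame_of_cent`, `pl_of_tame`), `u u ∈ R_J ⊓ 𝐂[B] = ⊥`, `u ρ u⁻¹ = ρ⁻¹ = ρ`; so `u` centralises `B`,
`cj(c, B) = cj(ρ, B)`, `J`.  `u ≠ 1`: else `c = b⁻¹ b' ζ` (`exists_trans`), `ζ ∈ Z_J = ⊥`, and `no_fix` with
`C = A` gives `b = b'` (`par_unique`), `c = 1`.  `B = cj(x, A)`, `M₀ = cj(x, M)`; `exists_norm`: `u`
normalises a block `M' ≥ B` with `Z' ≠ ⊥`, so centralises some `1 ≠ z' ∈ Z'`; `H = C(u) ≠ ⊤`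
(`cent_ne_top`), `le_blk`: `J ≤ dcl D H ≤ M'`; `ρ ∈ M'`. -/
theorem exists_blk_inv (hM : Blk D M) (hA : A ∈ D) (hAM : A ≤ M) {c : G} (hc : c ∈ rad D M ⊓ 𝐂[A])
    (h1 : c ≠ 1) (hB : B ∈ D) :
    ∃ M', Blk D M' ∧ B ≤ M' ∧ rad D M' ⊓ 𝐂[B] ≠ ⊥ ∧ c ∈ 𝐍[M'] := by
  have cc := h.z_sq hM.ne_top hA hAM hc
  have hB' := h.inv B hB c
  have hJ := h.line_ne_top hB hB'
  have dJ := dcl_sup hB hB'
  have n1 : c ∈ 𝐍[B ⊔ cj(c, B)] := by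
    rw [← cj_eq_iff, cj_sup, ← cj_mul, cc, cj_one, sup_comm]
  by_cases hZ : rad D (B ⊔ cj(c, B)) ⊓ 𝐂[B] = ⊥
  swap
  · have k := h.cent_rad hJ hB le_sup_left
    rw [dJ] at k
    obtain ⟨d, ⟨⟨d1, d2⟩, d3⟩, d4⟩ := h.syl_ex (inf_centralizer_ne_bot (h.syl_pg cc)
      (V := rad D (B ⊔ cj(c, B)) ⊓ 𝐂[B ⊔ cj(c, B)]) (h.rad_pg hJ).to_inf_left
      (le_normalizer_inf (zpowers_le.2 (h.normalizer_le_rad _ n1))
        (zpowers_le.2 (normalizer_le_normalizer_centralizer _ n1)))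
      fun e => hZ (eq_bot_iff.2 ((le_inf inf_le_left k).trans e.le)))
    obtain ⟨M', hM', a1, a2⟩ := h.exists_blk_line hB hB'
    have d5 : d ∈ rad D M' ⊓ 𝐂[B] := ⟨rad_mono (sup_le a1 a2) d1, centralizer_anti le_sup_left d2⟩
    refine ⟨M', hM', a1, fun e => d4 (mem_bot.1 (e ▸ d5)), ?_⟩
    rw [← h.dcl_cent hM' hB a1 d5 d4]
    exact h.le_normalizer_dcl _ (mem_centralizer_singleton_iff.2 (d3 c (mem_zpowers c)))
  have z : ∀ y ∈ rad D (B ⊔ cj(c, B)), y ∈ 𝐂[B] → y = 1 := fun y a b => mem_bot.1 (hZ ▸ mem_inf.2 ⟨a, b⟩)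
  obtain ⟨ρ, hρ, u, hu, e⟩ := h.pl_of_tame (h.sm_line hB hB') hB le_sup_left (dJ.symm ▸ n1) cc
    (h.tame_of_cent hA hc.2)
  have ρJ := rad_le _ hρ
  have uJ : u ∈ 𝐍[B ⊔ cj(c, B)] := (mul_mem_cancel_left (le_normalizer ρJ)).1 (e ▸ n1)
  have r1 := mul_mem hρ (conj_mem_of_mem_normalizer (h.normalizer_le_rad _ uJ) hρ)
  have e1 : ρ * (u * ρ * u⁻¹) * (u * u) = 1 := by rw [← cc]; nth_rw 1 2 [e]; group
  have uu : u * u = 1 := z _ (by rw [eq_inv_of_mul_eq_one_right e1]; exact inv_mem r1) (mul_mem hu hu)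
  have ρρ : ρ * ρ = 1 := have := h.rad_sq hJ hB le_sup_left hρ; z _ this.1 this.2
  have uρ : u * ρ = ρ * u := by
    rw [uu, mul_one, ← ρρ, mul_right_inj, mul_inv_eq_iff_eq_mul] at e1
    exact e1
  have BH : B ≤ centralizer {u} := fun y hy => mem_centralizer_singleton_iff.2 (hu y hy)
  have JH : B ⊔ cj(c, B) ≤ centralizer {u} := sup_le BH (cj_le_of_mem BH (by
    rw [e]
    exact mul_mem (mem_centralizer_singleton_iff.2 uρ.symm) (mem_centralizer_singleton_iff.2 rfl)))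
  have u1 : u ≠ 1 := fun k => by
    rw [k, mul_one] at e
    obtain ⟨b, -, rfl⟩ := h.exists_gen hB
    obtain ⟨b', -, p1, ζ, hζ, ex⟩ := h.exists_trans (h.sm_line hB hB') hB
      (mem_sup_left (mem_zpowers b)) hρ
    rw [z ζ hζ.1 (centralizer_anti (le_sup_left.trans dJ.ge) hζ.2), mul_one, ← e] at ex
    by_cases ne : zpowers b = zpowers b'
    · exact h1 (by rw [ex, ← h.par_unique (h.par_refl hB) p1 ne, inv_mul_cancel])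
    · exact h.no_fix p1 ne hA (ex ▸ centralizer_le_normalizer' A hc.2)
  obtain ⟨x, -, ex⟩ := h.exists_cj (h.sm_line hA hB) hA hB le_sup_left le_sup_right
  have b0 : B ≤ cj(x, M) := ex.le.trans (cj_mono x hAM)
  have n0 : rad D cj(x, M) ⊓ 𝐂[B] ≠ ⊥ := ex ▸ h.syl_nz (fun k => h1 (mem_bot.1 (k ▸ hc))) x
  obtain ⟨g, hg, k⟩ := h.exists_norm (h.blk_cj hM x) hB b0 n0 (h.syl_pg uu) (zpowers_le.2 hu)
  have hM' := h.blk_cj (h.blk_cj hM x) g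
  have b1 : B ≤ cj(g, cj(x, M)) := (h.syl_cj hg).ge.trans (cj_mono g b0)
  have n2 := h.syl_nz n0 g
  rw [h.syl_cj hg] at n2
  obtain ⟨d, ⟨d1, d2⟩, d3⟩ := h.syl_ex (inf_centralizer_ne_bot (h.syl_pg uu) (h.rad_pg hM'.ne_top).to_inf_left
    (le_normalizer_inf (k.trans (h.normalizer_le_rad _)) ((zpowers_le.2 hu).trans le_normalizer)) n2)
  have le := h.le_blk hM' hB b1 d1 d3 (h.cent_ne_top (h.syl_pg uu) (mem_zpowers u) u1) BH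
    (h.le_normalizer_dcl _ (mem_centralizer_singleton_iff.2 (d2 u (mem_zpowers u)).symm))
  refine ⟨_, hM', b1, n2, ?_⟩
  rw [e]
  exact mul_mem (le_normalizer (le (dcl_mono JH (dJ.ge ρJ)))) (k (mem_zpowers u))

/-- PROOF.  Else all lines are flat (`exists_blk_line`, `rad_sq`, `rad_mono`); `expo`, `sup_ne_top`, `gen`
(as `Q2.Ce.Z_ne_bot`). -/
theorem exists_nz : ∃ M, Blk D M ∧ ∃ A ∈ D, A ≤ M ∧ rad D M ⊓ 𝐂[A] ≠ ⊥ := by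
  by_contra k
  push Not at k
  obtain ⟨A, hA, -⟩ := h.two
  obtain ⟨E, hE, hn, hle⟩ := h.expo (fun A hA B hB x hx => by
    obtain ⟨M', hM', h1, h2⟩ := h.exists_blk_line hA hB
    have := h.rad_sq hM'.ne_top hA h1 (rad_mono (sup_le h1 h2) hx)
    rwa [k M' hM' A hA h1, Subgroup.mem_bot] at this) hA
  exact h.sup_ne_top hA hE hn (top_le_iff.1 (h.gen.ge.trans (sSup_le hle)))

end Ce

end Cfsg.Agent.Q3
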