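import Mathlib
import Cfsg.Agent.Q3.Syl
import Cfsg.Agent.Q3.LocA

/-!
S3256 (port of Q2 without nc, p ≥ 5; copy the proofs of Q2/FamB, `Fl` has the new field `nz`; in
`blk_eq_of_le` every element of `R ⊔ R'` is `ρ ρ'`): the family of block data.
-/

set_option autoImplicit false
set_option linter.unusedSectionVars false
set_option linter.unusedVariables false

namespace Cfsg.Agent.Q3

open Subgroup Cfsg Cfsg.Agent.PLocal.Amb Cfsg.Agent.FrD
open scoped commutatorElement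

variable {G : Type*} [Group G] [Finite G] {p : ℕ} {D : Set (Subgroup G)}

namespace Ce

variable (h : Ce p 2 D) {M M' : Subgroup G} {a b : G}
include h

/-- `Z` does not depend on the point (`cent_rad`, `Blk.eq`). -/
theorem Z_eq (f : Fl D M a) : (dat D M a).Z = rad D M ⊓ 𝐂[M] :=
  le_antisymm (le_inf inf_le_left ((h.cent_rad f.blk.ne_top f.pt f.le).trans_eq (by rw [f.blk.eq])))
    (inf_le_inf_left _ (centralizer_anti f.le))

/-- PROOF.  `ord`: `Nat.card_zpowers`.  `Zc, nZ`: `Z_eq`, `normalizer_le_rad`.  `Z2`: `z_sq`, `sq`: `rad_sq`,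
`gen`: `rad_comm`, `semi`: `Hyp.semi` with `H = M`, `cent`: `dcl_cent`, `le_normalizer_dcl`.  `nrm`:
`M = R ⊔ A ≤ 𝐍[X] ≠ ⊤`, so `dcl D 𝐍[X] = M`, `le_normalizer_dcl`. -/
theorem lc0 (f : Fl D M a) (h1 : (dat D M a).Z ≠ ⊥) : Lc0 p (dat D M a) := by
  have nR : 𝐍[M] ≤ 𝐍[rad D M] := h.normalizer_le_rad M
  have RM : rad D M ≤ M := le_sup_left.trans (h.blk_eq f.blk f.pt f.le).ge
  refine
    { pp := h.pp
      p2 := h.p2
      ord := (Nat.card_zpowers a).symm.trans (h.card _ f.pt)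
      pg := h.rad_pg f.blk.ne_top
      ne := h1
      ZR := inf_le_left
      Zc := ?_
      Za := fun c hc => hc.2 a (mem_zpowers a)
      Z2 := fun c hc => h.z_sq f.blk.ne_top f.pt f.le hc
      sq := fun x hx => h.rad_sq f.blk.ne_top f.pt f.le hx
      fix := fun x hx e => ⟨hx, ?_⟩
      gen := h.rad_comm f.blk.ne_top f.pt f.le
      RL := RM.trans le_normalizer
      aL := le_normalizer (f.le (mem_zpowers a))
      nR := nR
      nZ := ?_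
      semi := fun x hx k1 k2 => h.semi (h.sm M f.blk.ne_top) f.pt (f.le (mem_zpowers a))
        (by rwa [f.blk.eq]) k1 k2
      cent := fun c hc c1 => ?_
      nrm := fun X hX X1 k1 k2 => ?_ }
  · rw [h.Z_eq f]
    exact inf_le_right.trans (centralizer_anti RM)
  · rw [PLocal.Amb.centralizer_zpowers]
    exact mem_centralizer_singleton_iff.2 e.symm
  · rw [h.Z_eq f]
    exact le_normalizer_inf nR (normalizer_le_normalizer_centralizer M)
  · exact (h.le_normalizer_dcl _).trans_eq (by rw [h.dcl_cent f.blk f.pt f.le hc c1]; rfl)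
  · have k : M ≤ 𝐍[X] := (h.blk_eq f.blk f.pt f.le).le.trans (sup_le k1 (zpowers_le.2 k2))
    have e : dcl D 𝐍[X] = M := le_antisymm (f.blk.max _ (h.normalizer_ne_top hX X1) k)
      (f.blk.eq.ge.trans (dcl_mono k))
    exact (h.le_normalizer_dcl _).trans_eq (by rw [e]; rfl)

theorem fl_cj (f : Fl D M a) (g : G) : Fl D cj(g, M) (g * a * g⁻¹) := by
  have e : zpowers (g * a * g⁻¹) = cj(g, zpowers a) :=
    (MonoidHom.map_zpowers (MulAut.conj g).toMonoidHom a).symm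
  refine ⟨h.blk_cj f.blk g, e ▸ h.inv _ f.pt g, e ▸ cj_mono g f.le, ?_⟩
  rw [e, h.rad_cj, centralizer_cj, ← cj_inf]
  exact fun c => f.nz (cj_eq_bot.1 c)

/-- `rad_cj`, `cj_inf`, `centralizer_cj`, `normalizer_cj` -/
theorem dat_conj (M : Subgroup G) (a g : G) :
    (dat D M a).conj g = dat D cj(g, M) (g * a * g⁻¹) := by
  have e : zpowers (g * a * g⁻¹) = cj(g, zpowers a) :=
    (MonoidHom.map_zpowers (MulAut.conj g).toMonoidHom a).symm
  simp only [Dat.conj, dat, e, h.rad_cj, cj_inf, centralizer_cj, normalizer_cj]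

/-- PROOF.  `zpowers b = cj(x, zpowers a)` (`exists_cj`, `sm_line`), `blk_conj` for `cj(x, M)`, `M'`. -/
theorem blk_conj' (f : Fl D M a) (f' : Fl D M' b) : ∃ g : G, M' = cj(g, M) := by
  obtain ⟨x, -, e⟩ := h.exists_cj (h.sm_line f.pt f'.pt) f.pt f'.pt le_sup_left le_sup_right
  obtain ⟨c, -, e'⟩ := h.blk_conj (h.blk_cj f.blk x) f'.blk f'.pt (e ▸ cj_mono x f.le) f'.le (by
    rw [e, h.rad_cj, centralizer_cj, ← cj_inf]
    exact fun c => f.nz (cj_eq_bot.1 c)) f'.nz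
  exact ⟨c * x, by rw [cj_mul, e']⟩

/-- `blk_conj'`, `Z_eq`, `card_cj` -/
theorem card_Z (f : Fl D M a) (f' : Fl D M' b) :
    Nat.card (dat D M a).Z = Nat.card (dat D M' b).Z := by
  obtain ⟨g, rfl⟩ := h.blk_conj' f f'
  rw [h.Z_eq f, h.Z_eq f', h.rad_cj, centralizer_cj, ← cj_inf, card_cj]

/-- `dcl_cent` twice -/
theorem blk_eq_of_mem (f : Fl D M a) (f' : Fl D M' b) {c : G} (hc : c ∈ (dat D M a).Z)
    (hc' : c ∈ (dat D M' b).Z) (h1 : c ≠ 1) : M = M' :=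
  (h.dcl_cent f.blk f.pt f.le hc h1).symm.trans (h.dcl_cent f'.blk f'.pt f'.le hc' h1)

/-- PROOF.  `X = R ⊔ R'` is a 2-group (`R' ≤ 𝐍[M] ≤ 𝐍[R]`), nontrivial, normalised by `zpowers a`
(`le_normalizer_of_rad` with `H = M`) and `zpowers b`; so `M, M' ≤ 𝐍[X] ≠ ⊤` (`blk_eq`),
`M' ≤ dcl D 𝐍[X] ≤ M`.  (If `X = ⊥`: excluded by `h1`.) -/
theorem blk_eq_of_le (f : Fl D M a) (f' : Fl D M' b) (h1 : (dat D M a).Z ≠ ⊥)
    (h2 : rad D M ≤ 𝐍[M']) (h3 : rad D M' ≤ 𝐍[M]) (h4 : ∀ x ∈ rad D M, Pl (dat D M' b) x)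
    (h5 : ∀ x ∈ rad D M', Pl (dat D M a) x) : M = M' := by
  have key : ∀ {M M' : Subgroup G} {a : G}, Fl D M a → rad D M' ≤ 𝐍[M] →
      (∀ x ∈ rad D M', Pl (dat D M a) x) → M ≤ 𝐍[rad D M ⊔ rad D M'] := fun {M M' a} f h3 h5 =>
    (h.blk_eq f.blk f.pt f.le).le.trans (sup_le (le_sup_left.trans le_normalizer)
      (h.le_normalizer_of_rad f.le le_sup_left fun y hy => by
        obtain ⟨ρ, hρ, σ, hσ, rfl⟩ :=
          (mem_sup_of_le_normalizer_left (h3.trans (h.normalizer_le_rad M))).1 hy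
        obtain ⟨τ, hτ, u, hu, rfl⟩ := h5 σ hσ
        refine ⟨ρ * τ, mul_mem hρ hτ, u, ?_, (mul_assoc _ _ _).symm⟩
        rw [PLocal.Amb.centralizer_zpowers]
        exact mem_centralizer_singleton_iff.2 hu.symm))
  have n2 := h2.trans (h.normalizer_le_rad M')
  have hX := isPGroup_sup (h.rad_pg f.blk.ne_top) (h.rad_pg f'.blk.ne_top) n2
  have nt := h.normalizer_ne_top hX fun e => h1 (eq_bot_iff.2 (inf_le_left.trans (le_sup_left.trans e.le)))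
  have k1 := key f h3 h5
  have k2 := key f' h2 h4
  rw [sup_comm] at k2
  exact le_antisymm (f.blk.eq.ge.trans ((dcl_mono k1).trans (f'.blk.max _ nt k2)))
    (f'.blk.eq.ge.trans ((dcl_mono k2).trans (f.blk.max _ nt k1)))

/-- an element of `Z'` normalising `M ≠ M'` centralises no point of `M`.  PROOF.  A point `B ≤ M`
centralised by `z` lies in `dcl D C(z) = M'` (`dcl_cent`); `z ∈ rad D M' ⊓ 𝐂[B]`,
`blk_eq_of_norm`. -/
theorem blk_eq_of_cent (f : Fl D M a) (f' : Fl D M' b) {z : G} (hz : z ∈ (dat D M' b).Z) (h1 : z ≠ 1)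
    (hn : z ∈ 𝐍[M]) {B : Subgroup G} (hB : B ∈ D) (hBM : B ≤ M) (hc : z ∈ 𝐂[B]) : M = M' :=
  h.blk_eq_of_norm f'.blk f.blk hB ((le_dcl hB (le_cent_of_mem hc)).trans
    (h.dcl_cent f'.blk f'.pt f'.le hz h1).le) hBM ⟨hz.1, hc⟩ h1 hn

/-- PROOF.  `inv`: `fl_cj`, `dat_conj`; `ti`: `blk_eq_of_mem`, `Z_eq`; `mx0`: `blk_eq_of_le`, `Z_eq`;
`pl`: `tame_of_rad`, `pl_of_tame`. -/
theorem fam_of (p3 : p ≠ 3)
    (h2 : ∀ M a, Fl D M a → ∀ x ∈ 𝐍[M], Pl (dat D M a) x → (∃ k, x ^ 2 ^ k = 1) →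
      x ∈ 𝐂[(dat D M a).Z])
    (h4 : ∀ M a, Fl D M a → Nat.card (dat D M a).Z ≠ 2 → ∀ u ∈ 𝐍[M], a * u = u * a → u * u = 1 →
      u ∈ (dat D M a).Z)
    (h3 : ∀ M a, Fl D M a → ∀ M' b, Fl D M' b → M ≠ M' → ∀ ρ ∈ rad D M, ∀ u ∈ 𝐍[M], a * u = u * a →
      ρ * u ∈ (dat D M' b).Z → u * u = 1 → u ∈ (dat D M a).Z) : Fam p (fam D) := by
  have zz : ∀ {M M' : Subgroup G} {a b : G}, Fl D M a → Fl D M' b → M = M' →
      (dat D M a).Z = (dat D M' b).Z := fun f f' e => by subst e; rw [h.Z_eq f, h.Z_eq f']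
  refine
    { p3 := p3
      inv := ?_
      loc := ?_
      card := ?_
      ti := ?_
      pl := ?_
      mx0 := ?_
      dec4 := ?_
      dec := ?_ }
  · rintro _ ⟨M, a, f, rfl⟩ g
    exact ⟨_, _, h.fl_cj f g, h.dat_conj M a g⟩
  · rintro _ ⟨M, a, f, rfl⟩
    exact ⟨h.lc0 f f.nz, h2 M a f⟩
  · rintro _ ⟨M, a, f, rfl⟩ _ ⟨M', b, f', rfl⟩
    exact h.card_Z f f'
  · rintro _ ⟨M, a, f, rfl⟩ _ ⟨M', b, f', rfl⟩ c hc hc' c1
    have e := h.blk_eq_of_mem f f' hc hc' c1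
    exact ⟨by rw [dat_R, dat_R, e], zz f f' e, by rw [dat_L, dat_L, e]⟩
  · rintro _ ⟨M, a, f, rfl⟩ _ ⟨M', b, f', rfl⟩ x hx hL x2
    obtain ⟨ρ, hρ, u, hu, e⟩ := h.pl_of_tame (h.sm M f.blk.ne_top) f.pt f.le (c := x)
      (by rwa [f.blk.eq]) x2 (h.tame_of_rad (h.sm M' f'.blk.ne_top) hx x2)
    exact ⟨ρ, hρ, u, hu a (mem_zpowers a), e⟩
  · rintro _ ⟨M, a, f, rfl⟩ _ ⟨M', b, f', rfl⟩ k1 k2 k3 k4
    exact zz f f' (h.blk_eq_of_le f f' f.nz k1 k2 k3 k4)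
  · rintro _ ⟨M, a, f, rfl⟩
    exact h4 M a f
  · rintro _ ⟨M, a, f, rfl⟩ _ ⟨M', b, f', rfl⟩ ne
    exact h3 M a f M' b f' fun e => ne (zz f f' e)

/-- An involution `u` centralising `a` and normalising a second block.  PROOF.  `Z' = (dat D M' a).Z ≠ ⊥`
(`card_Z`) is normalised by `u`; take `1 ≠ z' ∈ Z'` commuting with `u` (`c * (u c u⁻¹)`, or `c` if that
is 1).  `z'` normalises `C(u) ≠ ⊤` (`cent_ne_top` with `zpowers u`), so `dcl D C(u) ≤ M'` (`le_blk`).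
`W₁ = ⁅W, A⁆ ≤ C(u)` (`comm_W_cent`) is an `A`-invariant 2-group, `W₁ = ⁅W₁, A⁆ ≤ rad D C(u) ≤ rad D M'`
(`comm_comm`, `comm_le_rad`, `rad_le_rad`). -/
theorem comm_W_le (f : Fl D M a) (f' : Fl D M' a) (h1 : (dat D M a).Z ≠ ⊥) {u : G} (hu : u * u = 1)
    (hu1 : u ≠ 1) (ha : a * u = u * a) (hn : u ∈ 𝐍[M]) (hn' : u ∈ 𝐍[M']) :
    ⁅W (dat D M a) u, zpowers a⁆ ≤ rad D M' := by
  have l := h.lc0 f h1
  have h1' : (dat D M' a).Z ≠ ⊥ := f'.nz
  have l' := h.lc0 f' h1'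
  have pu : IsPGroup 2 (zpowers u) := isPGroup_zpowers ⟨1, by rwa [pow_one, sq]⟩
  obtain ⟨⟨z, hz, zc⟩, z1⟩ := ne_bot_iff_exists_ne_one.1 (inf_centralizer_ne_bot pu (l'.pg.to_le l'.ZR)
    (zpowers_le.2 (l'.nZ hn')) h1')
  have nt := h.cent_ne_top pu (mem_zpowers u) hu1
  have au : zpowers a ≤ centralizer {u} := zpowers_le.2 (mem_centralizer_singleton_iff.2 ha)
  have k := h.le_blk f'.blk f'.pt f'.le hz (fun e => z1 (Subtype.ext e)) nt au
    (h.le_normalizer_dcl _ (mem_centralizer_singleton_iff.2 (zc u (mem_zpowers u)).symm))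
  have pW := l.pg.to_le (l.W_le u)
  have nW : zpowers a ≤ 𝐍[W (dat D M a) u] := zpowers_le.2 (l.W_norm (pl_of_comm ha))
  rw [← h.comm_comm f.pt pW nW]
  exact (h.comm_le_rad f.pt (pW.to_le (Solv.commutator_le_of_le_normalizer nW))
    (Solv.le_normalizer_commutator_right _ _) (l.comm_W_cent hn ha) au).trans (rad_le_rad k)

end Ce

end Cfsg.Agent.Q3
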