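import Mathlib
import Cfsg.Agent.Q3.LocA

/-!
S3256 (Q3 = port of Q2 without `nc`): three more lemmas on one datum.
-/

set_option autoImplicit false
set_option linter.unusedSectionVars false
set_option linter.unusedVariables false

namespace Cfsg.Agent.Q3

open Subgroup Cfsg Cfsg.Agent.PLocal.Amb
open scoped commutatorElement

variable {G : Type*} [Group G] [Finite G] {p : ℕ} {d : Dat G}

namespace Lc0

variable (h : Lc0 p d) {B B₀ B₁ : Subgroup G} {σ : G}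
include h

omit h in
theorem lA2_two {Z : Subgroup G} (hZ : Nat.card Z = 2) {x y : G} (hx : x ∈ Z) (hy : y ∈ Z)
    (x1 : x ≠ 1) (y1 : y ≠ 1) : x = y := by
  obtain ⟨z, -, hz⟩ := (Nat.card_eq_two_iff' (1 : Z)).1 hZ
  have e1 := hz ⟨x, hx⟩ fun c => x1 (congrArg Subtype.val c)
  have e2 := hz ⟨y, hy⟩ fun c => y1 (congrArg Subtype.val c)
  exact congrArg Subtype.val (e1.trans e2.symm)

/-- PROOF.  `B = closure {a ^ i σ a⁻¹ ^ i}` is `a`-invariant, `≤ R`, and commutative (conjugate by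
`a ^ j`; `a ^ p = 1`: `i ≡ j + (i + (p - 1) j)`); `ab`. -/
theorem ab_gen (hσ : σ ∈ d.R) (hc : ∀ i : ℕ, d.a ^ i * σ * (d.a ^ i)⁻¹ * σ = σ * (d.a ^ i * σ * (d.a ^ i)⁻¹)) :
    σ * σ = 1 := by
  have hp : d.a ^ p = 1 := by rw [← h.ord, pow_orderOf_eq_one]
  let S : Set G := {y | ∃ i : ℕ, y = d.a ^ i * σ * (d.a ^ i)⁻¹}
  have hS : ∀ x ∈ S, ∀ y ∈ S, y * x = x * y := by
    rintro _ ⟨i, rfl⟩ _ ⟨j, rfl⟩
    obtain ⟨q, hq⟩ : ∃ q, p = q + 1 := ⟨p - 1, by have := h.pp.pos; omega⟩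
    have e : d.a ^ i = d.a ^ j * d.a ^ (i + q * j) := by
      rw [← pow_add, show j + (i + q * j) = i + p * j by rw [hq]; ring, pow_add, pow_mul, hp,
        one_pow, mul_one]
    have k := hc (i + q * j)
    rw [e]
    generalize d.a ^ (i + q * j) = b at k
    generalize d.a ^ j = c
    calc _ = c * (σ * (b * σ * b⁻¹)) * c⁻¹ := by group
      _ = c * (b * σ * b⁻¹ * σ) * c⁻¹ := by rw [k]
      _ = _ := by group
  refine h.ab (B := closure S) ((closure_le _).2 ?_) ?_ ?_ (subset_closure ⟨0, by simp⟩)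
  · rintro _ ⟨i, rfl⟩
    exact h.lA_nr (pow_mem h.aL i) hσ
  · refine mem_normalizer_of_cj_le (cj_le_iff_forall.2 fun x hx => ?_)
    induction hx using closure_induction with
    | mem y hy =>
      obtain ⟨i, rfl⟩ := hy
      exact subset_closure ⟨i + 1, by rw [pow_succ']; group⟩
    | one => simp
    | mul y z _ _ hy hz =>
      rw [show d.a * (y * z) * d.a⁻¹ = d.a * y * d.a⁻¹ * (d.a * z * d.a⁻¹) by group]
      exact mul_mem hy hz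
    | inv y _ hy =>
      rw [show d.a * y⁻¹ * d.a⁻¹ = (d.a * y * d.a⁻¹)⁻¹ by group]
      exact inv_mem hy
  · rw [centralizer_closure]
    exact (closure_le _).2 fun x hx => mem_centralizer_iff.2 fun y hy => hS x hx y hy

/-- An `a`-invariant subgroup of index at most 2 of `R` is `R`.  PROOF.  `R = ⁅R, a⁆` (`gen`);
`⁅x, a ^ i⁆ = x * (a ^ i x⁻¹ a⁻¹ ^ i)`, and `x ∈ B` iff `a ^ i x⁻¹ a⁻¹ ^ i ∈ B`. -/
theorem le_of_idx (ha : d.a ∈ 𝐍[B]) (hi : ∀ x ∈ d.R, ∀ y ∈ d.R, x ∉ B → y ∉ B → x * y ∈ B) :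
    d.R ≤ B := by
  rw [← h.gen]
  refine commutator_le.2 fun x hx g hg => ?_
  obtain ⟨n, rfl⟩ := mem_powers_iff_mem_zpowers.2 hg
  rw [show ⁅x, d.a ^ n⁆ = x * (d.a ^ n * x⁻¹ * (d.a ^ n)⁻¹) by
    simp only [commutatorElement_def, mul_assoc]]
  by_cases c : x ∈ B
  · exact mul_mem c (conj_mem_of_mem_normalizer (pow_mem ha n) (inv_mem c))
  · refine hi x hx _ (h.lA_nr (pow_mem h.aL n) (inv_mem hx)) c fun k => c ?_
    exact inv_mem_iff.1 ((mem_normalizer_iff.1 (pow_mem ha n) _).2 k)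

/-- PROOF.  If `B` is commutative use `ab`.  Else take `τ ∈ B`, `τ ∉ B₀`; `C = B ⊓ 𝐂[B]` is `a`-invariant
and contains `B ⊓ Z`.  `w ↦ ⁅w, τ⁆` is a homomorphism `B₀ → Z` (`comm_mem`), `|Z| = 2`, its kernel `K`
centralises `B₀` and `τ`, so `K ≤ C` (`B = B₀ ∪ τ B₀`).  So `B` is the union of at most four cosets
`C, w C, τ C, τ w C`.  For `x ∈ B` two of the five elements `a ^ i x a⁻¹ ^ i` (`i < 5 ≤ p`) lie in the same
coset, so `a ^ k` (`0 < k < p`) and hence `a` fixes the coset `x C`.  So `⁅B, a⁆ ≤ C`, `B ≤ C`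
(`comm_sup`), `B` is commutative. -/
theorem ab2 (p3 : p ≠ 3) (hZ : Nat.card d.Z = 2) (hB : B ≤ d.R) (ha : d.a ∈ 𝐍[B]) (h0 : B₀ ≤ B)
    (hc : B₀ ≤ 𝐂[B₀]) (hi : ∀ x ∈ B, ∀ y ∈ B, x ∉ B₀ → y ∉ B₀ → x * y ∈ B₀) {x : G} (hx : x ∈ B) :
    x * x = 1 := by
  classical
  refine h.ab hB ha ?_ hx
  by_cases hb : B ≤ B₀
  · exact hb.trans (hc.trans (centralizer_le (SetLike.coe_subset_coe.2 hb)))
  obtain ⟨τ, hτ, hτ0⟩ := SetLike.not_le_iff_exists.1 hb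
  have kC : ∀ w ∈ B₀, w * τ = τ * w → w ∈ B ⊓ 𝐂[B] := fun w hw e => by
    refine ⟨h0 hw, mem_centralizer_iff.2 fun y hy => ?_⟩
    by_cases c : y ∈ B₀
    · exact mem_centralizer_iff.1 (hc hw) y c
    · have m := hi _ (inv_mem hτ) y hy (fun k => hτ0 (inv_mem_iff.1 k)) c
      have e2 := mem_centralizer_iff.1 (hc hw) _ m
      calc y * w = τ * (τ⁻¹ * y * w) := by group
        _ = τ * w * (τ⁻¹ * y) := by rw [e2]; group
        _ = w * y := by rw [← e]; group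
  have cC : ∀ g ∈ 𝐍[B], ∀ c ∈ B ⊓ 𝐂[B], g * c * g⁻¹ ∈ B ⊓ 𝐂[B] := fun g hg c hc' => by
    refine ⟨conj_mem_of_mem_normalizer hg hc'.1, mem_centralizer_iff.2 fun y hy => ?_⟩
    have e := mem_centralizer_iff.1 hc'.2 _ (conj_mem_of_mem_normalizer (inv_mem hg) hy)
    calc y * (g * c * g⁻¹) = g * (g⁻¹ * y * g⁻¹⁻¹ * c) * g⁻¹ := by group
      _ = g * (c * (g⁻¹ * y * g⁻¹⁻¹)) * g⁻¹ := by rw [e]
      _ = _ := by group
  have kψ : ∀ y ∈ B, ∀ y' ∈ B, (y ∈ B₀ ↔ y' ∈ B₀) → (⁅y, τ⁆ = 1 ↔ ⁅y', τ⁆ = 1) →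
      y⁻¹ * y' ∈ B ⊓ 𝐂[B] := fun y hy y' hy' e1 e2 => by
    have e : ⁅y, τ⁆ = ⁅y', τ⁆ := by
      by_cases c : ⁅y, τ⁆ = 1
      · rw [c, e2.1 c]
      · exact lA2_two hZ (h.comm_mem (hB hy) (hB hτ)) (h.comm_mem (hB hy') (hB hτ)) c
          fun k => c (e2.2 k)
    refine kC _ ?_ ?_
    · by_cases c : y ∈ B₀
      · exact mul_mem (inv_mem c) (e1.1 c)
      · exact hi _ (inv_mem hy) _ hy' (fun k => c (inv_mem_iff.1 k)) fun k => c (e1.2 k)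
    · simp only [commutatorElement_def] at e
      calc y⁻¹ * y' * τ = y⁻¹ * (y' * τ * y'⁻¹ * τ⁻¹) * τ * y' := by group
        _ = τ * (y⁻¹ * y') := by rw [← e]; group
  have kpow : ∀ y : G, ∀ g ∈ 𝐍[B], y⁻¹ * (g * y * g⁻¹) ∈ B ⊓ 𝐂[B] → ∀ n : ℕ,
      y⁻¹ * (g ^ n * y * (g ^ n)⁻¹) ∈ B ⊓ 𝐂[B] := fun y g hg e n => by
    induction n with
    | zero => simp only [pow_zero, one_mul, inv_one, mul_one, inv_mul_cancel]; exact one_mem _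
    | succ n ih =>
      rw [show y⁻¹ * (g ^ (n + 1) * y * (g ^ (n + 1))⁻¹) =
        y⁻¹ * (g * y * g⁻¹) * (g * (y⁻¹ * (g ^ n * y * (g ^ n)⁻¹)) * g⁻¹) by rw [pow_succ']; group]
      exact mul_mem e (cC g hg _ ih)
  have p5 : 5 ≤ p := h.pp.five_le_of_ne_two_of_ne_three h.p2 p3
  have klt : ∀ y ∈ B, ∀ i j : ℕ, i < j → j < 5 →
      (d.a ^ i * y * (d.a ^ i)⁻¹)⁻¹ * (d.a ^ j * y * (d.a ^ j)⁻¹) ∈ B ⊓ 𝐂[B] →
      y⁻¹ * (d.a * y * d.a⁻¹) ∈ B ⊓ 𝐂[B] := fun y hy i j hij hj e => by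
    obtain ⟨k, rfl⟩ := Nat.exists_eq_add_of_le hij.le
    have e2 := cC _ (inv_mem (pow_mem ha i)) _ e
    rw [show (d.a ^ i)⁻¹ * ((d.a ^ i * y * (d.a ^ i)⁻¹)⁻¹ *
      (d.a ^ (i + k) * y * (d.a ^ (i + k))⁻¹)) * (d.a ^ i)⁻¹⁻¹ =
        y⁻¹ * (d.a ^ k * y * (d.a ^ k)⁻¹) by rw [pow_add]; group] at e2
    have co : k.Coprime (orderOf d.a) := by
      rw [h.ord]
      exact ((Nat.Prime.coprime_iff_not_dvd h.pp).2
        (Nat.not_dvd_of_pos_of_lt (by omega) (by omega))).symm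
    obtain ⟨m, hm⟩ := exists_pow_eq_self_of_coprime co
    have := kpow y _ (pow_mem ha k) e2 m
    rwa [hm] at this
  have ka : ∀ y ∈ B, y⁻¹ * (d.a * y * d.a⁻¹) ∈ B ⊓ 𝐂[B] := fun y hy => by
    obtain ⟨i, j, hij, e⟩ := Fintype.exists_ne_map_eq_of_card_lt
      (fun i : Fin 5 => (decide (d.a ^ (i : ℕ) * y * (d.a ^ (i : ℕ))⁻¹ ∈ B₀),
        decide (⁅d.a ^ (i : ℕ) * y * (d.a ^ (i : ℕ))⁻¹, τ⁆ = 1))) (by simp)
    simp only [Prod.mk.injEq, decide_eq_decide] at e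
    have mi := conj_mem_of_mem_normalizer (pow_mem ha (i : ℕ)) hy
    have mj := conj_mem_of_mem_normalizer (pow_mem ha (j : ℕ)) hy
    rcases lt_or_gt_of_ne hij with c | c
    · exact klt y hy i j c j.2 (kψ _ mi _ mj e.1 e.2)
    · exact klt y hy j i c i.2 (kψ _ mj _ mi e.1.symm e.2.symm)
  refine (h.comm_sup hB ha).ge.trans (sup_le (commutator_le.2 fun y hy g hg => ?_) fun c hc' => ?_)
  · obtain ⟨n, rfl⟩ := mem_powers_iff_mem_zpowers.2 hg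
    have := (kpow y⁻¹ _ ha (ka _ (inv_mem hy)) n).2
    rwa [show y⁻¹⁻¹ * (d.a ^ n * y⁻¹ * (d.a ^ n)⁻¹) = ⁅y, d.a ^ n⁆ by
      simp only [commutatorElement_def]; group] at this
  · exact mem_centralizer_iff.2 fun y hy => h.lA_zc hc'.2 (hB hy)

/-- If all elements of `B` outside the subgroup `B₁` of index 2 have the same square then `B₁` is
commutative.  PROOF.  For `w ∈ B₁`, `(τ w) (τ w) = τ τ` gives `τ⁻¹ w τ = w⁻¹`; so inversion is a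
homomorphism on `B₁`.  (`|Z| = 2`: `τ w ∉ B₁`, both squares are the nonidentity element of `Z`.) -/
theorem comm_of_sq (hZ : Nat.card d.Z = 2) (hB : B ≤ d.R) (h1 : B₁ ≤ B) {τ : G} (hτ : τ ∈ B)
    (hτ1 : τ ∉ B₁) (hs : ∀ x ∈ B, x ∉ B₁ → x * x ≠ 1) :
    B₁ ≤ 𝐂[B₁] ∧ ∀ w ∈ B₁, τ⁻¹ * w * τ = w⁻¹ := by
  have k : ∀ w ∈ B₁, τ⁻¹ * w * τ = w⁻¹ := fun w hw => by
    have m := mul_mem hτ (h1 hw)
    have e := lA2_two hZ (h.sq _ (hB m)) (h.sq _ (hB hτ))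
      (hs _ m fun c => hτ1 ((mul_mem_cancel_right hw).1 c)) (hs τ hτ hτ1)
    calc τ⁻¹ * w * τ = τ⁻¹ * τ⁻¹ * (τ * w * (τ * w)) * w⁻¹ := by group
      _ = w⁻¹ := by rw [e]; group
  refine ⟨fun w hw => mem_centralizer_iff.2 fun v hv => ?_, k⟩
  have e := k _ (mul_mem hv hw)
  rw [show τ⁻¹ * (v * w) * τ = τ⁻¹ * v * τ * (τ⁻¹ * w * τ) by group, k v hv, k w hw,
    ← mul_inv_rev] at e
  exact (inv_injective e).symm

end Lc0

end Cfsg.Agent.Q3
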