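import Mathlib
import Cfsg.Agent.Q3.LocB1

/-!
S3256 (Q3 = port of Q2 without `nc`): `Z` meets `e.R`.
-/

set_option autoImplicit false
set_option linter.unusedSectionVars false
set_option linter.unusedVariables false

namespace Cfsg.Agent.Q3

open Subgroup Cfsg Cfsg.Agent.PLocal.Amb
open scoped commutatorElement

variable {G : Type*} [Group G] [Finite G] {p : ℕ} {𝓕 : Set (Dat G)} {d e : Dat G}

namespace Fam

variable (h : Fam p 𝓕) (hd : d ∈ 𝓕) (he : e ∈ 𝓕) {z c τ ρ : G}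
include h hd he

/-- PROOF.  The second half of `Q2.Fam.exists_mem` (copy): `σ = ρ₃ u₃` (`dec1` in `d`), `z₀ = σ σ ∈ e.Z`,
`ρ₀` from `exists_WW`, `c' = ⁅ρ₀, z₀⁆`. -/
theorem mem_of_pl (ha : Adj d e) {σ : G} (hσ : σ ∈ e.R) (hL : σ ∈ d.L) (hP : Pl d σ)
    (h1 : σ * σ ≠ 1) : ∃ c ∈ d.Z, c ≠ 1 ∧ c ∈ e.R := by
  have L := (h.loc d hd).toLc0
  have E := (h.loc e he).toLc0
  have hz := E.sq σ hσ
  have σZ := h.two_R hd he hσ hL
  obtain ⟨ρ, hρ, u, hu, au, uZ, e2⟩ := L.dec1 hL hP σZ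
  obtain ⟨r, hr, rZ⟩ := h.exists_WW hd he ha
  obtain ⟨rR, hr'⟩ := L.mem_WW.1 hr
  have rC := le_centralizer_iff.1 L.Zc rR
  have a1 : Commute (r * σ * r⁻¹) ⁅r, σ * σ⁆ :=
    (mul_mem (mul_mem rC σZ) (inv_mem rC) _ (hr' _ hz)).symm
  have a2 : ⁅r, σ * σ⁆ * (σ * σ) = r * σ * r⁻¹ * (r * σ * r⁻¹) := by
    simp only [commutatorElement_def]; group
  have a3 : σ⁻¹ * (r * σ * r⁻¹) ∈ 𝐍[e.R] := E.nR (mul_mem (inv_mem (E.RL hσ))
    (E.cent _ hz h1 (mem_centralizer_singleton_iff.2 (inv_mul_cancel_left ⁅r, σ * σ⁆ (σ * σ) ▸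
      a1.inv_right.mul_right (a2 ▸ (Commute.refl _).mul_right (Commute.refl _))))))
  have b1 : r ∈ W d (u * u) := by
    rw [← L.W_mul (mul_mem hρ (conj_mem_of_mem_normalizer (L.nR hu) hρ)),
      show ρ * (u * ρ * u⁻¹) * (u * u) = σ * σ by rw [e2]; group]
    exact L.mem_W.2 ⟨rR, hr' _ hz⟩
  have b2 := L.sq_one rR hu au uZ (mem_centralizer_singleton_iff.1 (L.W_cent (mul_mem hu hu)
    (Commute.mul_right au au) (mul_mem uZ uZ) b1))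
  have hζ := L.comm_mem (inv_mem hρ) rR
  have b3 : σ⁻¹ * (r * σ * r⁻¹) = ⁅ρ⁻¹, r⁆ * (u⁻¹ * (r * u * r⁻¹)) := by
    rw [← mul_assoc ⁅ρ⁻¹, r⁆, inv_mem uZ _ hζ, e2]
    simp only [commutatorElement_def]; group
  have b4 : (σ⁻¹ * (r * σ * r⁻¹))⁻¹ = σ⁻¹ * (r * σ * r⁻¹) := inv_eq_of_mul_eq_one_right (by
    rw [b3, Commute.mul_mul_mul_comm (mul_mem (inv_mem uZ) (mul_mem (mul_mem rC uZ) (inv_mem rC)) _ hζ).symm,
      b2, L.Z2 _ hζ, mul_one])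
  refine ⟨_, hr' _ hz, fun c => rZ (h.cent_of_R hd he rR hz h1 c), ?_⟩
  have := mul_mem (mul_mem hσ (conj_mem_of_mem_normalizer a3 hσ)) (inv_mem (mul_mem hσ hσ))
  rw [b4] at this
  convert this using 1
  simp only [commutatorElement_def]; group

/-- PROOF.  Suppose not.  For `1 ≠ c ∈ Z`: `c = σ v` in `e` (`pl_Z`, `dec1`, `dec2`), `σ σ = v v ≠ 1` (else
`v ∈ e.Z` by `h.dec`, `c ∈ e.R`), `σ` commutes with `c`, so `σ ∈ L ⊓ 𝐂[Z]` (`cent`, `two_R`), and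
`¬ Pl d σ` (`mem_of_pl`).
`|Z| ≠ 2`: take `c ≠ c'` nonidentity, `c' = σ' v'`.  `σ' ∈ 𝐂[Z]` lies in `W e c = W e v ≤ C(v)` (`W_mul`,
`W_cent`), so `c c' = (σ σ') (v v')`; by `dec2`, `h.dec` again `(σ σ') (σ σ') ≠ 1`, and `Pl d (σ σ')`
(`pl_idx`, `pl_Z`), against `mem_of_pl`.
`|Z| = 2 = |e.Z|`: `N = e.R ⊓ C(c) ≤ L`, `N₁ = {x ∈ N | Pl d x}` (subgroup, index 2 by `pl_idx`); its
elements have square 1 (`mem_of_pl`), the others not (`h.pl`).  `comm_of_sq` for `e`: `N₁` is commutative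
and inverted, so centralised, by `σ`; so `N` is commutative.  `N` has index at most 2 in `B = W e c`
(`comm_mul`, `|e.Z| = 2`), `W_norm`; `ab2` gives `σ σ = 1`. -/
theorem exists_mem (ha : Adj d e) : ∃ c ∈ d.Z, c ≠ 1 ∧ c ∈ e.R := by
  by_contra! k
  have L := (h.loc d hd).toLc0
  have E := (h.loc e he).toLc0
  have one : ∀ x ∈ e.R, x ∈ d.L → Pl d x → x * x = 1 := fun x hx hL hP => by
    by_contra c
    obtain ⟨c, h1, h2, h3⟩ := h.mem_of_pl hd he ha hx hL hP c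
    exact k c h1 h2 h3
  have sq : ∀ σ ∈ e.R, ∀ v ∈ e.L, e.a * v = v * e.a → v ∈ 𝐂[e.Z] → σ * v ∈ d.Z → σ * v ≠ 1 →
      σ * σ ≠ 1 ∧ σ ∈ d.L ∧ σ ∈ 𝐂[d.Z] ∧ ¬ Pl d σ := fun σ hσ v hv av vZ hc c1 => by
    obtain ⟨e0, e1, -⟩ := E.dec2 hσ hv av vZ (L.Z2 _ hc)
    have z1 : σ * σ ≠ 1 := fun z => k _ hc c1
      (mul_mem hσ (E.ZR (h.dec e he d hd ha.1.symm σ hσ v hv av hc (e1.trans z))))
    have σL : σ ∈ d.L := L.cent _ hc c1 (mem_centralizer_singleton_iff.2 (by rw [mul_assoc, ← e0]))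
    exact ⟨z1, σL, h.two_R hd he hσ σL, fun hP => z1 (one σ hσ σL hP)⟩
  have dc : ∀ c ∈ d.Z, Pl e c ∧ ∃ σ ∈ e.R, ∃ v ∈ e.L, e.a * v = v * e.a ∧ v ∈ 𝐂[e.Z] ∧ c = σ * v := fun c hc =>
    have a := h.le_L he hd ha.symm hc
    ⟨h.pl_Z he hd hc a, E.dec1 a (h.pl_Z he hd hc a) (ha.symm.2 hc)⟩
  have idx : ∀ x ∈ e.R, ∀ y ∈ e.R, x ∈ d.L → y ∈ d.L → ¬ Pl d x → ¬ Pl d y → Pl d (x * y) :=
    fun x hx y hy xL yL => L.pl_idx xL yL (h.pl_Z hd he (E.sq x hx) (mul_mem xL xL))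
      (h.pl_Z hd he (E.sq y hy) (mul_mem yL yL))
  obtain ⟨c, hc, c1⟩ := h.exZ hd
  obtain ⟨cP, σ, hσ, v, hv, av, vZ, ec⟩ := dc c hc
  obtain ⟨z1, σL, σZ, nP⟩ := sq σ hσ v hv av vZ (ec ▸ hc) (ec ▸ c1)
  by_cases h2 : Nat.card d.Z = 2
  swap
  · obtain ⟨c', hc', c1', ne⟩ : ∃ c' ∈ d.Z, c' ≠ 1 ∧ c' ≠ c := by
      by_contra! k'
      exact h2 ((Nat.card_eq_two_iff' (1 : d.Z)).2 ⟨⟨c, hc⟩, fun e => c1 (congrArg Subtype.val e),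
        fun y hy => Subtype.ext (k' y y.2 fun e => hy (Subtype.ext e))⟩)
    obtain ⟨-, σ', hσ', v', hv', av', vZ', ec'⟩ := dc c' hc'
    obtain ⟨-, σL', σZ', nP'⟩ := sq σ' hσ' v' hv' av' vZ' (ec' ▸ hc') (ec' ▸ c1')
    have w : σ' ∈ W e v := by
      rw [← E.W_mul hσ, ← ec]
      exact E.mem_W.2 ⟨hσ', commutatorElement_eq_one_iff_mul_comm.2 (σZ' c hc).symm ▸ one_mem _⟩
    have cm : σ' * v = v * σ' := mem_centralizer_singleton_iff.1 (E.W_cent hv av vZ w)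
    have e3 : σ * σ' * (v * v') = c * c' := by
      rw [ec, ec', mul_assoc σ, ← mul_assoc σ', cm]; simp only [mul_assoc]
    refine (sq _ (mul_mem hσ hσ') _ (mul_mem hv hv') (Commute.mul_right av av') (mul_mem vZ vZ')
      (e3 ▸ mul_mem hc hc') (e3 ▸ fun z => ne ?_)).2.2.2 (idx σ hσ σ' hσ' σL σL' nP nP')
    exact mul_left_cancel (z.trans (L.Z2 c hc).symm)
  have h2' : Nat.card e.Z = 2 := (h.card e he d hd).trans h2
  let N : Subgroup G := e.R ⊓ centralizer ({c} : Set G)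
  have NL : N ≤ d.L := inf_le_right.trans (L.cent c hc c1)
  let N₁ : Subgroup G :=
    { carrier := {x | x ∈ N ∧ Pl d x}
      one_mem' := ⟨one_mem _, pl_of_mem (one_mem _)⟩
      mul_mem' := fun a b => ⟨mul_mem a.1 b.1, L.pl_mul (NL a.1) a.2 b.2⟩
      inv_mem' := fun a => ⟨inv_mem a.1, L.pl_inv (NL a.1) a.2⟩ }
  have σN : σ ∈ N := ⟨hσ, mem_centralizer_singleton_iff.2 (σZ c hc).symm⟩
  obtain ⟨m1, m2⟩ := E.comm_of_sq (B := N) (B₁ := N₁) h2' inf_le_left (fun x a => a.1) σN (fun a => nP a.2)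
    fun x hx n z => n ⟨hx, h.pl d hd e he x hx.1 (NL hx) z⟩
  have m3 : ∀ w ∈ N₁, Commute σ⁻¹ w := fun w hw => by
    have a := m2 w hw
    rw [inv_eq_of_mul_eq_one_right (one w hw.1.1 (NL hw.1) hw.2)] at a
    exact (mul_inv_eq_iff_eq_mul.2 a.symm).symm
  have m4 : ∀ x ∈ N, x ∈ N₁ ∨ ∃ w ∈ N₁, x = σ⁻¹ * w := fun x hx => by
    by_cases a : Pl d x
    · exact .inl ⟨hx, a⟩
    · exact .inr ⟨σ * x, ⟨mul_mem σN hx, idx σ hσ x hx.1 σL (NL hx) nP a⟩, (inv_mul_cancel_left _ _).symm⟩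
  have m5 : ∀ x ∈ N₁, ∀ y ∈ N₁, Commute x y := fun x hx y hy => m1 hy x hx
  have m6 : N ≤ 𝐂[N] := fun y hy x hx => by
    obtain a | ⟨w, a, rfl⟩ := m4 x hx <;> obtain b | ⟨w', b, rfl⟩ := m4 y hy
    · exact m5 _ a _ b
    · exact (m3 _ a).symm.mul_right (m5 _ a _ b)
    · exact (m3 _ b).mul_left (m5 _ a _ b)
    · exact ((Commute.refl _).mul_right (m3 _ b)).mul_left ((m3 _ a).symm.mul_right (m5 _ a _ b))
  have NB : N ≤ W e c := fun x hx => E.mem_W.2 ⟨hx.1,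
    commutatorElement_eq_one_iff_mul_comm.2 (mem_centralizer_singleton_iff.1 hx.2) ▸ one_mem _⟩
  obtain ⟨t, -, ht⟩ := (Nat.card_eq_two_iff' (1 : e.Z)).1 h2'
  have q : ∀ x ∈ W e c, x ∉ N → ⁅x, c⁆ = (t : G) := fun x hx n =>
    congrArg Subtype.val (ht ⟨_, (E.mem_W.1 hx).2⟩ fun z => n ⟨E.W_le _ hx, mem_centralizer_singleton_iff.2
      (commutatorElement_eq_one_iff_mul_comm.1 (congrArg Subtype.val z))⟩)
  exact z1 (E.ab2 h.p3 h2' (E.W_le c) (E.W_norm cP) NB m6 (fun x hx y hy n n' =>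
    ⟨mul_mem (E.W_le _ hx) (E.W_le _ hy), mem_centralizer_singleton_iff.2
      (commutatorElement_eq_one_iff_mul_comm.1 (by rw [E.comm_mul hx hy, q x hx n, q y hy n', E.Z2 _ t.2]))⟩) (NB σN))

end Fam

end Cfsg.Agent.Q3
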