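import Mathlib
import Cfsg.Agent.Q3.LocA

/-!
S3256 (port of Q2 without nc, p ≥ 5), local theorem B: adjacent data.  For `d` write `a, R, Z, L`; lemmas of `LocA` are used through
`(h.loc d hd).toLc0`.  Elements of `R` are 2-elements (`isPGroup_iff`).
-/

set_option autoImplicit false
set_option linter.unusedSectionVars false
set_option linter.unusedVariables false

namespace Cfsg.Agent.Q3

open Subgroup Cfsg Cfsg.Agent.PLocal.Amb
open scoped commutatorElement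

variable {G : Type*} [Group G] [Finite G] {p : ℕ} {𝓕 : Set (Dat G)} {d e : Dat G}

namespace Fam

variable (h : Fam p 𝓕) (hd : d ∈ 𝓕) {z c τ ρ : G}
include h hd

theorem exZ : ∃ c ∈ d.Z, c ≠ 1 := by
  by_contra! k
  exact (h.loc d hd).ne ((eq_bot_iff_forall _).2 k)

theorem le_L_of {X : Subgroup G} (hX : X ≤ 𝐂[d.Z]) : X ≤ d.L := fun x hx =>
  let ⟨c, hc, h1⟩ := h.exZ hd
  (h.loc d hd).cent c hc h1 (mem_centralizer_singleton_iff.2 (hX hx c hc).symm)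

variable (he : e ∈ 𝓕)
include he

/-- an involution of `e.R` in `L` centralises `Z` -/
theorem cent_inv (hτ : τ ∈ e.R) (hL : τ ∈ d.L) (h2 : τ * τ = 1) : τ ∈ 𝐂[d.Z] :=
  (h.loc d hd).two τ hL (h.pl d hd e he τ hτ hL h2) ⟨1, (sq τ).trans h2⟩

theorem pl_Z (hz : z ∈ e.Z) (hL : z ∈ d.L) : Pl d z :=
  h.pl d hd e he z ((h.loc e he).ZR hz) hL ((h.loc e he).Z2 z hz)

theorem adj_of (hne : d.Z ≠ e.Z) (hz : z ∈ e.Z) (h1 : z ≠ 1) (hL : z ∈ d.L) : Adj d e :=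
  ⟨hne, le_centralizer_iff.1 fun c hc => h.cent_inv he hd ((h.loc d hd).ZR hc)
    ((h.loc e he).cent z hz h1 (mem_centralizer_singleton_iff.2
      (h.cent_inv hd he ((h.loc e he).ZR hz) hL ((h.loc e he).Z2 z hz) c hc))) ((h.loc d hd).Z2 c hc)⟩

/-- `h.ti` -/
theorem disj (ha : Adj d e) (hc : c ∈ d.Z) (hc' : c ∈ e.Z) : c = 1 :=
  by_contra fun k => ha.1 (h.ti d hd e he c hc hc' k).2.1

/-- PROOF.  Take `1 ≠ c ∈ Z`; `e.Z ≤ C(c) ≤ L`. -/
theorem le_L (ha : Adj d e) : e.Z ≤ d.L := h.le_L_of hd ha.2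

/-- PROOF.  `WW` is the intersection of `R` and the `W d z`, `W_norm`, `le_L`. -/
theorem WW_norm (ha : Adj d e) : d.a ∈ 𝐍[WW d e] := by
  have L := (h.loc d hd).toLc0
  refine mem_normalizer_of_cj_le (cj_le_iff_forall.2 fun x hx => ?_)
  simp only [WW, mem_inf, mem_iInf] at hx ⊢
  exact ⟨conj_mem_of_mem_normalizer (L.nR L.aL) hx.1, fun z hz =>
    conj_mem_of_mem_normalizer (L.W_norm (h.pl_Z hd he hz (h.le_L hd he ha hz))) (hx.2 z hz)⟩

theorem mem_R (ha : Adj d e) (hz : z ∈ e.Z) {B : Subgroup G} (h1 : B ≤ W d z) (h2 : d.a ∈ 𝐍[B])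
    (h3 : ∀ x ∈ B, ⁅x, z⁆ = 1) (h4 : ∀ x ∈ W d z, ⁅x, z⁆ = 1 → x ∈ B) : z ∈ d.R := by
  have L := (h.loc d hd).toLc0
  obtain ⟨ρ, hρ, u, hu, au, uZ, rfl⟩ := L.dec1 (h.le_L hd he ha hz) (h.pl_Z hd he hz (h.le_L hd he ha hz)) (ha.2 hz)
  obtain ⟨-, e1, e2, e3⟩ := L.dec2 hρ hu au uZ ((h.loc e he).Z2 _ hz)
  have := L.ab (B := B ⊓ 𝐂[B]) (inf_le_left.trans (h1.trans (L.W_le _)))
    (zpowers_le.1 (le_normalizer_inf (zpowers_le.2 h2) (le_normalizer_centralizer (zpowers_le.2 h2))))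
    (inf_le_right.trans (centralizer_anti inf_le_left))
    ⟨h4 ρ e2 ((e3 ρ e2).trans (commutatorElement_self ρ)), fun x hx =>
      commutatorElement_eq_one_iff_mul_comm.1 ((e3 x (h1 hx)).symm.trans (h3 x hx))⟩
  exact mul_mem hρ (L.ZR (h.dec d hd e he ha.1 ρ hρ u hu au hz (e1.trans this)))

end Fam

end Cfsg.Agent.Q3
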