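import Mathlib
import Cfsg.Agent.Q3.LocB

/-!
S3256 (port of Q2 without nc, p ≥ 5), local theorem C: the dichotomy.
-/

set_option autoImplicit false
set_option linter.unusedSectionVars false
set_option linter.unusedVariables false

namespace Cfsg.Agent.Q3

open Subgroup Cfsg Cfsg.Agent.PLocal.Amb
open scoped commutatorElement

variable {G : Type*} [Group G] [Finite G] {p : ℕ} {𝓕 : Set (Dat G)} {d e : Dat G}

/-- PROOF.  Write `T = R ⊓ 𝐂[e.Z] ≤ WW = WW d e`.  Call `(ρ, z)` a pair if `ρ ∈ R`, `z ∈ e.Z` and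
`u = ρ⁻¹ z` commutes with `a` (then `u ∈ L ⊓ 𝐂[Z]`, `le_L`); every `z ∈ e.Z` has a pair (`dec1`).  By
`dec2`, for a pair: `ρ` commutes with `z`, `u u = ρ ρ`, `⁅x, z⁆ = ⁅x, ρ⁆` for `x ∈ W d z ≥ WW`.
(a) `ρ ∈ T` (`z ≠ 1`: `cent_of_R`; `z = 1`: `ρ ∈ Z` by `fix`); `T` centralises `ρ`; if `z ≠ 1`, an
`x ∈ WW` commuting with `ρ` lies in `T`; if `ρ ρ = 1` then `u ∈ Z` (`h.dec`), so `z ∈ R`; if `ρ ∈ Z`
then `z ∈ Z`, `z = 1`.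
(b) `Λ = {ρ | ∃ z, pair}` is a subgroup: for pairs `(ρ, z)`, `(ρ', z')`, `ρ' ∈ T ≤ W d z = W d u`
commutes with `u` (`W_cent`), so `(ρ ρ')⁻¹ z z' = u u'`; `(ρ⁻¹, z)` is a pair as `ρ z = (ρ ρ) u`.
`Λ i = cj(a ^ i, Λ) ≤ WW` (`WW_norm`).
Case 1: `Λ i ≤ T` for all `i`.  Then `Λ i` centralises `Λ`, so `Λ i` centralises `Λ j` (conjugate by
`a ^ j`, use `a ^ p = 1`: `i = j + (i + (p - 1) j)` modulo `p`), `B = ⨆ i, Λ i` is commutative and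
`a`-invariant, `ab` gives `ρ ρ = 1` on `Λ`, so `e.Z ≤ R`, `e.Z ≤ Λ` (pairs `(z, z)`): `Alpha`.
Case 2: `ρ₁ ∈ Λ i`, `ρ₁ ∉ T`, `b = a ^ i`.  For a pair `(ρ, z')` with `z' ≠ 1`, `b ρ b⁻¹ ∉ T`: else `Λ`
centralises `b ρ b⁻¹`, so `Λ ≤ cj(b, T)` (by (a), conjugated: `b⁻¹ λ b ∈ WW` commutes with `ρ`), so
`Λ` centralises `ρ₁`, in particular `ρ` does and `ρ₁ ∈ T` by (a).  Fix `1 ≠ z ∈ e.Z`, choose pairs
`(r z', z')` with `r z' = z'` when `z' ∈ R`.  The map `e.Z → Z`, `z' ↦ ⁅b (r z') b⁻¹, z⁆` is injective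
(`comm_mul`; `((r z'')⁻¹ (r z'), z''⁻¹ z')` is a pair; `cent_of_R`), so surjective (`h.card`,
`Finite.injective_iff_surjective_of_equiv` / `Nat.bijective_iff_injective_and_card`): `Beta`. -/
theorem Fam.dich (h : Fam p 𝓕) (hd : d ∈ 𝓕) (he : e ∈ 𝓕) (ha : Adj d e) :
    Alpha d e ∨ Beta d e := by
  classical
  have l := (h.loc d hd).toLc0
  have l' := (h.loc e he).toLc0
  let Pr : G → G → Prop := fun ρ z => ρ ∈ d.R ∧ z ∈ e.Z ∧ Commute d.a (ρ⁻¹ * z)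
  have RC : d.R ≤ 𝐂[d.Z] := le_centralizer_iff.1 l.Zc
  have p0 : ∀ {ρ z}, Pr ρ z → ρ⁻¹ * z ∈ d.L ∧ Commute ρ z ∧ ρ⁻¹ * z * (ρ⁻¹ * z) = ρ * ρ ∧
      ∀ x ∈ W d z, ⁅x, z⁆ = ⁅x, ρ⁆ := fun {ρ z} ⟨a, b, c⟩ => by
    have m : ρ⁻¹ * z ∈ d.L := mul_mem (inv_mem (l.RL a)) (h.le_L hd he ha b)
    obtain ⟨c1, c2, -, c3⟩ := l.dec2 a m c (mul_mem (inv_mem (RC a)) (ha.2 b))
      (by rw [mul_inv_cancel_left]; exact l'.Z2 z b)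
    rw [mul_inv_cancel_left] at c1 c3
    refine ⟨m, ?_, c2, c3⟩
    change ρ * z = z * ρ
    conv_lhs => rw [c1]
    group
  have ex : ∀ z ∈ e.Z, ∃ ρ, Pr ρ z := fun z hz => by
    obtain ⟨ρ, a, u, -, b, -, rfl⟩ := l.dec1 (h.le_L hd he ha hz) (h.pl_Z hd he hz (h.le_L hd he ha hz)) (ha.2 hz)
    exact ⟨ρ, a, hz, by rwa [inv_mul_cancel_left]⟩
  have a1 : ∀ {ρ z}, Pr ρ z → ρ ∈ 𝐂[e.Z] := fun {ρ z} q => by
    by_cases h1 : z = 1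
    · subst h1
      have := q.2.2
      rw [mul_one] at this
      exact ha.symm.2 (inv_mem_iff.1 (l.fix _ (inv_mem q.1) this))
    · exact h.cent_of_R hd he q.1 q.2.1 h1 (commutatorElement_eq_one_iff_commute.2 (p0 q).2.1)
  have tw : ∀ {x}, x ∈ d.R → x ∈ 𝐂[e.Z] → x ∈ WW d e := fun {x} a b => l.mem_WW.2 ⟨a, fun z hz => by
    rw [commutatorElement_eq_one_iff_commute.2 (show Commute x z from (b z hz).symm)]
    exact one_mem _⟩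
  have ww : ∀ {x z}, x ∈ WW d e → z ∈ e.Z → x ∈ W d z := fun a b =>
    l.mem_W.2 ⟨(l.mem_WW.1 a).1, (l.mem_WW.1 a).2 _ b⟩
  have a2 : ∀ {ρ z x}, Pr ρ z → x ∈ d.R → x ∈ 𝐂[e.Z] → Commute x ρ := fun {ρ z x} q a b => by
    rw [← commutatorElement_eq_one_iff_commute, ← (p0 q).2.2.2 x (ww (tw a b) q.2.1)]
    exact commutatorElement_eq_one_iff_commute.2 (b z q.2.1).symm
  have a3 : ∀ {ρ z x}, Pr ρ z → z ≠ 1 → x ∈ WW d e → Commute x ρ → x ∈ 𝐂[e.Z] := fun {ρ z x} q h1 a b =>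
    h.cent_of_R hd he (l.mem_WW.1 a).1 q.2.1 h1 (by
      rw [(p0 q).2.2.2 x (ww a q.2.1)]
      exact commutatorElement_eq_one_iff_commute.2 b)
  have a4 : ∀ {ρ z}, Pr ρ z → ρ * ρ = 1 → z ∈ d.R := fun {ρ z} q a => by
    have := h.dec d hd e he ha.1 ρ q.1 _ (p0 q).1 q.2.2 (by rw [mul_inv_cancel_left]; exact q.2.1)
      ((p0 q).2.2.1.trans a)
    simpa using mul_mem q.1 (l.ZR this)
  have b1 : ∀ {ρ z ρ' z'}, Pr ρ z → Pr ρ' z' → Pr (ρ * ρ') (z * z') := fun {ρ z ρ' z'} q q' => by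
    refine ⟨mul_mem q.1 q'.1, mul_mem q.2.1 q'.2.1, ?_⟩
    have c : Commute ρ'⁻¹ (ρ⁻¹ * z) :=
      ((a2 q q'.1 (a1 q')).inv_right.mul_right (show Commute ρ' z from (a1 q' z q.2.1).symm)).inv_left
    rw [show (ρ * ρ')⁻¹ * (z * z') = ρ'⁻¹ * (ρ⁻¹ * z) * z' by group, c.eq, mul_assoc]
    exact q.2.2.mul_right q'.2.2
  have b2 : ∀ {ρ z}, Pr ρ z → Pr ρ⁻¹ z := fun {ρ z} q => by
    refine ⟨inv_mem q.1, q.2.1, ?_⟩
    rw [show ρ⁻¹⁻¹ * z = ρ * ρ * (ρ⁻¹ * z) by group]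
    exact Commute.mul_right (l.Za _ (l.sq ρ q.1)) q.2.2
  have pz : ∀ z ∈ e.Z, z ∈ d.R → Pr z z := fun z a b => ⟨b, a, by rw [inv_mul_cancel]; exact Commute.one_right _⟩
  have nW : ∀ i : ℕ, d.a ^ i ∈ 𝐍[WW d e] := fun i => pow_mem (h.WW_norm hd he ha) i
  by_cases hc : ∀ (i : ℕ) ρ z, Pr ρ z → d.a ^ i * ρ * (d.a ^ i)⁻¹ ∈ 𝐂[e.Z]
  · left
    let T : Subgroup G := ⨅ i : ℕ, (d.R ⊓ 𝐂[e.Z]).comap (MulAut.conj (d.a ^ i)).toMonoidHom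
    have mT : ∀ {x}, x ∈ T ↔ ∀ i : ℕ, d.a ^ i * x * (d.a ^ i)⁻¹ ∈ d.R ⊓ 𝐂[e.Z] := mem_iInf
    have T0 : T ≤ d.R ⊓ 𝐂[e.Z] := fun x hx => by simpa using mT.1 hx 0
    have nT : d.a ∈ 𝐍[T] := mem_normalizer_of_cj_le (cj_le_iff_forall.2 fun x hx => mT.2 fun i => by
      rw [show d.a ^ i * (d.a * x * d.a⁻¹) * (d.a ^ i)⁻¹ = d.a ^ (i + 1) * x * (d.a ^ (i + 1))⁻¹ by group]
      exact mT.1 hx _)
    have nB : d.a ∈ 𝐍[T ⊓ 𝐂[T]] := mem_normalizer_of_cj_le (cj_le_iff_forall.2 fun x hx =>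
      ⟨conj_mem_of_mem_normalizer nT hx.1, fun y hy => by
        have := hx.2 _ (conj_mem_of_mem_normalizer (inv_mem nT) hy)
        calc y * (d.a * x * d.a⁻¹) = d.a * (d.a⁻¹ * y * d.a⁻¹⁻¹ * x) * d.a⁻¹ := by group
          _ = _ := by rw [this]; group⟩)
    have le : e.Z ≤ d.R := fun z hz => by
      obtain ⟨ρ, q⟩ := ex z hz
      refine a4 q (l.ab (inf_le_left.trans (T0.trans inf_le_left)) nB (fun x hx y hy => hx.2 y hy.1) ⟨?_, ?_⟩)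
      · exact mT.2 fun i => ⟨conj_mem_of_mem_normalizer (pow_mem (l.nR l.aL) i) q.1, hc i ρ z q⟩
      · exact fun y hy => a2 q (T0 hy).1 (T0 hy).2
    exact ⟨le, fun i => cj_le_iff_forall.2 fun z hz => hc i z z (pz z hz (le hz))⟩
  right
  push Not at hc
  obtain ⟨i, ρ₀, z₀, q₀, n₀⟩ := hc
  have nb := nW i
  have nR : d.a ^ i ∈ 𝐍[d.R] := pow_mem (l.nR l.aL) i
  have key : ∀ z ∈ e.Z, z ≠ 1 → ∀ c ∈ d.Z, ∃ ρ z', Pr ρ z' ∧ (z' ∈ d.R → ρ = z') ∧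
      ⁅d.a ^ i * ρ * (d.a ^ i)⁻¹, z⁆ = c := by
    generalize d.a ^ i = b at n₀ nb nR
    have cw : ∀ {ρ z}, Pr ρ z → b * ρ * b⁻¹ ∈ WW d e := fun q => conj_mem_of_mem_normalizer nb (tw q.1 (a1 q))
    have k : ∀ {ρ z}, Pr ρ z → b * ρ * b⁻¹ ∈ 𝐂[e.Z] → z = 1 := fun {ρ z} q a => by
      by_contra h1
      have c1 : Commute (b * ρ * b⁻¹) ρ := a2 q (conj_mem_of_mem_normalizer nR q.1) a
      have m : b⁻¹ * ρ * b⁻¹⁻¹ ∈ WW d e := conj_mem_of_mem_normalizer (inv_mem nb) (tw q.1 (a1 q))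
      have c2 := a2 q₀ (l.mem_WW.1 m).1 (a3 q h1 m (by
        change b⁻¹ * ρ * b⁻¹⁻¹ * ρ = ρ * (b⁻¹ * ρ * b⁻¹⁻¹)
        calc _ = b⁻¹ * (ρ * (b * ρ * b⁻¹)) * b := by group
          _ = _ := by rw [← c1.eq]; group))
      refine n₀ (a3 q h1 (cw q₀) ?_)
      change b * ρ₀ * b⁻¹ * ρ = ρ * (b * ρ₀ * b⁻¹)
      calc _ = b * (ρ₀ * (b⁻¹ * ρ * b⁻¹⁻¹)) * b⁻¹ := by group
        _ = _ := by rw [← c2.eq]; group
    have ex' : ∀ z : e.Z, ∃ ρ, Pr ρ z ∧ ((z : G) ∈ d.R → ρ = z) := fun z => by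
      by_cases a : (z : G) ∈ d.R
      · exact ⟨z, pz z z.2 a, fun _ => rfl⟩
      · exact let ⟨ρ, q⟩ := ex z z.2; ⟨ρ, q, fun c => absurd c a⟩
    choose r hr hr' using ex'
    intro z hz h1 c hc
    let f : e.Z → d.Z := fun y => ⟨⁅b * r y * b⁻¹, z⁆, (l.mem_WW.1 (cw (hr y))).2 z hz⟩
    have fi : Function.Injective f := fun y y' c => by
      have q := b1 (b2 (hr y)) (hr y')
      have c1 := l.comm_mul (ww (cw (hr y)) hz) (ww (cw q) hz)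
      rw [show b * r y * b⁻¹ * (b * ((r y)⁻¹ * r y') * b⁻¹) = b * r y' * b⁻¹ by group,
        ← show ⁅b * r y * b⁻¹, z⁆ = ⁅b * r y' * b⁻¹, z⁆ from congrArg Subtype.val c, left_eq_mul] at c1
      have c2 := k q (h.cent_of_R hd he (l.mem_WW.1 (cw q)).1 hz h1 c1)
      exact Subtype.ext (mul_left_cancel ((l'.Z2 y y.2).trans c2.symm))
    obtain ⟨y, hy⟩ := ((Nat.bijective_iff_injective_and_card f).2 ⟨fi, h.card e he d hd⟩).2 ⟨c, hc⟩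
    exact ⟨r y, y, hr y, hr' y, congrArg Subtype.val hy⟩
  refine ⟨fun z hz h1 c hc => ?_, fun le => ⟨i, fun z hz h1 c hc => ?_⟩⟩
  · obtain ⟨ρ, z', q, -, a⟩ := key z hz h1 c hc
    exact ⟨_, conj_mem_of_mem_normalizer nb (tw q.1 (a1 q)), a⟩
  · obtain ⟨ρ, z', q, b, a⟩ := key z hz h1 c hc
    obtain rfl := b (le q.2.1)
    exact ⟨_, conj_mem_cj _ q.2.1, a⟩

end Cfsg.Agent.Q3
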