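import Mathlib
import Cfsg.Agent.Q3.LocB

/-!
S3256 (port of Q2 without nc, p ≥ 5), local theorem D: case β is impossible.  `E = Z ⊔ e.Z` is elementary abelian, its elements are the
`c z`, `c ∈ Z`, `z ∈ e.Z`.
-/

set_option autoImplicit false
set_option linter.unusedSectionVars false
set_option linter.unusedVariables false

namespace Cfsg.Agent.Q3

open Subgroup Cfsg Cfsg.Agent.PLocal.Amb
open scoped commutatorElement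

variable {G : Type*} [Group G] [Finite G] {p : ℕ} {𝓕 : Set (Dat G)} {d e : Dat G}

namespace Fam

variable (h : Fam p 𝓕) (hd : d ∈ 𝓕) (he : e ∈ 𝓕) (ha : Adj d e)
include h hd he ha

omit he ha in
theorem locd_ex : ∃ c ∈ d.Z, c ≠ 1 := d.Z.bot_or_exists_ne_one.resolve_left (h.loc d hd).ne

omit he ha in
theorem locd_norm {ρ : G} (hρ : ρ ∈ WW d e) : ρ ∈ 𝐍[d.Z ⊔ e.Z] := by
  have l := (h.loc d hd).toLc0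
  rw [l.mem_WW] at hρ
  refine mem_normalizer_of_cj_le ?_
  rw [cj_sup, cj_of_mem_normalizer (l.nZ (l.RL hρ.1))]
  refine sup_le le_sup_left (cj_le_iff_forall.2 fun z hz => ?_)
  rw [show ρ * z * ρ⁻¹ = ⁅ρ, z⁆ * z by rw [commutatorElement_def]; group]
  exact mul_mem (mem_sup_left (hρ.2 z hz)) (mem_sup_right hz)

omit he ha in
theorem locd_cm {ρ c z : G} (hρ : ρ ∈ WW d e) (hc : c ∈ d.Z) (hz : z ∈ e.Z) : ⁅ρ, c * z⁆ = ⁅ρ, z⁆ := by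
  have l := (h.loc d hd).toLc0
  rw [l.mem_WW] at hρ
  rw [show ⁅ρ, c * z⁆ = ρ * c * ρ⁻¹ * ⁅ρ, z⁆ * c⁻¹ by simp only [commutatorElement_def]; group,
    l.Zc hc ρ hρ.1, mul_inv_cancel_right, ← l.Zc hc _ (l.ZR (hρ.2 z hz)), mul_inv_cancel_right]

omit h hd he in
theorem locd_dec {y : G} (hy : y ∈ d.Z ⊔ e.Z) : ∃ c ∈ d.Z, ∃ z ∈ e.Z, c * z = y := by
  obtain ⟨a, ha', b, hb, k⟩ :=
    (mem_sup_of_le_normalizer_left (ha.2.trans (centralizer_le_normalizer' _))).1 hy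
  exact ⟨a, ha', b, hb, k.symm⟩

theorem locd_ti {σ ρ c z : G} (hc : c ∈ d.Z) (hz : z ∈ e.Z) (c1 : c ≠ 1) (e1 : ⁅σ, c⁆ = z)
    (e2 : ⁅ρ, z⁆ = c) : cj(σ, d.R) = cj(ρ, e.R) ∧ cj(σ, d.Z) = cj(ρ, e.Z) := by
  have k : σ * c * σ⁻¹ = ρ * z * ρ⁻¹ := by
    rw [commutatorElement_def, mul_inv_eq_iff_eq_mul] at e1 e2
    rw [e1, e2, ha.2 hz c hc]
  have := h.ti _ (h.inv d hd σ) _ (h.inv e he ρ) _ (conj_mem_cj σ hc) (k ▸ conj_mem_cj ρ hz)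
    (by simpa using c1)
  exact ⟨this.1, this.2.1⟩

/-- PROOF.  `σ ∈ WW e d`, `σ ∉ 𝐂[Z]` (`exists_WW`), `1 ≠ c ∈ Z`, `z' = ⁅σ, c⁆ ≠ 1` (`cent_of_R`),
`σ c σ⁻¹ = z' c`.  `Full` gives `ρ ∈ WW d e` with `⁅ρ, z'⁆ = c`, `ρ z' ρ⁻¹ = c z'`.  `g = ρ⁻¹ σ` sends
`c` to `z'`; `h.ti` for `d.conj g` and `e`.  Elements of `WW d e`, `WW e d` normalise `E`. -/
theorem exists_swap (hf : Full d e) :
    ∃ g ∈ 𝐍[d.Z ⊔ e.Z], cj(g, d.R) = e.R ∧ cj(g, d.Z) = e.Z := by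
  obtain ⟨σ, hσ, n⟩ := h.exists_WW he hd ha.symm
  obtain ⟨c, hc, c1⟩ := h.locd_ex hd
  have m := (h.loc e he).toLc0.mem_WW.1 hσ
  obtain ⟨ρ, hρ, k⟩ := hf _ (m.2 c hc) (fun q => n (h.cent_of_R he hd m.1 hc c1 q)) c hc
  obtain ⟨k1, k2⟩ := h.locd_ti hd he ha hc (m.2 c hc) c1 rfl k
  refine ⟨ρ⁻¹ * σ, mul_mem (inv_mem (h.locd_norm hd hρ)) (sup_comm e.Z d.Z ▸ h.locd_norm he hσ), ?_, ?_⟩
  · rw [cj_mul, k1, cj_inv_cj]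
  · rw [cj_mul, k2, cj_inv_cj]

/-- PROOF.  `g` from `exists_swap`.  Given `1 ≠ c₁ ∈ Z`, `z₁ ∈ e.Z`: `g⁻¹ c₁ g ∈ E` is not in `Z` (else
`c₁ ∈ e.Z`), so is `ζ z₂` with `z₂ ≠ 1`; `c₂ = g⁻¹ z₁ g ∈ Z`.  Take `ρ' ∈ WW d e` with
`⁅ρ', z₂⁆ = c₂ = ⁅ρ', ζ z₂⁆` and `ρ = g ρ' g⁻¹ ∈ e.R`; `⁅ρ', y⁆ ∈ Z` for all `y ∈ E`. -/
theorem full_symm (hf : Full d e) : Full e d := by
  intro c₁ hc c1 z₁ hz
  obtain ⟨g, hg, kR, kZ⟩ := h.exists_swap hd he ha hf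
  obtain ⟨ζ, hζ, z₂, h2, k⟩ := locd_dec ha (inv_conj_mem_of_mem_normalizer hg (mem_sup_left hc))
  obtain ⟨ρ, hρ, q⟩ := hf z₂ h2 (fun q => c1 (h.disj hd he ha hc (kZ ▸ mem_cj.2 (by
    rwa [← k, q, mul_one])))) _ (mem_cj.1 (kZ.ge hz))
  have m := (h.loc d hd).toLc0.mem_WW.1 hρ
  have t : ∀ c, ⁅g * ρ * g⁻¹, c⁆ = g * ⁅ρ, g⁻¹ * c * g⁆ * g⁻¹ := fun c => by
    simp only [commutatorElement_def]; group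
  refine ⟨g * ρ * g⁻¹, (h.loc e he).toLc0.mem_WW.2 ⟨kR ▸ conj_mem_cj g m.1, fun c hc => ?_⟩, ?_⟩
  · obtain ⟨ζ, hζ, z, hz, k⟩ := locd_dec ha (inv_conj_mem_of_mem_normalizer hg (mem_sup_left hc))
    rw [t, ← k, h.locd_cm hd hρ hζ hz, ← kZ]
    exact conj_mem_cj g (m.2 z hz)
  · rw [t, ← k, h.locd_cm hd hρ hζ h2, q]
    group

/-- PROOF.  Let `1 ≠ c ∈ Z`.  `σ ∈ WW e d` with `⁅σ, c⁆ = z₀`, `ρ ∈ WW d e` with `⁅ρ, z₀⁆ = c`.  Then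
`z₀ c = σ c σ⁻¹ = ρ z₀ ρ⁻¹` lies in `(d.conj σ).Z` and `(e.conj ρ).Z`, so `cj(σ, R) = cj(ρ, e.R)`
(`h.ti`).  `z₀ c ∈ R`, so `c = σ (z₀ c) σ⁻¹ ∈ cj(ρ, e.R)`, and `ρ` centralises `c`. -/
theorem le_of_mem (hf : Full d e) {z₀ : G} (h0 : z₀ ∈ e.Z) (h1 : z₀ ≠ 1) (h2 : z₀ ∈ d.R) :
    d.Z ≤ e.R := by
  intro c hc
  by_cases c1 : c = 1
  · exact c1 ▸ one_mem _
  have l := (h.loc d hd).toLc0
  have l' := (h.loc e he).toLc0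
  obtain ⟨σ, hσ, k1⟩ := h.full_symm hd he ha hf c hc c1 z₀ h0
  obtain ⟨ρ, hρ, k2⟩ := hf z₀ h0 h1 c hc
  have m := conj_mem_cj σ (mul_mem h2 (l.ZR hc))
  rw [(h.locd_ti hd he ha hc h0 c1 k1 k2).1, show σ * (z₀ * c) * σ⁻¹ = σ * z₀ * σ⁻¹ * ⁅σ, c⁆ * c by
    rw [commutatorElement_def]; group, l'.Zc h0 σ (l'.mem_WW.1 hσ).1, mul_inv_cancel_right, k1, l'.Z2 _ h0,
    one_mul, mem_cj, mul_assoc, ← l.Zc hc ρ (l.mem_WW.1 hρ).1, inv_mul_cancel_left] at m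
  exact m

/-- PROOF.  `exists_mem` for `(e, d)`, `le_of_mem` for `(d, e)`, then for `(e, d)`. -/
theorem le_R (hf : Full d e) : d.Z ≤ e.R ∧ e.Z ≤ d.R := by
  obtain ⟨z, hz, z1, m⟩ := h.exists_mem he hd ha.symm
  have k := h.le_of_mem hd he ha hf hz z1 m
  obtain ⟨c, hc, c1⟩ := h.locd_ex hd
  exact ⟨k, h.le_of_mem he hd ha.symm (h.full_symm hd he ha hf) hc c1 (k hc)⟩

/-- PROOF.  Let `τ ∈ e.R ⊓ 𝐂[Z]` (so `τ ∈ L`), `τ ∉ R`.  Claim `W d τ ≤ 𝐂[e.Z]`.  Let `ρ₀ ∈ W d τ`,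
`ρ₀ ∉ 𝐂[e.Z]`, `f = ρ₀ τ ρ₀⁻¹ = ⁅ρ₀, τ⁆ τ ∈ e.R` (`le_R`).  `1 ≠ z ∈ e.Z`, `c = ⁅ρ₀, z⁆ ∈ Z`
(`comm_mem`), `c ≠ 1`; `σ ∈ WW e d` with `⁅σ, c⁆ = z`; `c z` lies in `(e.conj ρ₀).Z` and
`(d.conj σ).Z`, so `f ∈ cj(ρ₀, e.R) = cj(σ, R)`, `σ⁻¹ f σ = ⁅σ⁻¹, f⁆ f ∈ R` with `⁅σ⁻¹, f⁆ ∈ e.Z ≤ R`;
so `f ∈ R`, `τ ∈ R`.  Now `e.Z ≤ W d τ` (`τ ∈ e.R` centralises `e.Z ≤ R`), so
`cj(a ^ i, e.Z) ≤ W d τ ≤ 𝐂[e.Z]` (`W_norm`), against `Beta` (take `z ≠ 1`, `c ≠ 1`). -/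
theorem inf_le (hb : Beta d e) {τ : G} (t1 : τ ∈ e.R) (t2 : τ ∈ 𝐂[d.Z]) (tP : Pl d τ) :
    τ ∈ d.R := by
  have l := (h.loc d hd).toLc0
  have l' := (h.loc e he).toLc0
  obtain ⟨k1, k2⟩ := h.le_R hd he ha hb.1
  obtain ⟨c, hc, c1⟩ := h.locd_ex hd
  obtain ⟨z, hz, z1⟩ := h.locd_ex he
  have tL : τ ∈ d.L := l.cent c hc c1 (mem_centralizer_singleton_iff.2 (t2 c hc).symm)
  by_contra n
  have cl : W d τ ≤ 𝐂[e.Z] := fun ρ hρ => by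
    by_contra n'
    rw [l.mem_W] at hρ
    have a1 := l.comm_mem hρ.1 (k2 hz)
    have a2 : ⁅ρ, z⁆ ≠ 1 := fun q => n' (h.cent_of_R hd he hρ.1 hz z1 q)
    obtain ⟨σ, hσ, q⟩ := h.full_symm hd he ha hb.1 _ a1 a2 z hz
    have f1 : ρ * τ * ρ⁻¹ ∈ e.R := by
      rw [show ρ * τ * ρ⁻¹ = ⁅ρ, τ⁆ * τ by rw [commutatorElement_def]; group]
      exact mul_mem (k1 hρ.2) t1
    have f2 := conj_mem_cj ρ t1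
    rw [← (h.locd_ti hd he ha a1 hz a2 q rfl).1, mem_cj, show σ⁻¹ * (ρ * τ * ρ⁻¹) * σ =
      ⁅σ⁻¹, ρ * τ * ρ⁻¹⁆ * (ρ * τ * ρ⁻¹) by rw [commutatorElement_def]; group,
      mul_mem_cancel_left (k2 (l'.comm_mem (inv_mem (l'.mem_WW.1 hσ).1) f1)),
      mul_mem_cancel_right (inv_mem hρ.1), mul_mem_cancel_left hρ.1] at f2
    exact n f2
  obtain ⟨i, hi⟩ := hb.2 k2
  obtain ⟨ρ, hρ, q⟩ := hi z hz z1 c hc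
  have w : e.Z ≤ W d τ := fun y hy => l.mem_W.2 ⟨k2 hy, by
    rw [commutatorElement_eq_one_iff_mul_comm.2 (l'.Zc hy τ t1).symm]; exact one_mem _⟩
  exact c1 (q.symm.trans (commutatorElement_eq_one_iff_mul_comm.2
    (cl (cj_le_of_mem_normalizer w (pow_mem (l.W_norm tP) i) hρ) z hz).symm))

end Fam

end Cfsg.Agent.Q3
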