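import Mathlib
import Cfsg.Agent.Q3.LocD0

/-!
S3256 (port of Q2 without nc, p ≥ 5), local theorem D: case β is impossible.  `E = Z ⊔ e.Z` is elementary abelian, its elements are the
`c z`, `c ∈ Z`, `z ∈ e.Z`.
-/

set_option autoImplicit false
set_option linter.unusedSectionVars false
set_option linter.unusedVariables false

namespace Cfsg.Agent.Q3

open Subgroup Cfsg Cfsg.Agent.PLocal.Amb
open scoped commutatorElement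

variable {G : Type*} [Group G] [Finite G] {p : ℕ} {𝓕 : Set (Dat G)} {d e : Dat G}

namespace Fam

variable (h : Fam p 𝓕) (hd : d ∈ 𝓕) (he : e ∈ 𝓕) (ha : Adj d e)
include h hd he ha

omit h hd he ha in
theorem d1_cm {y z w : G} (k : ⁅y, z⁆ = ⁅y, w⁆) : ⁅w⁻¹ * z, y⁆ = 1 := by
  have : ⁅w⁻¹ * z, y⁆ = w⁻¹ * (⁅y, z⁆⁻¹ * ⁅y, w⁆) * w := by
    simp only [commutatorElement_def]; group
  rw [this, k]; group

omit ha in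
theorem d1_surj (hle : e.Z ≤ d.R) {y : G} (hy : y ∈ d.R) (hn : y ∉ 𝐂[e.Z]) {c : G} (hc : c ∈ d.Z) :
    ∃ z ∈ e.Z, ⁅y, z⁆ = c := by
  have l := (h.loc d hd).toLc0
  let φ : e.Z → d.Z := fun z => ⟨⁅y, z.1⁆, l.comm_mem hy (hle z.2)⟩
  have inj : Function.Injective φ := fun z w k => by
    have k1 : ⁅w.1⁻¹ * z.1, y⁆ = 1 := d1_cm (congrArg Subtype.val k)
    by_contra n
    refine hn (h.cent_of_R hd he hy (mul_mem (inv_mem w.2) z.2)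
      (fun q => n (Subtype.ext (inv_mul_eq_one.1 q).symm)) ?_)
    rw [← commutatorElement_inv, k1, inv_one]
  obtain ⟨z, hz⟩ := (inj.bijective_of_nat_card_le (h.card d hd e he).le).2 ⟨c, hc⟩
  exact ⟨z.1, z.2, congrArg Subtype.val hz⟩

omit ha in
theorem d1_fac {f : Dat G} (hf : f ∈ 𝓕) (hle : e.Z ≤ d.R) (hle' : f.Z ≤ d.R) {w : G} (hw : w ∈ f.Z)
    (hn : w ∉ 𝐂[e.Z]) {y : G} (hy : y ∈ d.R) : ∃ z ∈ e.Z, z⁻¹ * y ∈ 𝐂[f.Z] := by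
  have l := (h.loc d hd).toLc0
  obtain ⟨z, hz, k⟩ := h.d1_surj hd he hle (hle' hw) hn (l.comm_mem (hle' hw) hy)
  exact ⟨z, hz, h.cent_of_R hd hf (mul_mem (inv_mem (hle hz)) hy) hw (fun q => hn (q ▸ one_mem _))
    (d1_cm k.symm)⟩

theorem d1_S (hb : Beta d e) : ∃ S : Subgroup G, (∀ y, y ∈ S ↔ y ∈ d.R ⊓ 𝐂[e.Z] ∧ y * y = 1) ∧
    ∀ x ∈ d.R ⊓ 𝐂[e.Z], ∀ y ∈ d.R ⊓ 𝐂[e.Z], x ∉ S → y ∉ S → x * y ∈ S := by
  have l := (h.loc d hd).toLc0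
  have l' := (h.loc e he).toLc0
  obtain ⟨g, hg, kR, -⟩ := h.exists_swap hd he ha hb.1
  have e1 : d.R ⊓ 𝐂[e.Z] = d.R ⊓ 𝐂[d.Z ⊔ e.Z] := by
    rw [centralizer_sup, ← inf_assoc, inf_eq_left.2 (le_centralizer_iff.1 l.Zc)]
  have e2 : e.R ⊓ 𝐂[d.Z] = e.R ⊓ 𝐂[d.Z ⊔ e.Z] := by
    rw [centralizer_sup, inf_comm 𝐂[d.Z], ← inf_assoc, inf_eq_left.2 (le_centralizer_iff.1 l'.Zc)]
  have e3 : cj(g, d.R ⊓ 𝐂[e.Z]) = e.R ⊓ 𝐂[d.Z] := by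
    rw [e1, e2, cj_inf, kR, cj_of_mem_normalizer (normalizer_le_normalizer_centralizer _ hg)]
  have m : ∀ y, g * y * g⁻¹ ∈ e.R ⊓ 𝐂[d.Z] ↔ y ∈ d.R ⊓ 𝐂[e.Z] := fun y => by
    rw [← e3, mem_cj, show g⁻¹ * (g * y * g⁻¹) * g = y by group]
  have mL : ∀ y ∈ e.R ⊓ 𝐂[d.Z], y ∈ d.L := fun y hy => h.le_L_of hd le_rfl hy.2
  have s : ∀ y ∈ e.R ⊓ 𝐂[d.Z], y ∈ d.R ↔ y * y = 1 := fun y hy =>
    ⟨fun k => h.disj hd he ha (l.sq y k) (l'.sq y hy.1),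
      fun k => h.inf_le hd he ha hb hy.1 hy.2 (h.pl d hd e he y hy.1 (mL y hy) k)⟩
  have mS : ∀ y, y ∈ cj(g⁻¹, (e.R ⊓ 𝐂[d.Z]) ⊓ d.R) ↔
      g * y * g⁻¹ ∈ e.R ⊓ 𝐂[d.Z] ∧ g * y * g⁻¹ ∈ d.R := fun y => by
    rw [mem_cj, inv_inv, mem_inf]
  refine ⟨cj(g⁻¹, (e.R ⊓ 𝐂[d.Z]) ⊓ d.R), fun y => ?_, fun x hx y hy nx ny => ?_⟩
  · rw [mS, ← m]
    refine and_congr_right fun k => (s _ k).trans ?_
    rw [_root_.conj_mul, conj_eq_one_iff]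
  · rw [mS] at nx ny ⊢
    have hx' := (m x).2 hx
    have hy' := (m y).2 hy
    have P : ∀ z ∈ e.R ⊓ 𝐂[d.Z], Pl d (z * z) := fun z hz =>
      h.pl_Z hd he (l'.sq z hz.1) (mul_mem (mL z hz) (mL z hz))
    rw [← _root_.conj_mul]
    have hxy := mul_mem hx' hy'
    exact ⟨hxy, h.inf_le hd he ha hb hxy.1 hxy.2 (l.pl_idx (mL _ hx') (mL _ hy') (P _ hx') (P _ hy')
      (fun q => nx ⟨hx', h.inf_le hd he ha hb hx'.1 hx'.2 q⟩)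
      (fun q => ny ⟨hy', h.inf_le hd he ha hb hy'.1 hy'.2 q⟩))⟩

omit he ha in
theorem d1_two (hZ : Nat.card d.Z ≠ 2) :
    ∃ c₁ ∈ d.Z, ∃ c₂ ∈ d.Z, c₁ ≠ 1 ∧ c₂ ≠ 1 ∧ c₁ ≠ c₂ := by
  obtain ⟨c, hc, c1⟩ := h.locd_ex hd
  by_contra n
  refine hZ ((Nat.card_eq_two_iff' (1 : d.Z)).2 ⟨⟨c, hc⟩, fun q => c1 (congrArg Subtype.val q),
    fun y hy => Subtype.ext ?_⟩)
  by_contra q
  exact n ⟨y.1, y.2, c, hc, fun r => hy (Subtype.ext r), c1, q⟩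

/-- PROOF.  `Z' = e.Z ≤ R`, `Z ≤ e.R` (`le_R`), `T = R ⊓ 𝐂[Z']`, `T' = e.R ⊓ 𝐂[Z] = cj(g, T)` (`exists_swap`;
both inclusions, `T = R ⊓ 𝐂[E]`, `T' = e.R ⊓ 𝐂[E]`), `T' ≤ L`.  If `T' ≤ R` copy `Q2.Fam.sq_T`.  Else:
`T₀ = T' ⊓ R = {y ∈ T' | Pl d y}` (`inf_le`, `pl_of_mem`) `= {y ∈ T' | y y = 1}` (`disj`, `h.pl`) has index 2
in `T'` (`pl_idx`, `pl_Z`).  Conjugating, `{y ∈ T | y y = 1} = cj(g⁻¹, T₀)` has index 2 in `T`, contains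
`T₀` and has the same order: it is `T₀`, commutative (exponent 2), and `T ≠ T₀`.
`b = a ^ i` from `Beta`, `Z'' = cj(b, Z') = (e.conj b).Z ≤ R`, `T₁ = R ⊓ 𝐂[Z'']`, `N = T ⊓ T₁`.
For `1 ≠ z ∈ Z'`, `ρ ↦ ⁅ρ, z⁆` maps `Z''` onto `Z`, so is injective (`h.card`, multiplicative); so for
`1 ≠ ρ ∈ Z''`, `z ↦ ⁅ρ, z⁆` is injective on `Z'`, so onto `Z`.  With `cent_of_R`: `R = Z'' T = Z' T₁`,
`T = Z' N`.  `N₀ = N ⊓ T₀`; take `n ∈ N`, `n ∉ N₀` (`Z' ≤ T₀ ≠ T`), `n n ≠ 1`, `N = N₀ ∪ N₀ n`.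
Claim: `n` centralises `N₀`; then `n ∈ R ⊓ 𝐂[R]` and `ab` gives `n n = 1`.
`|Z| = 2`: `comm_of_sq` with `B = N`, `B₁ = N₀` (exponent 2).
`|Z| ≠ 2` (so three different elements): let `P y` mean `y ∈ R`, `y y = 1` and `⁅y, x⁆ ∈ {1, ζ}` for some
`ζ` and all `x ∈ R`; `P` is invariant under conjugation by `a`.  `y ∈ N₀` has `P y` (`y` centralises
`Z'`, `Z''`, `N₀`; `ζ = ⁅y, n⁆`).  `P y` gives `y ∈ N₀`: `y = z t₁`, `⁅y, ρ⁆ = ⁅z, ρ⁆` on `Z''` takes all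
values of `Z` if `z ≠ 1`; likewise `y = ρ t`.  So `a` normalises `N₀` and `B = R ⊓ 𝐂[N₀]`, which contains
`Z''`, `Z'`, `N₀`, so has index at most 2 in `R`; `le_of_idx`. -/
theorem sq_T (hb : Beta d e) {x : G} (hx : x ∈ d.R ⊓ 𝐂[e.Z]) : x * x = 1 := by
  by_contra x2
  have l := (h.loc d hd).toLc0
  have l' := (h.loc e he).toLc0
  obtain ⟨-, k2⟩ := h.le_R hd he ha hb.1
  obtain ⟨S, mS, iS⟩ := h.d1_S hd he ha hb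
  obtain ⟨c, hc, c1⟩ := h.locd_ex hd
  obtain ⟨z₀, hz₀, z1⟩ := h.locd_ex he
  obtain ⟨i, hi⟩ := hb.2 k2
  obtain ⟨ρ₀, hρ₀, q₀⟩ := hi z₀ hz₀ z1 c hc
  obtain ⟨f, hf, k3, hρ⟩ : ∃ f ∈ 𝓕, f.Z ≤ d.R ∧ ρ₀ ∈ f.Z :=
    ⟨e.conj (d.a ^ i), h.inv e he _, cj_le_of_mem_normalizer k2 (l.nR (pow_mem l.aL i)), hρ₀⟩
  have lf := (h.loc f hf).toLc0
  have n1 : ρ₀ ∉ 𝐂[e.Z] := fun k =>
    c1 (q₀.symm.trans (commutatorElement_eq_one_iff_mul_comm.2 (k z₀ hz₀).symm))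
  have n2 : z₀ ∉ 𝐂[f.Z] := fun k =>
    c1 (q₀.symm.trans (commutatorElement_eq_one_iff_mul_comm.2 (k ρ₀ hρ)))
  have ZT : e.Z ≤ d.R ⊓ 𝐂[e.Z] := le_inf k2 (l'.Zc.trans (centralizer_anti l'.ZR))
  have ZS : e.Z ≤ S := fun z hz => (mS z).2 ⟨ZT hz, l'.Z2 z hz⟩
  have ST : S ≤ d.R ⊓ 𝐂[e.Z] := fun y hy => ((mS y).1 hy).1
  have Sc : ∀ y ∈ S, ∀ w ∈ S, y * w = w * y := fun y hy w hw => by
    have a1 := inv_eq_of_mul_eq_one_right ((mS _).1 (mul_mem hy hw)).2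
    rw [mul_inv_rev, inv_eq_of_mul_eq_one_right ((mS _).1 hy).2,
      inv_eq_of_mul_eq_one_right ((mS _).1 hw).2] at a1
    exact a1.symm
  obtain ⟨n, nT, nf, nS⟩ : ∃ n ∈ d.R ⊓ 𝐂[e.Z], n ∈ 𝐂[f.Z] ∧ n ∉ S := by
    obtain ⟨z, hz, k⟩ := h.d1_fac hd he hf k2 k3 hρ n1 hx.1
    exact ⟨_, mul_mem (inv_mem (ZT hz)) hx, k, fun q =>
      x2 ((mS x).1 ((mul_mem_cancel_left (inv_mem (ZS hz))).1 q)).2⟩
  have D : ∀ M : Subgroup G, f.Z ≤ M → e.Z ≤ M → S ⊓ 𝐂[f.Z] ≤ M → ∀ y ∈ d.R, y ∈ M ∨ y * n ∈ M := by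
    intro M m1 m2 m3 y hy
    obtain ⟨ρ, hρ, a1⟩ := h.d1_fac hd hf he k3 k2 hz₀ n2 hy
    have a2 : ρ⁻¹ * y ∈ d.R ⊓ 𝐂[e.Z] := ⟨d.R.mul_mem (d.R.inv_mem (k3 hρ)) hy, a1⟩
    obtain ⟨z, hz, a3⟩ := h.d1_fac hd he hf k2 k3 (by assumption) n1 a2.1
    have a4 := mul_mem (inv_mem (ZT hz)) a2
    by_cases a5 : z⁻¹ * (ρ⁻¹ * y) ∈ S
    · exact Or.inl ((mul_mem_cancel_left (inv_mem (m1 hρ))).1
        ((mul_mem_cancel_left (inv_mem (m2 hz))).1 (m3 ⟨a5, a3⟩)))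
    · have a6 := m3 ⟨iS _ a4 n nT a5 nS, mul_mem a3 nf⟩
      rw [mul_assoc, mul_assoc] at a6
      exact Or.inr ((mul_mem_cancel_left (inv_mem (m1 hρ))).1
        ((mul_mem_cancel_left (inv_mem (m2 hz))).1 a6))
  have C : n ∈ 𝐂[S ⊓ 𝐂[f.Z]] := by
    by_cases hZ : Nat.card d.Z = 2
    · have a1 := (l.comm_of_sq hZ (B := (d.R ⊓ 𝐂[e.Z]) ⊓ 𝐂[f.Z]) (B₁ := S ⊓ 𝐂[f.Z])
        (inf_le_left.trans inf_le_left) (inf_le_inf_right _ ST) ⟨nT, nf⟩ (fun q => nS q.1)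
        (fun y hy ny q => ny ⟨(mS y).2 ⟨hy.1, q⟩, hy.2⟩)).2
      intro w hw
      have a2 := a1 w hw
      rw [inv_eq_of_mul_eq_one_right ((mS w).1 hw.1).2, mul_assoc, inv_mul_eq_iff_eq_mul] at a2
      exact a2
    obtain ⟨c₁, h1, c₂, h2, a1, a2, a3⟩ := h.d1_two hd hZ
    have P1 : ∀ y ∈ S ⊓ 𝐂[f.Z], ∃ ζ, ∀ x ∈ d.R, ⁅y, x⁆ = 1 ∨ ⁅y, x⁆ = ζ := fun y hy => by
      refine ⟨⁅y, n⁻¹⁆, fun x hx => ?_⟩
      have yR := (ST hy.1).1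
      rcases D (centralizer {y}) (fun w hw => mem_centralizer_singleton_iff.2 (hy.2 w hw))
        (fun w hw => mem_centralizer_singleton_iff.2 ((ST hy.1).2 w hw))
        (fun w hw => mem_centralizer_singleton_iff.2 (Sc w hw.1 y hy.1)) x hx with q | q
      · exact Or.inl (commutatorElement_eq_one_iff_mul_comm.2 (mem_centralizer_singleton_iff.1 q).symm)
      · refine Or.inr ?_
        rw [← mul_inv_cancel_right x n, Lc0.lA_mul, commutatorElement_eq_one_iff_mul_comm.2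
          (mem_centralizer_singleton_iff.1 q).symm, one_mul,
          l.lA_zc (l.comm_mem yR (inv_mem nT.1)) (mul_mem hx nT.1), mul_inv_cancel_right]
    have P2 : ∀ y ∈ d.R, (∃ ζ, ∀ x ∈ d.R, ⁅y, x⁆ = 1 ∨ ⁅y, x⁆ = ζ) → ∀ f' ∈ 𝓕, f'.Z ≤ d.R →
        y ∈ 𝐂[f'.Z] := by
      rintro y hy ⟨ζ, hζ⟩ f' hf' k
      by_contra q
      obtain ⟨w₁, hw₁, b1⟩ := h.d1_surj hd hf' k hy q h1
      obtain ⟨w₂, hw₂, b2⟩ := h.d1_surj hd hf' k hy q h2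
      exact a3 ((b1.symm.trans ((hζ _ (k hw₁)).resolve_left (b1 ▸ a1))).trans
        (b2.symm.trans ((hζ _ (k hw₂)).resolve_left (b2 ▸ a2))).symm)
    have aN : d.a ∈ 𝐍[S ⊓ 𝐂[f.Z]] := by
      refine mem_normalizer_of_cj_le (cj_le_iff_forall.2 fun y hy => ?_)
      have yR := l.lA_nr l.aL (ST hy.1).1
      obtain ⟨ζ, hζ⟩ := P1 y hy
      have P := P2 _ yR ⟨d.a * ζ * d.a⁻¹, fun x hx => by
        have b1 : ⁅d.a * y * d.a⁻¹, x⁆ = d.a * ⁅y, d.a⁻¹ * x * d.a⁻¹⁻¹⁆ * d.a⁻¹ := by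
          simp only [commutatorElement_def]; group
        rw [b1]
        rcases hζ _ (l.lA_nr (inv_mem l.aL) hx) with q | q
        · exact Or.inl (by rw [q, mul_one, mul_inv_cancel])
        · exact Or.inr (by rw [q])⟩
      exact ⟨(mS _).2 ⟨⟨yR, P e he k2⟩, by
        rw [_root_.conj_mul, ((mS y).1 hy.1).2, mul_one, mul_inv_cancel]⟩, P f hf k3⟩
    have D' := D 𝐂[S ⊓ 𝐂[f.Z]] (le_centralizer_iff.1 inf_le_right)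
      (le_centralizer_iff.1 (inf_le_left.trans (ST.trans inf_le_right)))
      (fun y hy w hw => Sc w hw.1 y hy.1)
    refine l.le_of_idx (normalizer_le_normalizer_centralizer _ aN) (fun x hx y hy nx ny => ?_) nT.1
    refine (D' _ (mul_mem hx hy)).resolve_right fun q => nx ?_
    rw [mul_assoc] at q
    exact (mul_mem_cancel_right ((D' y hy).resolve_left ny)).1 q
  have nR : n ∈ 𝐂[d.R] := fun y hy => by
    have := D (centralizer {n}) (fun w hw => mem_centralizer_singleton_iff.2 (nf w hw))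
      (fun w hw => mem_centralizer_singleton_iff.2 (nT.2 w hw))
      (fun w hw => mem_centralizer_singleton_iff.2 (C w hw)) y hy
    exact mem_centralizer_singleton_iff.1 (this.elim id fun q =>
      (mul_mem_cancel_right (mem_centralizer_singleton_iff.2 rfl)).1 q)
  have aR := l.nR l.aL
  exact nS ((mS n).2 ⟨nT, l.ab (B := d.R ⊓ 𝐂[d.R]) inf_le_left
    (zpowers_le.1 (le_normalizer_inf (zpowers_le.2 aR) (le_normalizer_centralizer (zpowers_le.2 aR))))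
    (inf_le_right.trans (centralizer_anti inf_le_left)) ⟨nT.1, nR⟩⟩)

end Fam

end Cfsg.Agent.Q3
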