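import Mathlib
import Cfsg.Agent.Q3.LocC
import Cfsg.Agent.Q3.LocD

/-!
S3256 (port of Q2 without nc, p ≥ 5), the local theorem.
-/

set_option autoImplicit false
set_option linter.unusedSectionVars false
set_option linter.unusedVariables false

namespace Cfsg.Agent.Q3

open Subgroup Cfsg Cfsg.Agent.PLocal.Amb
open scoped commutatorElement

variable {G : Type*} [Group G] [Finite G] {p : ℕ} {𝓕 : Set (Dat G)} {d e : Dat G}

/-- PROOF.  `Adj d e` (`adj_of`); all adjacent pairs satisfy `Alpha` (`dich`, `not_beta`).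
`X = Z ⊔ ⨆ i, cj(a ^ i, e.Z) ≤ R` is a nontrivial 2-group normalised by `R` (`le_normalizer_of`) and by
`a`, so `𝐍[X] ≤ L` (`nrm`).  `Z ≤ e.R` (`Alpha e d`); `(e.conj (a ^ i)).Z` equals `e.Z` or is adjacent
to it, so lies in `e.R` (`Alpha e _`).  So `e.Z ≤ X ≤ e.R`, `e.R ≤ 𝐍[X] ≤ L`, `e.R ≤ 𝐂[Z]` (`two`),
against `not_cent` for `(e, d)`. -/
theorem Fam.loc_false (h : Fam p 𝓕) (hd : d ∈ 𝓕) (he : e ∈ 𝓕) (hne : d.Z ≠ e.Z) {z : G}
    (hz : z ∈ e.Z) (h1 : z ≠ 1) (hL : z ∈ d.L) : False := by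
  have al : ∀ {d e : Dat G}, d ∈ 𝓕 → e ∈ 𝓕 → Adj d e → Alpha d e := fun hd he ha =>
    (h.dich hd he ha).resolve_right (h.not_beta hd he ha)
  have ha := h.adj_of hd he hne hz h1 hL
  have a1 := al hd he ha
  have ld := (h.loc d hd).toLc0
  have le := (h.loc e he).toLc0
  have XR : d.Z ⊔ ⨆ i : ℕ, cj(d.a ^ i, e.Z) ≤ d.R :=
    sup_le ld.ZR (iSup_le fun i => cj_le_of_mem_normalizer a1.1 (ld.nR (pow_mem ld.aL i)))
  have XR' : d.Z ⊔ ⨆ i : ℕ, cj(d.a ^ i, e.Z) ≤ e.R := sup_le (al he hd ha.symm).1 (iSup_le fun i => by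
    by_cases k : e.Z = cj(d.a ^ i, e.Z)
    · exact k.ge.trans le.ZR
    · exact (al he (h.inv e he (d.a ^ i)) ⟨k, a1.2 i⟩).1)
  have hn := ld.nrm _ (ld.pg.to_le XR) (fun k => ld.ne (eq_bot_iff.2 (le_sup_left.trans k.le)))
    (ld.le_normalizer_of le_sup_left XR) (mem_normalizer_of_cj_le (by
      rw [cj_sup, cj_iSup, cj_of_mem_normalizer (ld.nZ ld.aL)]
      refine sup_le_sup_left (iSup_le fun i => ?_) _
      rw [← cj_mul, ← pow_succ']
      exact le_iSup (fun i : ℕ => cj(d.a ^ i, e.Z)) (i + 1)))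
  refine h.not_cent he hd ha.symm fun x hx => h.two_R hd he hx
    (hn (le.le_normalizer_of (le_sup_of_le_right (le_iSup_of_le 0 ?_)) XR' hx))
  rw [pow_zero, cj_one]

end Cfsg.Agent.Q3
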