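import Mathlib
import Cfsg.Agent.Q3.LocB0
import Cfsg.Agent.Q3.LocA2

/-!
S3256 (Q3 = port of Q2 without `nc`): elements of `e.R` in `L` centralise `Z`.  `b = e.a`.
-/

set_option autoImplicit false
set_option linter.unusedSectionVars false
set_option linter.unusedVariables false

namespace Cfsg.Agent.Q3

open Subgroup Cfsg Cfsg.Agent.PLocal.Amb
open scoped commutatorElement

variable {G : Type*} [Group G] [Finite G] {p : ℕ} {𝓕 : Set (Dat G)} {d e : Dat G}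

namespace Lc0

variable (h : Lc0 p d) {v w x : G}
include h

theorem lT_k1 (hv : v ∈ d.L) (ha : d.a * v = v * d.a) (hZ : v ∈ 𝐂[d.Z]) (h2 : v * v ∈ d.Z)
    (hx : x ∈ d.R) : Commute ⁅x, v⁆ v := by
  have m : ⁅x, v⁆ ∈ d.R := by
    rw [show ⁅x, v⁆ = x * (v * x⁻¹ * v⁻¹) by simp only [commutatorElement_def, mul_assoc]]
    exact mul_mem hx (h.lA_nr hv (inv_mem hx))
  refine mem_centralizer_singleton_iff.1 (h.W_cent hv ha hZ (h.mem_W.2 ⟨m, ?_⟩))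
  have e : ⁅⁅x, v⁆, v⁆ = ⁅x, v⁆ * ⁅x, v⁆ := by
    simp only [commutatorElement_def]
    calc _ = x * v * x⁻¹ * v⁻¹ * (v * v * x) * v⁻¹ * x⁻¹ * v⁻¹ := by group
      _ = _ := by rw [← h.lA_zc h2 hx]; group
  rw [e]
  exact h.sq _ m

theorem lT_k2 (hZ : v ∈ 𝐂[d.Z]) (hx : x ∈ d.R) (hw : w ∈ d.R) (hc : w * v = v * w) :
    Commute ⁅x, v⁆ w := by
  have e : ⁅x⁻¹, w⁆ * v = v * ⁅x⁻¹, w⁆ := hZ _ (h.comm_mem (inv_mem hx) hw)
  have e1 : v⁻¹ * w = w * v⁻¹ := (Commute.inv_right hc).symm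
  simp only [commutatorElement_def] at e
  show _ = _
  simp only [commutatorElement_def]
  calc _ = x * v * x⁻¹ * (v⁻¹ * w) := by group
    _ = x * (v * (x⁻¹ * w * x⁻¹⁻¹ * w⁻¹)) * w * x⁻¹ * v⁻¹ := by rw [e1]; group
    _ = w * x * w⁻¹ * (v * w) * x⁻¹ * v⁻¹ := by rw [← e]; group
    _ = _ := by rw [← hc]; group

end Lc0

namespace Fam

variable (h : Fam p 𝓕) (hd : d ∈ 𝓕) (he : e ∈ 𝓕) {z c τ ρ : G}
include h hd he

theorem lT_inv (hτ : τ ∈ e.R) (hL : τ ∈ d.L) (h2 : τ * τ = 1) : τ ∈ 𝐂[d.Z] :=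
  (h.loc d hd).two τ hL (h.pl d hd e he τ hτ hL h2) ⟨1, (sq τ).trans h2⟩

theorem lT_adj (hne : d.Z ≠ e.Z) (hz : z ∈ e.Z) (h1 : z ≠ 1) (hL : z ∈ d.L) : Adj d e :=
  ⟨hne, le_centralizer_iff.1 fun c hc => h.lT_inv he hd ((h.loc d hd).ZR hc)
    ((h.loc e he).cent z hz h1 (mem_centralizer_singleton_iff.2
      (h.lT_inv hd he ((h.loc e he).ZR hz) hL ((h.loc e he).Z2 z hz) c hc))) ((h.loc d hd).Z2 c hc)⟩

theorem lT_le_L (ha : Adj d e) : d.Z ≤ e.L := fun x hx => by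
  obtain ⟨c, hc, h1⟩ : ∃ c ∈ e.Z, c ≠ 1 := by
    by_contra! k
    exact (h.loc e he).ne ((eq_bot_iff_forall _).2 k)
  exact (h.loc e he).cent c hc h1 (mem_centralizer_singleton_iff.2 (ha.2 hc x hx))

/-- PROOF.  Let `c ∈ Z`, `c₀ = ⁅τ, c⁆ ≠ 1`.  `c₀ ∈ Z` (`nZ`) and `c₀ ∈ e.R` (`c ∈ e.L` by `le_L`, `nR`).
`c = σ v` in `e` (`pl_Z`, `dec1`, `dec2`: `σ v = v σ`, `v v = σ σ`, `σ ∈ W e c = W e v ≤ C(v)` by `W_mul`,
`W_cent`).  `τ σ v τ⁻¹ = c₀ σ v` gives `c₀ = ζ * y`, `ζ ∈ e.Z`, `y = ⁅τ, v⁆ = τ (v τ⁻¹ v⁻¹)` (modulo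
`e.Z` the group `e.R` is commutative, `comm_mem`).  Put `c_i = b ^ i c₀ b⁻¹ ^ i = ζ * ⁅τ_i, v⁆`,
`τ_i = b ^ i τ b⁻¹ ^ i ∈ e.R`.  For `x ∈ e.R`, `y = ⁅x, v⁆` lies in `W e v` (`⁅y, v⁆ ∈ e.Z` because
`v v ∈ e.Z` and squares, commutators of `e.R` are in `e.Z`), so commutes with `v`; and it commutes with
every `w ∈ e.R` commuting with `v`: `⁅x, w⁆ ∈ e.Z` is centralised by `v`, so
`⁅v x v⁻¹, w⁆ = v ⁅x, w⁆ v⁻¹ = ⁅x, w⁆`, bimultiplicativity.  So `c_i` commutes with `σ`, `v`, `c`: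
`1 ≠ c_i ∈ (d.conj (b ^ i)).Z` lies in `C(c) ≤ L`, so `(d.conj (b ^ i)).Z` equals `Z` or is adjacent to
it (`adj_of`): `b ^ i c b⁻¹ ^ i = σ_i v` commutes with `c = σ v`; `σ_i ∈ W e v` (`W_norm`) commutes with
`v`; so `σ_i` commutes with `σ`.  `ab_gen`: `σ σ = 1 = v v`, `v ∈ e.Z` (`h.dec`), `c ∈ e.R`,
`c₀ ∈ e.Z` (`comm_mem`), `disj`. -/
theorem tw (ha : Adj d e) (hτ : τ ∈ e.R) (hL : τ ∈ d.L) : τ ∈ 𝐂[d.Z] := by
  have L := (h.loc d hd).toLc0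
  have E := (h.loc e he).toLc0
  intro c hc
  by_contra k
  have k0 : ⁅τ, c⁆ ≠ 1 := fun e => k (commutatorElement_eq_one_iff_mul_comm.1 e).symm
  have c1 : c ≠ 1 := fun e => k (by rw [e, one_mul, mul_one])
  have m0 : ⁅τ, c⁆ ∈ d.Z := mul_mem (L.lA_nz hL hc) (inv_mem hc)
  have cL := h.lT_le_L hd he ha hc
  obtain ⟨σ, hσ, v, hv, av, vZ, rfl⟩ :=
    E.dec1 cL (h.pl e he d hd c (L.ZR hc) cL (L.Z2 c hc)) (ha.symm.2 hc)
  obtain ⟨e0, e1, -⟩ := E.dec2 hσ hv av vZ (L.Z2 _ hc)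
  have v2 : v * v ∈ e.Z := e1 ▸ E.sq σ hσ
  have hζ := E.comm_mem hτ hσ
  have e2 : ⁅τ, σ * v⁆ = ⁅τ, σ⁆ * ⁅τ, v⁆ := by
    rw [Lc0.lA_mul, ← (E.lT_k2 vZ hτ hσ e0).eq, mul_inv_cancel_right]
  have s2 : σ * σ = 1 := E.ab_gen hσ fun i => by
    have hb : e.a ^ i ∈ e.L := pow_mem E.aL i
    have bv : Commute (e.a ^ i) v := Commute.pow_left av i
    have bζ : Commute (e.a ^ i) ⁅τ, σ⁆ := Commute.pow_left (E.Za _ hζ) i
    generalize e.a ^ i = g at hb bv bζ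
    have hτ' := E.lA_nr hb hτ
    have e3 : g * ⁅τ, σ * v⁆ * g⁻¹ = ⁅τ, σ⁆ * ⁅g * τ * g⁻¹, v⁆ := by
      rw [e2, ← _root_.conj_mul, bζ.eq, mul_inv_cancel_right, conjugate_commutatorElement, bv.eq,
        mul_inv_cancel_right]
    have a1 : Commute (g * ⁅τ, σ * v⁆ * g⁻¹) (σ * v) := by
      rw [e3]
      exact Commute.mul_right (Commute.mul_left (E.lA_zc hζ hσ).symm (E.lT_k2 vZ hτ' hσ e0))
        (Commute.mul_left (vZ _ hζ) (E.lT_k1 hv av vZ v2 hτ'))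
    have hd' := h.inv d hd g
    have m : g * (σ * v) * g⁻¹ ∈ (d.conj g).Z := conj_mem_cj g hc
    have a2 : σ * v * (g * (σ * v) * g⁻¹) = g * (σ * v) * g⁻¹ * (σ * v) := by
      by_cases q : d.Z = (d.conj g).Z
      · exact L.lA_zc (q ▸ m) (L.ZR hc)
      · exact (h.lT_adj hd hd' q (conj_mem_cj g m0) (by simpa using k0)
          (L.cent _ hc c1 (mem_centralizer_singleton_iff.2 a1))).2 m _ hc
    have a3 : Commute (g * σ * g⁻¹) v := (bv.mul_left e0).mul_left bv.inv_left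
    have e4 : g * (σ * v) * g⁻¹ = g * σ * g⁻¹ * v := by
      rw [mul_assoc (g * σ), bv.inv_left.eq]; group
    rw [e4] at a2
    generalize g * σ * g⁻¹ = s at a2 a3
    refine mul_right_cancel (b := v * v) ?_
    calc _ = s * (σ * v) * v := by group
      _ = s * (v * σ) * v := by rw [e0]
      _ = s * v * (σ * v) := by group
      _ = σ * (v * s) * v := by rw [← a2]; group
      _ = _ := by rw [← a3.eq]; group
  exact k0 (by_contra fun q => ha.1 (h.ti d hd e he _ m0 (E.comm_mem hτ (mul_mem hσ (E.ZR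
    (h.dec e he d hd ha.1.symm σ hσ v hv av hc (e1.trans s2))))) q).2.1)

/-- PROOF.  `τ τ = 1`: `cent_inv`.  Else `1 ≠ τ τ ∈ e.Z ⊓ L`: `Z = e.Z` (use `Zc`) or `adj_of`, `tw`. -/
theorem two_R (hτ : τ ∈ e.R) (hL : τ ∈ d.L) : τ ∈ 𝐂[d.Z] := by
  by_cases h2 : τ * τ = 1
  · exact h.lT_inv hd he hτ hL h2
  by_cases q : d.Z = e.Z
  · exact q ▸ le_centralizer_iff.1 (h.loc e he).Zc hτ
  · exact h.tw hd he (h.lT_adj hd he q ((h.loc e he).sq τ hτ) h2 (mul_mem hL hL)) hτ hL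

/-- `cent`, `two_R` -/
theorem cent_of_R (hρ : ρ ∈ d.R) (hz : z ∈ e.Z) (h1 : z ≠ 1) (hc : ⁅ρ, z⁆ = 1) : ρ ∈ 𝐂[e.Z] := by
  exact h.two_R he hd hρ ((h.loc e he).cent z hz h1
    (mem_centralizer_singleton_iff.2 (commutatorElement_eq_one_iff_mul_comm.1 hc)))

end Fam

end Cfsg.Agent.Q3
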