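import Mathlib
import Cfsg.Agent.Q3.LocT

/-!
S3256 (Q3 = port of Q2 without `nc`): the axiom `mx` of Q2.  `a = d.a`, `b = e.a`, `R' = e.R`, `Z' = e.Z`.
-/

set_option autoImplicit false
set_option linter.unusedSectionVars false
set_option linter.unusedVariables false

namespace Cfsg.Agent.Q3

open Subgroup Cfsg Cfsg.Agent.PLocal.Amb
open scoped commutatorElement

variable {G : Type*} [Group G] [Finite G] {p : ℕ} {𝓕 : Set (Dat G)} {d e : Dat G}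

theorem lp_pure {A : Type*} [CommGroup A] (cA cT : A →* A) (f : ℤ → A) (hA : ∀ i, cA (f i) = f (i + 1))
    (hT : ∀ i, cT (f i) = f (-i)) (S : Subgroup A) (hS : ∀ i, f i ∈ S) (n : ℕ) :
    ∃ x ∈ S, cA (cT x * f 0 * x) * f (-n) = cT x * f 0 * x * f (n + 1) := by
  induction n with
  | zero => exact ⟨1, one_mem _, by simp [hA, mul_comm]⟩
  | succ n ih =>
    obtain ⟨x, hx, e⟩ := ih
    refine ⟨x * f (n + 1), mul_mem hx (hS _), ?_⟩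
    have e1 : cT (x * f (n + 1)) * f 0 * (x * f (n + 1)) =
        cT x * f 0 * x * (f (-(n + 1)) * f (n + 1)) := by
      rw [map_mul, hT]; ac_rfl
    rw [e1, map_mul, map_mul cA (f _), hA, hA, show -((n : ℤ) + 1) + 1 = -n by ring, ← mul_assoc, e]
    push_cast
    ac_rfl

/-- conjugation on a normalised subgroup -/
def lpC (C : Subgroup G) {g : G} (hg : g ∈ 𝐍[C]) : C →* C where
  toFun x := ⟨g * x * g⁻¹, conj_mem_of_mem_normalizer hg x.2⟩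
  map_one' := Subtype.ext (by simp)
  map_mul' x y := Subtype.ext (by simp [mul_assoc])

theorem Lc0.lp_exists (L : Lc0 p d) {z τ : G} {U : Subgroup G} (hU : U ≤ d.R ⊓ 𝐂[d.R])
    (ha : d.a ∈ 𝐍[U]) (hz : z ∈ U) (hτ : τ ∈ d.L) (h1 : Pl d (τ * τ)) (h2 : ¬ Pl d τ)
    (hc : τ * z = z * τ) : ∃ x ∈ U, τ * x * τ⁻¹ * z * x ∈ d.Z := by
  obtain ⟨ρ, hρ, u, hu, rfl⟩ := L.semi τ hτ h1 h2
  have nC : d.L ≤ 𝐍[d.R ⊓ 𝐂[d.R]] := le_normalizer_inf L.nR (le_normalizer_centralizer L.nR)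
  let _ : CommGroup ↥(d.R ⊓ 𝐂[d.R]) :=
    { (inferInstance : Group ↥(d.R ⊓ 𝐂[d.R])) with
      mul_comm := fun x y => Subtype.ext (y.2.2 x x.2.1) }
  have fU : ∀ i : ℤ, d.a ^ i * z * (d.a ^ i)⁻¹ ∈ U := fun i =>
    conj_mem_of_mem_normalizer (zpow_mem ha i) hz
  have uz : u * z * u⁻¹ = z := by
    have e := (hU hz).2 ρ hρ
    calc u * z * u⁻¹ = ρ⁻¹ * (ρ * u * z) * u⁻¹ := by group
      _ = ρ⁻¹ * (z * ρ) := by rw [hc]; group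
      _ = z := by rw [← e]; group
  obtain ⟨m, hm⟩ := L.pp.odd_of_ne_two L.p2
  obtain ⟨x, hx, e⟩ := lp_pure (lpC _ (nC L.aL)) (lpC _ (nC hτ)) (fun i => ⟨_, hU (fU i)⟩)
    (fun i => Subtype.ext (by
      change d.a * (d.a ^ i * z * (d.a ^ i)⁻¹) * d.a⁻¹ = d.a ^ (i + 1) * z * (d.a ^ (i + 1))⁻¹
      group))
    (fun i => Subtype.ext (by
      change ρ * u * (d.a ^ i * z * (d.a ^ i)⁻¹) * (ρ * u)⁻¹ = d.a ^ (-i) * z * (d.a ^ (-i))⁻¹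
      have e1 : u * d.a ^ i * u⁻¹ = d.a ^ (-i) := by rw [← conj_zpow, hu, inv_zpow']
      have e2 := (hU (fU (-i))).2 ρ hρ
      calc _ = ρ * ((u * d.a ^ i * u⁻¹) * (u * z * u⁻¹) * (u * d.a ^ i * u⁻¹)⁻¹) * ρ⁻¹ := by group
        _ = _ := by rw [e1, uz, e2, mul_inv_cancel_right]))
    (U.subgroupOf _) fU m
  have e3 : d.a ^ ((m : ℤ) + 1) = d.a ^ (-(m : ℤ)) := by
    have : d.a ^ (p : ℤ) = 1 := by rw [zpow_natCast, ← L.ord, pow_orderOf_eq_one]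
    rw [show (m : ℤ) + 1 = p + -m by rw [hm]; push_cast; ring, zpow_add, this, one_mul]
  have e4 := congrArg Subtype.val e
  simp only [Subgroup.coe_mul, lpC, MonoidHom.coe_mk, OneHom.coe_mk, e3, zpow_zero, one_mul, inv_one,
    mul_one, mul_left_inj] at e4
  refine ⟨x, hx, L.fix _ (mul_mem (mul_mem (L.lA_nr hτ x.2.1) (hU hz).1) x.2.1) ?_⟩
  exact mul_inv_eq_iff_eq_mul.1 e4

namespace Fam

variable (h : Fam p 𝓕) (hd : d ∈ 𝓕) (he : e ∈ 𝓕) {z c τ ρ : G}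
include h hd he

/-- PROOF.  Suppose `τ ∈ R'`, `¬ Pl d τ`.  `R'₀ = {x ∈ R' | Pl d x}` is a subgroup (`pl_mul`, `pl_inv`) of
index 2 (`pl_idx`; `x x ∈ Z'` is `Pl` by `pl_Z`), elements outside have square `≠ 1` (`h.pl`).
If `|Z'| = 2`: `comm_of_sq`, `ab2` for `e` with `B = R'` give `τ τ = 1`.  So `|Z'| ≠ 2`.
`R ≤ 𝐂[Z']` (`two_R`), so `Adj d e`, and `Z' ≤ R` (`mem_R` with `B = W d z = R`).
`U = R ⊓ 𝐂[R] ⊓ 𝐂[R'₀] ≥ Z, Z'` (`R' ≤ 𝐂[Z]` by `two_R`) is `a`-invariant (for `y = ρ u ∈ R'₀`,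
`a⁻¹ y a = ρ' y` with `ρ' ∈ R`), of exponent 2 (`ab`).
(1) For `x ∈ U`: `x ∈ e.L`, `Pl e x` (`h.pl`), `x = σ v` (`dec1`, `dec2` in `e`), `W e x ≥ R'₀` is
`b`-invariant (`W_norm`), so `= R'` (`le_of_idx`); `⁅y, x⁆ = ⁅y, σ⁆` for `y ∈ R'`.  So `σ` centralises
`R'₀`, and `⁅y, σ⁆ = ⁅τ, x⁆ =: ζ x ∈ Z'` for `y ∈ R'` outside `R'₀`.
(2) For `z ∈ Z'` some `x ∈ U` has `ζ x = z`: `τ = ρ u`, `u a u⁻¹ = a⁻¹` (`semi`), `z_i = a ^ i z a⁻¹ ^ i ∈ U`,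
`τ z_i τ⁻¹ = u z_i u⁻¹ = z_(p - i)` (`ρ` centralises `R ⊓ 𝐂[R]`, `τ` centralises `z`).  `p = 2 m + 1`,
`x = ∏ i ∈ [1, m], z_i`; `(τ x τ⁻¹) x = N z` with `N = ∏ i < p, z_i` fixed by `a`, `N ∈ Z` (`fix`); so
`ζ x * z ∈ Z ⊓ Z'`, `disj`.  (Work in the commutative group `U`, or use `List.prod`/`noncommProd`; or:
`x ↦ x * (a x a⁻¹)` and `x ↦ x * (a a x a⁻¹ a⁻¹)` are bijective on `U` modulo `Z` by `fix_mod`; take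
`x` with `x (a a x a⁻¹ a⁻¹) ∈ z Z`; then `τ x τ⁻¹` solves the equation for `a⁻¹`, as does
`a a x a⁻¹ a⁻¹`, so `τ x τ⁻¹ ∈ (a a x a⁻¹ a⁻¹) Z`.)
(3) `x₀` with `ζ x₀ = τ τ`, `x₁` with `ζ x₁ ∉ {1, τ τ}` (`|Z'| ≠ 1, 2`), `σ₀, σ₁`.  If
`s = b ^ j σ₀ b⁻¹ ^ j ∉ R'₀` then `ζ x₁ = ⁅s, σ₁⁆ = b ^ j ⁅σ₀, b⁻¹ ^ j σ₁ b ^ j⁆ b⁻¹ ^ j ∈ {1, ζ x₀}` (`Z'` has
exponent 2 and is centralised by `b`).  So `ab_gen` gives `σ₀ σ₀ = 1 = v₀ v₀`, `v₀ ∈ Z'` (`dec4`),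
`x₀ ∈ R'`.  `(τ x₀) (τ x₀) = ⁅τ, x₀⁆ x₀ τ τ x₀ = 1`, so `Pl d (τ x₀)` (`h.pl`), `Pl d τ` (`pl_mul`,
`pl_of_mem`). -/
theorem plus (hne : d.Z ≠ e.Z) (h1 : d.R ≤ e.L) (h2 : e.R ≤ d.L) : ∀ x ∈ e.R, Pl d x := by
  intro τ hτ
  by_contra nτ
  have L := (h.loc d hd).toLc0
  have L' := (h.loc e he).toLc0
  obtain ⟨R0, hR0⟩ : ∃ R0 : Subgroup G, ∀ x, x ∈ R0 ↔ x ∈ e.R ∧ Pl d x :=
    ⟨{ carrier := {x | x ∈ e.R ∧ Pl d x}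
       one_mem' := ⟨one_mem _, pl_of_mem (one_mem _)⟩
       mul_mem' := fun a b => ⟨mul_mem a.1 b.1, L.pl_mul (h2 a.1) a.2 b.2⟩
       inv_mem' := fun a => ⟨inv_mem a.1, L.pl_inv (h2 a.1) a.2⟩ }, fun _ => Iff.rfl⟩
  have r0 : R0 ≤ e.R := fun x hx => ((hR0 x).1 hx).1
  have psq : ∀ x ∈ e.R, Pl d (x * x) := fun x hx => h.pl_Z hd he (L'.sq x hx) (h2 (mul_mem hx hx))
  have idx : ∀ x ∈ e.R, ∀ y ∈ e.R, x ∉ R0 → y ∉ R0 → x * y ∈ R0 := fun x hx y hy a b =>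
    (hR0 _).2 ⟨mul_mem hx hy, L.pl_idx (h2 hx) (h2 hy) (psq x hx) (psq y hy)
      (fun k => a ((hR0 _).2 ⟨hx, k⟩)) fun k => b ((hR0 _).2 ⟨hy, k⟩)⟩
  have sqne : ∀ x ∈ e.R, x ∉ R0 → x * x ≠ 1 := fun x hx a k =>
    a ((hR0 _).2 ⟨hx, h.pl d hd e he x hx (h2 hx) k⟩)
  have τ0 : τ ∉ R0 := fun k => nτ ((hR0 _).1 k).2
  have c2 : Nat.card e.Z ≠ 2 := fun k => sqne τ hτ τ0
    (L'.ab2 (by first | exact L'.p3 | exact h.p3) k le_rfl (L'.nR L'.aL) r0 (L'.comm_of_sq k le_rfl r0 hτ τ0 sqne).1 idx hτ)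
  have RZ' : d.R ≤ 𝐂[e.Z] := fun x hx => h.two_R he hd hx (h1 hx)
  have R'Z : e.R ≤ 𝐂[d.Z] := fun x hx => h.two_R hd he hx (h2 hx)
  have ad : Adj d e := ⟨hne, L'.ZR.trans R'Z⟩
  have ZR : e.Z ≤ d.R := fun z hz => h.mem_R hd he ad hz le_rfl
    (L.W_norm (h.pl_Z hd he hz (h.le_L hd he ad hz)))
    (fun x hx => commutatorElement_eq_one_iff_mul_comm.2 (RZ' (L.W_le z hx) z hz).symm) fun _ a _ => a
  have nC : d.L ≤ 𝐍[d.R ⊓ 𝐂[d.R]] := le_normalizer_inf L.nR (le_normalizer_centralizer L.nR)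
  have aU : d.a ∈ 𝐍[d.R ⊓ 𝐂[d.R] ⊓ 𝐂[R0]] := by
    refine mem_normalizer_of_cj_le (cj_le_iff_forall.2 fun x hx =>
      ⟨conj_mem_of_mem_normalizer (nC L.aL) hx.1, fun y hy => ?_⟩)
    obtain ⟨ρ, hρ, u, hu, e1⟩ := ((hR0 y).1 hy).2
    have k1 : Commute (d.a⁻¹ * ρ * d.a⁻¹⁻¹ * ρ⁻¹) x :=
      hx.1.2 _ (mul_mem (L.lA_nr (inv_mem L.aL) hρ) (inv_mem hρ))
    have k2 : Commute y x := hx.2 y hy
    have k3 : d.a⁻¹ * ρ * d.a⁻¹⁻¹ * ρ⁻¹ * y = d.a⁻¹ * y * d.a := by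
      rw [e1, mul_assoc d.a⁻¹ (ρ * u), mul_assoc ρ u, ← hu]; group
    have k4 := (k1.mul_left k2).eq
    rw [k3] at k4
    calc y * (d.a * x * d.a⁻¹) = d.a * (d.a⁻¹ * y * d.a * x) * d.a⁻¹ := by group
      _ = d.a * x * d.a⁻¹ * y := by rw [k4]; group
  have one : ∀ x ∈ d.R ⊓ 𝐂[d.R] ⊓ 𝐂[R0], x * x = 1 ∧ ⁅τ, x⁆ ∈ e.Z ∧ ∃ σ ∈ e.R, ∃ v ∈ e.L,
      e.a * v = v * e.a ∧ x = σ * v ∧ v * v = σ * σ ∧ (∀ y ∈ R0, ⁅y, σ⁆ = 1) ∧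
        ∀ y ∈ e.R, y ∉ R0 → ⁅y, σ⁆ = ⁅τ, x⁆ := fun x hx => by
    have x2 : x * x = 1 := L.ab inf_le_left (nC L.aL)
      (inf_le_right.trans (centralizer_anti inf_le_left)) hx.1
    have px := h.pl e he d hd x hx.1.1 (h1 hx.1.1) x2
    have c0 : ∀ y ∈ R0, ⁅y, x⁆ = 1 := fun y hy => commutatorElement_eq_one_iff_mul_comm.2 (hx.2 y hy)
    have w0 : R0 ≤ W e x := fun y hy => L'.mem_W.2 ⟨r0 hy, c0 y hy ▸ one_mem _⟩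
    have w : e.R ≤ W e x := L'.le_of_idx (L'.W_norm px) fun a ha b hb na nb =>
      w0 (idx a ha b hb (fun k => na (w0 k)) fun k => nb (w0 k))
    have zτ := (L'.mem_W.1 (w hτ)).2
    obtain ⟨σ, hσ, v, hv, bv, vZ, e1⟩ := L'.dec1 (h1 hx.1.1) px (RZ' hx.1.1)
    obtain ⟨-, e2, -, e3⟩ := L'.dec2 hσ hv bv vZ (e1 ▸ x2)
    rw [← e1] at e3
    refine ⟨x2, zτ, σ, hσ, v, hv, bv, e1, e2, fun y hy => (e3 y (w0 hy)).symm.trans (c0 y hy),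
      fun y hy ny => (e3 y (w hy)).symm.trans ?_⟩
    have := c0 _ (idx y hy τ hτ ny τ0)
    rw [L'.comm_mul (w hy) (w hτ), ← L'.Z2 _ zτ] at this
    exact mul_right_cancel this
  have two : ∀ z ∈ e.Z, ∃ x ∈ d.R ⊓ 𝐂[d.R] ⊓ 𝐂[R0], ⁅τ, x⁆ = z := fun z hz => by
    have zU : z ∈ d.R ⊓ 𝐂[d.R] ⊓ 𝐂[R0] :=
      ⟨⟨ZR hz, le_centralizer_iff.1 RZ' hz⟩, fun y hy => L'.Zc hz y (r0 hy)⟩
    obtain ⟨x, hx, k⟩ := L.lp_exists inf_le_left aU zU (h2 hτ) (psq τ hτ) nτ (L'.lA_zc hz hτ)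
    obtain ⟨x2, zτ, -⟩ := one x hx
    have e1 : τ * x * τ⁻¹ * z * x = ⁅τ, x⁆ * z := by
      rw [mul_assoc _ z, hx.1.2 z (ZR hz), commutatorElement_def, inv_eq_of_mul_eq_one_right x2,
        ← mul_assoc]
    rw [e1] at k
    have := h.disj hd he ad k (mul_mem zτ hz)
    rw [← L'.Z2 z hz] at this
    exact ⟨x, hx, mul_right_cancel this⟩
  have tZ := L'.sq τ hτ
  obtain ⟨z1, hz1, n1, n2⟩ : ∃ z ∈ e.Z, z ≠ 1 ∧ z ≠ τ * τ := by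
    by_contra! k
    refine c2 (Nat.card_eq_two_iff.2 ⟨1, ⟨_, tZ⟩, fun c => sqne τ hτ τ0 (congrArg Subtype.val c).symm,
      Set.eq_univ_of_forall fun z => ?_⟩)
    by_cases c : (z : G) = 1
    · exact Or.inl (Subtype.ext c)
    · exact Or.inr (Subtype.ext (k z z.2 c))
  obtain ⟨x0, hx0, f0⟩ := two _ tZ
  obtain ⟨x1, hx1, f1⟩ := two _ hz1
  obtain ⟨x2, -, σ0, s0, v0, hv0, bv0, g0, q0, a0, b0⟩ := one x0 hx0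
  obtain ⟨-, -, σ1, s1, -, -, -, -, -, -, b1⟩ := one x1 hx1
  rw [f0] at b0
  rw [f1] at b1
  have sq0 : σ0 * σ0 = 1 := L'.ab_gen s0 fun i => by
    refine commutatorElement_eq_one_iff_mul_comm.1 (a0 _ ?_)
    by_contra ns
    have bi : e.a ^ i ∈ e.L := pow_mem L'.aL i
    have k1 := b1 _ (L'.lA_nr bi s0) ns
    have k2 : z1 = e.a ^ i * ⁅(e.a ^ i)⁻¹ * σ1 * (e.a ^ i)⁻¹⁻¹, σ0⁆⁻¹ * (e.a ^ i)⁻¹ := by
      rw [← k1]; simp only [commutatorElement_def]; group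
    by_cases c : (e.a ^ i)⁻¹ * σ1 * (e.a ^ i)⁻¹⁻¹ ∈ R0
    · rw [a0 _ c] at k2
      exact n1 (by rw [k2]; group)
    · rw [b0 _ (L'.lA_nr (inv_mem bi) s1) c, inv_eq_of_mul_eq_one_right (L'.Z2 _ tZ),
        (Commute.pow_left (L'.Za _ tZ) i).eq, mul_inv_cancel_right] at k2
      exact n2 k2
  have xR : x0 ∈ e.R := g0 ▸ mul_mem s0 (L'.ZR (h.dec4 e he c2 v0 hv0 bv0 (q0.trans sq0)))
  have k : τ * x0 * (τ * x0) = 1 := by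
    calc τ * x0 * (τ * x0) = ⁅τ, x0⁆ * (x0 * (τ * τ)) * x0 := by
          simp only [commutatorElement_def]; group
      _ = τ * τ * (τ * τ) * (x0 * x0) := by rw [f0, L'.lA_zc tZ xR]; group
      _ = 1 := by rw [L'.Z2 _ tZ, x2, mul_one]
  have := L.pl_mul (h2 (mul_mem hτ xR)) (h.pl d hd e he _ (mul_mem hτ xR) (h2 (mul_mem hτ xR)) k)
    (pl_of_mem (inv_mem hx0.1.1))
  exact nτ (by simpa using this)

/-- `plus` twice, `mx0` -/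
theorem mx (h1 : d.R ≤ e.L) (h2 : e.R ≤ d.L) : d.Z = e.Z := by
  by_contra k
  exact k (h.mx0 d hd e he h1 h2 (h.plus he hd (Ne.symm k) h2 h1) (h.plus hd he k h1 h2))

end Fam

end Cfsg.Agent.Q3
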