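import Mathlib
import Cfsg.Agent.Q3.LocA
import Cfsg.Agent.Solv.Coprime2
import Cfsg.Agent.TT.XS

/-!
S3256 (port of Q2 without nc, p ≥ 5), case `|Z| = 2`: two lemmas of pure group theory.
-/

set_option autoImplicit false
set_option linter.unusedSectionVars false
set_option linter.unusedVariables false

namespace Cfsg.Agent.Q3

open Subgroup Cfsg Cfsg.Agent.PLocal.Amb
open scoped commutatorElement

variable {G : Type*} [Group G] [Finite G] {p : ℕ} {d : Dat G}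

/-- PROOF.  `u` centralises `Z` (order 2, `nZ`).  `Y = {c * ⁅x, u⁆ | c ∈ Z, x ∈ R}` is a subgroup of `R`
containing `Z` (`⁅x y, u⁆ = x ⁅y, u⁆ x⁻¹ ⁅x, u⁆`, `comm_mem`).  For `x, y ∈ R`:
`⁅x, y⁆ = u ⁅x, y⁆ u⁻¹ = ⁅u x u⁻¹, u y u⁻¹⁆`; the commutator map `R × R → Z` is bimultiplicative.
(1) `R ⊓ 𝐂[Y] ≤ W`: if `x` centralises all `⁅y, u⁆ = y (u y u⁻¹)⁻¹` then `⁅x, y⁆ = ⁅x, u y u⁻¹⁆ =
⁅u x u⁻¹, y⁆` (`u u = 1`), so `⁅x, u⁆ ∈ R ⊓ 𝐂[R] ≤ Z`.
(2) Double centraliser: for `Z ≤ Y ≤ R`, `R ⊓ 𝐂[R ⊓ 𝐂[Y]] = Y` (nondegenerate alternating form on the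
`ZMod 2`-space `R ⧸ Z`; or by orders: `|R ⊓ 𝐂[Y]| * |Y| = |R| * 2`, induction on `Y`: adding `y ∉ Y`
halves the centraliser at most, and `|R : R ⊓ 𝐂[R]|`; look for extraspecial API with
`ca find "centralizer.*extraspecial|Extraspecial.*card"`).
So `ρ ∈ W ≤ R ⊓ 𝐂[W] ≤ R ⊓ 𝐂[R ⊓ 𝐂[Y]] = Y`, `ρ = c ⁅x, u⁆`, `ρ u = c (x u x⁻¹) = x (c u) x⁻¹`. -/
theorem Lc0.conj_of_ab (h : Lc0 p d) (hZ : Nat.card d.Z = 2) (hc : d.R ⊓ 𝐂[d.R] ≤ d.Z) {u ρ : G}
    (hu : u ∈ d.L) (h2 : u * u = 1) (hW : W d u ≤ 𝐂[W d u]) (hρ : ρ ∈ W d u) :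
    ∃ x ∈ d.R, ∃ c ∈ d.Z, ρ * u = x * (c * u) * x⁻¹ := by
  obtain ⟨z, hz1, hz⟩ := (Nat.card_eq_two_iff' (1 : d.Z)).1 hZ
  have key : ∀ x ∈ d.Z, x = 1 ∨ x = z := fun x hx => by
    by_cases e : (⟨x, hx⟩ : d.Z) = 1
    · left; exact congrArg Subtype.val e
    · right; exact congrArg Subtype.val (hz _ e)
  have hzne : (z : G) ≠ 1 := fun e => hz1 (Subtype.ext e)
  have xs : TT.XS d.R (z : G) := by
    refine ⟨h.ZR z.2, hzne, h.Z2 _ z.2, fun x hx => h.lA_zc z.2 hx, fun x hx y hy => ?_,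
      fun x hx k => key x (hc ⟨hx, fun y hy => (k y hy).symm⟩), ?_⟩
    · rcases key _ (h.comm_mem hx hy) with e | e
      · exact Or.inl (commutatorElement_eq_one_iff_mul_comm.1 e)
      · right
        rw [h.lA_zc z.2 (mul_mem hy hx), ← e, commutatorElement_def]; group
    · obtain ⟨x, hx, hx'⟩ := SetLike.not_le_iff_exists.1 h.not_le
      exact ⟨x, hx, fun e => hx' (e ▸ one_mem _), fun e => hx' (e ▸ z.2)⟩
  have uz : ∀ c ∈ d.Z, u * c * u⁻¹ = c := fun c hc => by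
    rcases key c hc with e | e
    · rw [e]; group
    · rcases key _ (h.lA_nz hu hc) with e' | e'
      · exact absurd (e ▸ (by simpa using e' : c = 1)) hzne
      · rw [e', e]
  have cu : ∀ x ∈ d.R, ⁅x, u⁆ ∈ d.R := fun x hx => by
    rw [show ⁅x, u⁆ = x * (u * x⁻¹ * u⁻¹) by simp only [commutatorElement_def, mul_assoc]]
    exact mul_mem hx (h.lA_nr hu (inv_mem hx))
  let Y : Subgroup G :=
    { carrier := {y | ∃ x ∈ d.R, y * ⁅x, u⁆⁻¹ ∈ d.Z}
      one_mem' := ⟨1, one_mem _, by simp⟩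
      mul_mem' := by
        rintro a b ⟨x, hx, ha⟩ ⟨y, hy, hb⟩
        refine ⟨y * x, mul_mem hy hx, ?_⟩
        have e : a * b * ⁅y * x, u⁆⁻¹ = a * ⁅x, u⁆⁻¹ *
            (⁅x, u⁆ * (b * ⁅y, u⁆⁻¹) * ⁅x, u⁆⁻¹) * ⁅⁅x, u⁆, y⁆ := by
          rw [show ⁅y * x, u⁆ = y * ⁅x, u⁆ * y⁻¹ * ⁅y, u⁆ by
            simp only [commutatorElement_def]; group, commutatorElement_def ⁅x, u⁆ y]
          group
        rw [e]
        exact mul_mem (mul_mem ha (h.lA_nz (h.RL (cu x hx)) hb)) (h.comm_mem (cu x hx) hy)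
      inv_mem' := by
        rintro a ⟨x, hx, ha⟩
        refine ⟨x⁻¹, inv_mem hx, ?_⟩
        have e : a⁻¹ * ⁅x⁻¹, u⁆⁻¹ = ⁅x, u⁆⁻¹ * (a * ⁅x, u⁆⁻¹)⁻¹ * ⁅x, u⁆⁻¹⁻¹ *
            ⁅⁅x, u⁆⁻¹, x⁻¹⁆ := by
          rw [show ⁅x⁻¹, u⁆ = x⁻¹ * ⁅x, u⁆⁻¹ * x⁻¹⁻¹ by
            simp only [commutatorElement_def]; group, commutatorElement_def ⁅x, u⁆⁻¹ x⁻¹]
          group
        rw [e]
        exact mul_mem (h.lA_nz (h.RL (inv_mem (cu x hx))) (inv_mem ha))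
          (h.comm_mem (inv_mem (cu x hx)) (inv_mem hx)) }
  have hY : Y ≤ d.R := by
    rintro a ⟨x, hx, ha⟩
    exact (mul_mem_cancel_right (inv_mem (cu x hx))).1 (h.ZR ha)
  obtain ⟨x, hx, e⟩ : ρ ∈ Y := by
    refine xs.mem_of_comm_centralizer hY ⟨1, one_mem _, by simp⟩ (h.W_le u hρ)
      fun q hq k => mem_centralizer_iff.1 (hW hρ) q (h.mem_W.2 ⟨hq, hc ⟨cu q hq, fun y hy => ?_⟩⟩)
    have k1 : y * (u * y * u⁻¹)⁻¹ ∈ centralizer ({q} : Set G) := by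
      rw [show y * (u * y * u⁻¹)⁻¹ = ⁅y, u⁆ by simp only [commutatorElement_def]; group]
      exact mem_centralizer_singleton_iff.2
        (k _ ⟨y, hy, by rw [mul_inv_cancel]; exact one_mem _⟩)
    have k2 : Commute q y ↔ Commute (u * q * u⁻¹)⁻¹ y := by
      rw [Commute.inv_left_iff, ← Commute.conj_iff (a := u * q * u⁻¹) u,
        show u * (u * q * u⁻¹) * u⁻¹ = u * u * q * (u * u)⁻¹ by group, h2, one_mul, inv_one,
        mul_one, Commute.symm_iff, Commute.symm_iff (a := q), commute_iff_eq, commute_iff_eq,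
        ← mem_centralizer_singleton_iff, ← mem_centralizer_singleton_iff,
        ← inv_mem_iff (x := u * y * u⁻¹)]
      exact ⟨fun m => (mul_mem_cancel_left m).1 k1, fun m => (mul_mem_cancel_right m).1 k1⟩
    rw [show ⁅q, u⁆ = q * (u * q * u⁻¹)⁻¹ by simp only [commutatorElement_def]; group]
    by_cases c : Commute q y
    · exact (c.mul_left (k2.1 c)).eq.symm
    · exact (xs.mul_comm_of_not_comm hy hq (inv_mem (h.lA_nr hu hq)) c fun c' => c (k2.2 c')).symm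
  refine ⟨x, hx, _, e, ?_⟩
  rw [mul_assoc, mul_assoc, ← mul_assoc x, h.lA_zc e hx, commutatorElement_def]
  group

/-- PROOF.  If `u = 1` or `u = z` any `o` not commuting with `z` works.  Else `{1, z, u, u z}` is a
four-group acting on `O`, and `O` is generated by the centralisers of `z`, `u`, `u z` (coprime action of
a noncyclic abelian group: `ca find "noncyclic|iSup.*centralizer"` in Solv/, Core2/, Sig/); if all three
centralise `z` then `O` does. -/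
theorem exists_four {O : Subgroup G} (hO : Odd (Nat.card O)) {z u : G} (hz : z * z = 1)
    (hu : u * u = 1) (hc : u * z = z * u) (hzn : z ∈ 𝐍[O]) (hun : u ∈ 𝐍[O]) (h1 : z ∉ 𝐂[O]) :
    ∃ o ∈ O, o * z ≠ z * o ∧ (o * u = u * o ∨ o * (u * z) = u * z * o) := by
  obtain ⟨k, hk⟩ := hO
  have hn : ∀ m ∈ O, m ^ (2 * k + 1) = 1 := fun m hm => by
    rw [← hk]; exact congrArg Subtype.val (pow_card_eq_one' (x := (⟨m, hm⟩ : O)))
  have h2 : ∀ m ∈ O, m * m = 1 → m = 1 := fun m hm e => by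
    have := hn m hm
    rwa [pow_succ, pow_mul, pow_two, e, one_pow, one_mul] at this
  have zi : z⁻¹ = z := inv_eq_of_mul_eq_one_right hz
  have ui : u⁻¹ = u := inv_eq_of_mul_eq_one_right hu
  obtain ⟨x, hx, hx'⟩ : ∃ x ∈ O, x * z ≠ z * x := by
    by_contra c
    push Not at c
    exact h1 c
  obtain ⟨y, hy, t, ht, e, hy1⟩ : ∃ y ∈ O, ∃ t, t * t = 1 ∧ t = y * z ∧ y ≠ 1 := by
    refine ⟨x * (z * x⁻¹ * z⁻¹), mul_mem hx (conj_mem_of_mem_normalizer hzn (inv_mem hx)),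
      x * z * x⁻¹, ?_, by group, fun c => hx' ?_⟩
    · rw [_root_.conj_mul, hz]; group
    · calc x * z = x * (z * x⁻¹ * z⁻¹) * (z * x) := by group
        _ = _ := by rw [c, one_mul]
  obtain ⟨r, er⟩ : ∃ r, r = t * (u * t * u⁻¹) := ⟨_, rfl⟩
  have ti : t⁻¹ = t := inv_eq_of_mul_eq_one_right ht
  have hr : r ∈ O := by
    have : r = y * (z * (u * y * u⁻¹) * z⁻¹) := by
      rw [er, e, zi]
      calc _ = y * z * (u * y * u⁻¹) * (u * z * u⁻¹) := by group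
        _ = _ := by rw [hc]; group
    rw [this]
    exact mul_mem hy (conj_mem_of_mem_normalizer hzn (conj_mem_of_mem_normalizer hun hy))
  have e1 : t * r * t⁻¹ = r⁻¹ := by
    rw [er]
    calc _ = t * t * (u * t * u⁻¹) * t⁻¹ := by group
      _ = u * t⁻¹ * u⁻¹ * t⁻¹ := by rw [ht, ti, one_mul]
      _ = _ := by group
  have e2 : u * t * u⁻¹ = r⁻¹ * t := by rw [← e1, er, inv_mul_cancel_right, ← mul_assoc, ht, one_mul]
  have e3 : u * r * u⁻¹ = r⁻¹ := by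
    calc u * r * u⁻¹ = u * t * u⁻¹ * (u * u * t * (u * u)⁻¹) := by rw [er]; group
      _ = r⁻¹ := by rw [hu, e2, one_mul, inv_one, mul_one, mul_assoc, ht, mul_one]
  have e4 : (r ^ k)⁻¹ * r⁻¹ = r ^ k := by
    have := hn r hr
    rw [pow_succ, two_mul, pow_add] at this
    rw [← mul_inv_rev, inv_eq_iff_mul_eq_one, ← pow_succ', pow_succ, mul_assoc, ← pow_succ',
      pow_succ, ← mul_assoc, this]
  have e5 : u * (r ^ k * t) * u⁻¹ = r ^ k * t := by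
    rw [← _root_.conj_mul, ← conj_pow, e3, e2, inv_pow, ← mul_assoc, e4]
  have e6 : t * r ^ k * t⁻¹ = (r ^ k)⁻¹ := by rw [← conj_pow, e1, inv_pow]
  have hm : r ^ k * y ∈ O := mul_mem (pow_mem hr k) hy
  by_cases c : r ^ k * y * z = z * (r ^ k * y)
  · have e7 : r ^ k * y = 1 := h2 _ hm (by
      calc _ = r ^ k * y * (r ^ k * y * z) * z := by rw [mul_assoc _ _ z, mul_assoc _ z, hz, mul_one]
        _ = r ^ k * (t * r ^ k * t⁻¹) * (t * t) := by rw [c, e]; group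
        _ = 1 := by rw [e6, ht]; group)
    rw [e] at ht
    refine ⟨y, hy, fun c' => hy1 (h2 y hy ?_), Or.inr ?_⟩
    · rwa [mul_assoc, ← mul_assoc z, ← c', mul_assoc, hz, mul_one] at ht
    · have a1 : u * y⁻¹ * u⁻¹ = y := by
        rw [← eq_inv_of_mul_eq_one_left e7, ← conj_pow, e3, inv_pow, eq_inv_of_mul_eq_one_left e7,
          inv_inv]
      have a2 : z * y * z⁻¹ = y⁻¹ := by
        rw [zi]; exact eq_inv_of_mul_eq_one_right (by rw [← ht]; group)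
      calc y * (u * z) = u * (z * y * z⁻¹) * u⁻¹ * (u * z) := by rw [a2, a1]
        _ = _ := by group
  · refine ⟨_, hm, c, Or.inl ?_⟩
    rw [e, mul_inv_eq_iff_eq_mul] at e5
    refine mul_right_cancel (b := z) ?_
    rw [mul_assoc, hc, mul_assoc u, mul_assoc (r ^ k) y z, e5]
    group

end Cfsg.Agent.Q3
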